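import Cfsg.Agent.Lib.Helper94.PlaneTwo

set_option autoImplicit false
set_option linter.unusedSectionVars false

namespace Cfsg.Agent.Lib.Helper94

open Cfsg Cfsg.Geo
open scoped MatrixGroups Matrix commutatorElement

variable {ι : Type} [Fintype ι] [DecidableEq ι] {F : Type*} [Field F]
variable {Q : (ι → F) → F}

/-- A non-zero subspace on which the polar form is non-degenerate has a non-singular vector. -/
lemma exists_nonsingular_mem (D : Submodule F (ι → F))
    (hD : IsNondegenerateOn (QuadraticMap.polar Q) D) (hne : D ≠ ⊥) : ∃ f ∈ D, Q f ≠ 0 := by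
  by_contra hcon
  have h0 : ∀ f ∈ D, Q f = 0 := fun f hf => by
    by_contra h
    exact hcon ⟨f, hf, h⟩
  obtain ⟨v, hvD, hv⟩ := Submodule.exists_mem_ne_zero_of_ne_bot hne
  obtain ⟨⟨x, hxD, hx⟩, -⟩ := hD v hvD hv
  apply hx
  simp only [QuadraticMap.polar]
  rw [h0 _ (D.add_mem hxD hvD), h0 x hxD, h0 v hvD]
  ring

/-- The part of a subspace orthogonal to a vector. -/
def perpIn (hQ : IsNondegenerateQuadraticForm Q) (D : Submodule F (ι → F)) (f : ι → F) :
    Submodule F (ι → F) := D ⊓ LinearMap.ker (polL hQ f)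

lemma mem_perpIn (hQ : IsNondegenerateQuadraticForm Q) (D : Submodule F (ι → F)) (f v : ι → F) :
    v ∈ perpIn hQ D f ↔ v ∈ D ∧ pol Q v f = 0 := by
  simp [perpIn, polL]

lemma perpIn_nondeg (hQ : IsNondegenerateQuadraticForm Q) (h2 : (2 : F) ≠ 0)
    (D : Submodule F (ι → F)) (hD : IsNondegenerateOn (QuadraticMap.polar Q) D)
    (f : ι → F) (hfD : f ∈ D) (hf : Q f ≠ 0) :
    IsNondegenerateOn (QuadraticMap.polar Q) (perpIn hQ D f) := by
  have key : ∀ v ∈ perpIn hQ D f, v ≠ 0 → ∃ x ∈ perpIn hQ D f, pol Q x v ≠ 0 := by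
    intro v hv hv0
    rw [mem_perpIn] at hv
    obtain ⟨⟨x, hxD, hx⟩, -⟩ := hD v hv.1 hv0
    have hx' : pol Q x v ≠ 0 := hx
    have hff : pol Q f f ≠ 0 := by
      rw [pol_self hQ]
      exact mul_ne_zero h2 hf
    refine ⟨x - (pol Q x f / pol Q f f) • f, ?_, ?_⟩
    · rw [mem_perpIn]
      refine ⟨D.sub_mem hxD (D.smul_mem _ hfD), ?_⟩
      rw [pol_sub_left hQ, pol_smul_left hQ]
      field_simp
      ring
    · rw [pol_sub_left hQ, pol_smul_left hQ, pol_comm f v, hv.2]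
      simpa using hx'
  intro v hv hv0
  obtain ⟨x, hx, hxv⟩ := key v hv hv0
  exact ⟨⟨x, hx, hxv⟩, ⟨x, hx, by rw [QuadraticMap.polar_comm]; exact hxv⟩⟩

/-- A non-zero vector of `D` orthogonal to one given vector, when `D` has dimension at least 2. -/
lemma perpIn_ne_bot (hQ : IsNondegenerateQuadraticForm Q) (D : Submodule F (ι → F)) (f : ι → F)
    (hdim : 2 ≤ Module.finrank F D) : perpIn hQ D f ≠ ⊥ := by
  let φ : D →ₗ[F] F := (polL hQ f).domRestrict D
  have hker : LinearMap.ker φ ≠ ⊥ := by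
    apply LinearMap.ker_ne_bot_of_finrank_lt
    rw [Module.finrank_self]
    omega
  obtain ⟨v, hvker, hv⟩ := Submodule.exists_mem_ne_zero_of_ne_bot hker
  intro h
  have hmem : (v : ι → F) ∈ perpIn hQ D f := by
    rw [mem_perpIn]
    exact ⟨v.2, LinearMap.mem_ker.mp hvker⟩
  rw [h, Submodule.mem_bot] at hmem
  exact hv (Subtype.ext hmem)

/-- A non-zero vector of `D` orthogonal to two given vectors, when `D` has dimension at least 3. -/
lemma perpIn_perpIn_ne_bot (hQ : IsNondegenerateQuadraticForm Q) (D : Submodule F (ι → F))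
    (f1 f2 : ι → F) (hdim : 3 ≤ Module.finrank F D) : perpIn hQ (perpIn hQ D f1) f2 ≠ ⊥ := by
  let φ : D →ₗ[F] F × F := ((polL hQ f1).prod (polL hQ f2)).domRestrict D
  have hker : LinearMap.ker φ ≠ ⊥ := by
    apply LinearMap.ker_ne_bot_of_finrank_lt
    rw [Module.finrank_prod, Module.finrank_self]
    omega
  obtain ⟨v, hvker, hv⟩ := Submodule.exists_mem_ne_zero_of_ne_bot hker
  intro h
  have hk := LinearMap.mem_ker.mp hvker
  have hmem : (v : ι → F) ∈ perpIn hQ (perpIn hQ D f1) f2 := by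
    rw [mem_perpIn, mem_perpIn]
    exact ⟨⟨v.2, congrArg Prod.fst hk⟩, congrArg Prod.snd hk⟩
  rw [h, Submodule.mem_bot] at hmem
  exact hv (Subtype.ext hmem)

/-- An orthogonal basis of non-singular vectors of a 3-dimensional non-degenerate subspace. -/
lemma exists_orth_three (hQ : IsNondegenerateQuadraticForm Q) (h2 : (2 : F) ≠ 0)
    (D : Submodule F (ι → F)) (hfr : Module.finrank F D = 3)
    (hD : IsNondegenerateOn (QuadraticMap.polar Q) D) :
    ∃ f1 f2 f3 : ι → F, f1 ∈ D ∧ f2 ∈ D ∧ f3 ∈ D ∧ Q f1 ≠ 0 ∧ Q f2 ≠ 0 ∧ Q f3 ≠ 0 ∧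
      pol Q f1 f2 = 0 ∧ pol Q f1 f3 = 0 ∧ pol Q f2 f3 = 0 ∧
      ∀ v ∈ D, ∃ x y z : F, v = x • f1 + y • f2 + z • f3 := by
  have hDne : D ≠ ⊥ := by
    intro h
    rw [h] at hfr
    simp at hfr
  obtain ⟨f1, hf1D, hf1⟩ := exists_nonsingular_mem D hD hDne
  have hD1 := perpIn_nondeg hQ h2 D hD f1 hf1D hf1
  obtain ⟨f2, hf2D1, hf2⟩ := exists_nonsingular_mem _ hD1 (perpIn_ne_bot hQ D f1 (by omega))
  have hD2 := perpIn_nondeg hQ h2 _ hD1 f2 hf2D1 hf2
  obtain ⟨f3, hf3D2, hf3⟩ :=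
    exists_nonsingular_mem _ hD2 (perpIn_perpIn_ne_bot hQ D f1 f2 (by omega))
  rw [mem_perpIn] at hf2D1
  rw [mem_perpIn, mem_perpIn] at hf3D2
  obtain ⟨hf2D, h21⟩ := hf2D1
  obtain ⟨⟨hf3D, h31⟩, h32⟩ := hf3D2
  have h12 : pol Q f1 f2 = 0 := by rw [pol_comm, h21]
  have h13 : pol Q f1 f3 = 0 := by rw [pol_comm, h31]
  have h23 : pol Q f2 f3 = 0 := by rw [pol_comm, h32]
  refine ⟨f1, f2, f3, hf1D, hf2D, hf3D, hf1, hf2, hf3, h12, h13, h23, ?_⟩
  have hli : LinearIndependent F ![f1, f2, f3] := by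
    rw [Fintype.linearIndependent_iff]
    intro g hg
    simp only [Fin.sum_univ_three, Matrix.cons_val_zero, Matrix.cons_val_one,
      Matrix.cons_val_two, Matrix.head_cons, Matrix.tail_cons] at hg
    have e1 : pol Q (g 0 • f1 + g 1 • f2 + g 2 • f3) f1 = 0 := by rw [hg, pol_zero_left hQ]
    have e2 : pol Q (g 0 • f1 + g 1 • f2 + g 2 • f3) f2 = 0 := by rw [hg, pol_zero_left hQ]
    have e3 : pol Q (g 0 • f1 + g 1 • f2 + g 2 • f3) f3 = 0 := by rw [hg, pol_zero_left hQ]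
    simp only [pol_add_left hQ, pol_smul_left hQ, pol_self hQ, h21, h31, h32, h12, h13, h23,
      mul_zero, add_zero, zero_add] at e1 e2 e3
    intro i
    fin_cases i
    · simpa [h2, hf1] using e1
    · simpa [h2, hf2] using e2
    · simpa [h2, hf3] using e3
  have hspan_le : Submodule.span F (Set.range ![f1, f2, f3]) ≤ D := by
    rw [Submodule.span_le]
    rintro v ⟨i, rfl⟩
    fin_cases i
    · exact hf1D
    · exact hf2D
    · exact hf3D
  have hfr' : Module.finrank F (Submodule.span F (Set.range ![f1, f2, f3])) = 3 := by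
    have := finrank_span_eq_card hli
    simpa using this
  have heq : Submodule.span F (Set.range ![f1, f2, f3]) = D :=
    Submodule.eq_of_le_of_finrank_eq hspan_le (by rw [hfr', hfr])
  intro v hv
  rw [← heq, Submodule.mem_span_range_iff_exists_fun] at hv
  obtain ⟨c, hc⟩ := hv
  refine ⟨c 0, c 1, c 2, ?_⟩
  rw [← hc]
  simp [Fin.sum_univ_three]

/-- An orthogonal basis of non-singular vectors of a 2-dimensional non-degenerate subspace. -/
lemma exists_orth_two (hQ : IsNondegenerateQuadraticForm Q) (h2 : (2 : F) ≠ 0)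
    (D : Submodule F (ι → F)) (hfr : Module.finrank F D = 2)
    (hD : IsNondegenerateOn (QuadraticMap.polar Q) D) :
    ∃ f1 f2 : ι → F, f1 ∈ D ∧ f2 ∈ D ∧ Q f1 ≠ 0 ∧ Q f2 ≠ 0 ∧ pol Q f1 f2 = 0 ∧
      ∀ v ∈ D, ∃ x y : F, v = x • f1 + y • f2 := by
  have hDne : D ≠ ⊥ := by
    intro h
    rw [h] at hfr
    simp at hfr
  obtain ⟨f1, hf1D, hf1⟩ := exists_nonsingular_mem D hD hDne
  have hD1 := perpIn_nondeg hQ h2 D hD f1 hf1D hf1
  obtain ⟨f2, hf2D1, hf2⟩ := exists_nonsingular_mem _ hD1 (perpIn_ne_bot hQ D f1 (by omega))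
  rw [mem_perpIn] at hf2D1
  obtain ⟨hf2D, h21⟩ := hf2D1
  have h12 : pol Q f1 f2 = 0 := by rw [pol_comm, h21]
  refine ⟨f1, f2, hf1D, hf2D, hf1, hf2, h12, ?_⟩
  have hli : LinearIndependent F ![f1, f2] := by
    rw [LinearIndependent.pair_iff]
    intro s t hst
    have e1 : pol Q (s • f1 + t • f2) f1 = 0 := by rw [hst, pol_zero_left hQ]
    have e2 : pol Q (s • f1 + t • f2) f2 = 0 := by rw [hst, pol_zero_left hQ]
    simp only [pol_add_left hQ, pol_smul_left hQ, pol_self hQ, h21, h12, mul_zero, add_zero,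
      zero_add] at e1 e2
    constructor
    · simpa [h2, hf1] using e1
    · simpa [h2, hf2] using e2
  have hspan_le : Submodule.span F {f1, f2} ≤ D := by
    rw [Submodule.span_le]
    intro v hv
    rcases hv with rfl | rfl
    · exact hf1D
    · exact hf2D
  have hfr' : Module.finrank F (Submodule.span F {f1, f2}) = 2 := by
    have := finrank_span_eq_card hli
    rw [Matrix.range_cons_cons_empty] at this
    simpa using this
  have heq : Submodule.span F {f1, f2} = D :=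
    Submodule.eq_of_le_of_finrank_eq hspan_le (by rw [hfr', hfr])
  intro v hv
  rw [← heq, Submodule.mem_span_pair] at hv
  obtain ⟨a, b, hab⟩ := hv
  exact ⟨a, b, hab.symm⟩

end Cfsg.Agent.Lib.Helper94
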