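import Cfsg.Agent.Lib.Helper94.Frame

set_option autoImplicit false
set_option linter.unusedSectionVars false

namespace Cfsg.Agent.Lib.Helper94

open Cfsg Cfsg.Geo
open scoped MatrixGroups Matrix commutatorElement

variable {ι : Type} [Fintype ι] [DecidableEq ι] {F : Type*} [Field F]
variable {Q : (ι → F) → F}

/-- `p, q` start a frame of value `c` for the subspace `D`. -/
def IsFramePair (Q : (ι → F) → F) (D : Submodule F (ι → F)) (c : F) (p q : ι → F) : Prop :=
  p ∈ D ∧ q ∈ D ∧ Q p = c ∧ Q q = c ∧ pol Q p q = 0 ∧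
    ∀ v ∈ D, Q v = c → (v = p ∨ v = -p ∨ v = q ∨ v = -q ∨ (pol Q v p = 0 ∧ pol Q v q = 0))

lemma zero_or_one_or_neg_one [Fintype F] (hF : Fintype.card F = 3) (a : F) :
    a = 0 ∨ a = 1 ∨ a = -1 := by
  by_cases ha : a = 0
  · exact Or.inl ha
  · exact Or.inr (eq_one_or_neg_one hF a ha)

lemma two_ne_zero_of_card_three [Fintype F] (hF : Fintype.card F = 3) : (2 : F) ≠ 0 := by
  have h3 := three_eq_zero hF
  intro h
  have : (1 : F) = 0 := by linear_combination h3 - h
  exact one_ne_zero this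

lemma frame_three_aux [Fintype F] (hF : Fintype.card F = 3) (hQ : IsNondegenerateQuadraticForm Q)
    (D : Submodule F (ι → F)) (c : F) (hc : c ≠ 0) (e0 e1 e2 : ι → F)
    (h0 : e0 ∈ D) (h1 : e1 ∈ D) (hQ0 : Q e0 = c) (hQ1 : Q e1 = c) (hQ2 : Q e2 = c)
    (h01 : pol Q e0 e1 = 0) (h02 : pol Q e0 e2 = 0) (h12 : pol Q e1 e2 = 0)
    (hspan : ∀ v ∈ D, ∃ x y z : F, v = x • e0 + y • e1 + z • e2) :
    IsFramePair Q D c e0 e1 := by
  have h3 := three_eq_zero hF
  have h10 : pol Q e1 e0 = 0 := by rw [pol_comm, h01]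
  have h20 : pol Q e2 e0 = 0 := by rw [pol_comm, h02]
  have h21 : pol Q e2 e1 = 0 := by rw [pol_comm, h12]
  refine ⟨h0, h1, hQ0, hQ1, h01, ?_⟩
  intro v hv hQv
  obtain ⟨x, y, z, rfl⟩ := hspan v hv
  have hsum : x ^ 2 + y ^ 2 + z ^ 2 = 1 := by
    have h : Q (x • e0 + y • e1 + z • e2) = c * (x ^ 2 + y ^ 2 + z ^ 2) := by
      simp only [Q_add (Q := Q), Q_smul hQ, pol_add_left hQ, pol_smul_left hQ, pol_smul_right hQ,
        hQ0, hQ1, hQ2, h01, h02, h12]
      ring
    rw [h] at hQv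
    have : c * (x ^ 2 + y ^ 2 + z ^ 2) = c * 1 := by rw [hQv, mul_one]
    exact mul_left_cancel₀ hc this
  have hp0 : pol Q (x • e0 + y • e1 + z • e2) e0 = 2 * c * x := by
    simp only [pol_add_left hQ, pol_smul_left hQ, pol_self hQ, hQ0, h10, h20]
    ring
  have hp1 : pol Q (x • e0 + y • e1 + z • e2) e1 = 2 * c * y := by
    simp only [pol_add_left hQ, pol_smul_left hQ, pol_self hQ, hQ1, h01, h21]
    ring
  rcases zero_or_one_or_neg_one hF x with rfl | rfl | rfl <;>
  rcases zero_or_one_or_neg_one hF y with rfl | rfl | rfl <;>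
  rcases zero_or_one_or_neg_one hF z with rfl | rfl | rfl <;>
  first
  | (left; simp; done)
  | (right; left; simp; done)
  | (right; right; left; simp; done)
  | (right; right; right; left; simp; done)
  | (right; right; right; right; exact ⟨hp0.trans (by ring1), hp1.trans (by ring1)⟩)
  | (exfalso; exact one_ne_zero (by linear_combination hsum : (1 : F) = 0))
  | (exfalso; exact one_ne_zero (by linear_combination -hsum : (1 : F) = 0))
  | (exfalso; exact one_ne_zero (by linear_combination h3 - hsum : (1 : F) = 0))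

lemma frame_three_norm [Fintype F] (hF : Fintype.card F = 3) (hQ : IsNondegenerateQuadraticForm Q)
    (D : Submodule F (ι → F)) (a : F) (ha : a ≠ 0) (f1 f2 f3 : ι → F)
    (h1 : f1 ∈ D) (h2 : f2 ∈ D) (hQ1 : Q f1 = a) (hQ2 : Q f2 = a) (hQ3 : Q f3 = -a)
    (h12 : pol Q f1 f2 = 0) (h13 : pol Q f1 f3 = 0) (h23 : pol Q f2 f3 = 0)
    (hspan : ∀ v ∈ D, ∃ x y z : F, v = x • f1 + y • f2 + z • f3) :
    ∃ (c : F) (p q : ι → F), c ≠ 0 ∧ IsFramePair Q D c p q := by
  have h3 := three_eq_zero hF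
  have h21 : pol Q f2 f1 = 0 := by rw [pol_comm, h12]
  refine ⟨-a, f1 + f2, f1 - f2, neg_ne_zero.mpr ha, ?_⟩
  refine frame_three_aux hF hQ D (-a) (neg_ne_zero.mpr ha) (f1 + f2) (f1 - f2) f3
    (D.add_mem h1 h2) (D.sub_mem h1 h2) ?_ ?_ hQ3 ?_ ?_ ?_ ?_
  · rw [Q_add (Q := Q), hQ1, hQ2, h12]
    linear_combination a * h3
  · rw [Q_sub hQ, hQ1, hQ2, h12]
    linear_combination a * h3
  · simp only [pol_add_left hQ, pol_sub_right hQ, pol_self hQ, hQ1, hQ2, h12, h21]
    ring
  · rw [pol_add_left hQ, h13, h23, add_zero]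
  · rw [pol_sub_left hQ, h13, h23, sub_zero]
  · intro v hv
    obtain ⟨x, y, z, rfl⟩ := hspan v hv
    refine ⟨-(x + y), -(x - y), z, ?_⟩
    match_scalars <;> grind

/-- Over the field with three elements a 3-dimensional non-degenerate subspace has a frame. -/
lemma frame_three [Fintype F] (hF : Fintype.card F = 3) (hQ : IsNondegenerateQuadraticForm Q)
    (D : Submodule F (ι → F)) (hfr : Module.finrank F D = 3)
    (hD : IsNondegenerateOn (QuadraticMap.polar Q) D) :
    ∃ (c : F) (p q : ι → F), c ≠ 0 ∧ IsFramePair Q D c p q := by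
  have h2 := two_ne_zero_of_card_three hF
  obtain ⟨f1, f2, f3, h1, h2', h3', hQ1, hQ2, hQ3, h12, h13, h23, hspan⟩ :=
    exists_orth_three hQ h2 D hfr hD
  have hneg : ∀ a b : F, a ≠ 0 → b ≠ 0 → a ≠ b → b = -a := by
    intro a b ha hb hab
    rcases eq_one_or_neg_one hF a ha with rfl | rfl <;>
    rcases eq_one_or_neg_one hF b hb with rfl | rfl <;> simp_all
  have h21 : pol Q f2 f1 = 0 := by rw [pol_comm, h12]
  have h31 : pol Q f3 f1 = 0 := by rw [pol_comm, h13]
  have h32 : pol Q f3 f2 = 0 := by rw [pol_comm, h23]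
  by_cases e12 : Q f1 = Q f2
  · by_cases e13 : Q f1 = Q f3
    · exact ⟨Q f1, f1, f2, hQ1, frame_three_aux hF hQ D (Q f1) hQ1 f1 f2 f3 h1 h2' rfl e12.symm
        e13.symm h12 h13 h23 hspan⟩
    · exact frame_three_norm hF hQ D (Q f1) hQ1 f1 f2 f3 h1 h2' rfl e12.symm
        (hneg _ _ hQ1 hQ3 e13) h12 h13 h23 hspan
  · by_cases e13 : Q f1 = Q f3
    · refine frame_three_norm hF hQ D (Q f1) hQ1 f1 f3 f2 h1 h3' rfl e13.symm
        (hneg _ _ hQ1 hQ2 e12) h13 h12 h32 ?_
      intro v hv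
      obtain ⟨x, y, z, rfl⟩ := hspan v hv
      exact ⟨x, z, y, by module⟩
    · have e2 : Q f2 = -Q f1 := hneg _ _ hQ1 hQ2 e12
      have e3 : Q f3 = -Q f1 := hneg _ _ hQ1 hQ3 e13
      refine frame_three_norm hF hQ D (Q f2) hQ2 f2 f3 f1 h2' h3' rfl (by rw [e3, e2])
        (by rw [e2, neg_neg]) h23 h21 h31 ?_
      intro v hv
      obtain ⟨x, y, z, rfl⟩ := hspan v hv
      exact ⟨y, z, x, by module⟩

/-- Over the field with three elements an anisotropic 2-dimensional subspace has a frame. -/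
lemma frame_two_aniso [Fintype F] (hF : Fintype.card F = 3) (hQ : IsNondegenerateQuadraticForm Q)
    (D : Submodule F (ι → F)) (hfr : Module.finrank F D = 2)
    (hD : IsNondegenerateOn (QuadraticMap.polar Q) D)
    (haniso : ∀ v ∈ D, v ≠ 0 → Q v ≠ 0) :
    ∃ (c : F) (p q : ι → F), c ≠ 0 ∧ IsFramePair Q D c p q := by
  have h2 := two_ne_zero_of_card_three hF
  have h3 := three_eq_zero hF
  obtain ⟨f1, f2, h1, h2', hQ1, hQ2, h12, hspan⟩ := exists_orth_two hQ h2 D hfr hD
  have h21 : pol Q f2 f1 = 0 := by rw [pol_comm, h12]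
  have e12 : Q f2 = Q f1 := by
    by_contra hne
    have hneg : Q f2 = -Q f1 := by
      rcases eq_one_or_neg_one hF (Q f1) hQ1 with h | h <;>
      rcases eq_one_or_neg_one hF (Q f2) hQ2 with h' | h' <;> simp_all
    have hsum : Q (f1 + f2) = 0 := by rw [Q_add (Q := Q), hneg, h12]; ring
    have hz : f1 + f2 = 0 := by
      by_contra hnz
      exact haniso _ (D.add_mem h1 h2') hnz hsum
    have : pol Q (f1 + f2) f1 = 0 := by rw [hz, pol_zero_left hQ]
    rw [pol_add_left hQ, h21, pol_self hQ, add_zero] at this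
    exact mul_ne_zero h2 hQ1 this
  refine ⟨Q f1, f1, f2, hQ1, h1, h2', rfl, e12, h12, ?_⟩
  intro v hv hQv
  obtain ⟨x, y, rfl⟩ := hspan v hv
  have hsum : x ^ 2 + y ^ 2 = 1 := by
    have h : Q (x • f1 + y • f2) = Q f1 * (x ^ 2 + y ^ 2) := by
      simp only [Q_add (Q := Q), Q_smul hQ, pol_smul_left hQ, pol_smul_right hQ, e12, h12]
      ring
    rw [h] at hQv
    have : Q f1 * (x ^ 2 + y ^ 2) = Q f1 * 1 := by rw [hQv, mul_one]
    exact mul_left_cancel₀ hQ1 this
  rcases zero_or_one_or_neg_one hF x with rfl | rfl | rfl <;>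
  rcases zero_or_one_or_neg_one hF y with rfl | rfl | rfl <;>
  first
  | (left; simp; done)
  | (right; left; simp; done)
  | (right; right; left; simp; done)
  | (right; right; right; left; simp; done)
  | (exfalso; exact one_ne_zero (by linear_combination hsum : (1 : F) = 0))
  | (exfalso; exact one_ne_zero (by linear_combination -hsum : (1 : F) = 0))
  | (exfalso; exact one_ne_zero (by linear_combination h3 - hsum : (1 : F) = 0))

end Cfsg.Agent.Lib.Helper94
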