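import Cfsg.Agent.Lib.Helper94.Refl

set_option autoImplicit false
set_option linter.unusedSectionVars false

namespace Cfsg.Agent.Lib.Helper94

open Cfsg Cfsg.Geo
open scoped MatrixGroups Matrix commutatorElement

variable {ι : Type} [Fintype ι] [DecidableEq ι] {F : Type*} [Field F]
variable {Q : (ι → F) → F}

/-- A hyperbolic pair spanning a plus-type non-degenerate plane. -/
lemma exists_hyperbolic_pair (hQ : IsNondegenerateQuadraticForm Q) (W : Submodule F (ι → F))
    (hdimW : Module.finrank F W = 2) (hW : IsNondegenerateOn (QuadraticMap.polar Q) W)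
    (hplus : IsPlusTypeOn Q W) :
    ∃ u w : ι → F, u ∈ W ∧ w ∈ W ∧ Q u = 0 ∧ Q w = 0 ∧ pol Q u w = 1 ∧
      ∀ v ∈ W, ∃ a b : F, v = a • u + b • w := by
  obtain ⟨U, hUW, hU, hdimU⟩ := hplus
  have hU1 : Module.finrank F U = 1 := by omega
  have hUne : U ≠ ⊥ := by
    intro h
    rw [h] at hU1
    simp at hU1
  obtain ⟨u, huU, hune⟩ := Submodule.exists_mem_ne_zero_of_ne_bot hUne
  have hu0 : Q u = 0 := hU u huU
  have huW : u ∈ W := hUW huU
  obtain ⟨⟨x, hxW, hx⟩, -⟩ := hW u huW hune
  have hx' : pol Q x u ≠ 0 := hx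
  have hux : pol Q u x ≠ 0 := by rwa [pol_comm]
  set w1 : ι → F := x - (Q x / pol Q x u) • u with hw1
  have hw1W : w1 ∈ W := W.sub_mem hxW (W.smul_mem _ huW)
  have hQw1 : Q w1 = 0 := by
    rw [hw1, Q_sub hQ, Q_smul hQ, pol_smul_right hQ, hu0]
    field_simp
    ring
  have hBuw1 : pol Q u w1 = pol Q u x := by
    rw [hw1, pol_sub_right hQ, pol_smul_right hQ, pol_self hQ, hu0]
    ring
  set w : ι → F := (pol Q u x)⁻¹ • w1 with hw
  have hwW : w ∈ W := W.smul_mem _ hw1W
  have hQw : Q w = 0 := by rw [hw, Q_smul hQ, hQw1, mul_zero]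
  have hBuw : pol Q u w = 1 := by
    rw [hw, pol_smul_right hQ, hBuw1, inv_mul_cancel₀ hux]
  refine ⟨u, w, huW, hwW, hu0, hQw, hBuw, ?_⟩
  have hli : LinearIndependent F ![u, w] := by
    rw [LinearIndependent.pair_iff]
    intro s t hst
    have h1 : pol Q (s • u + t • w) w = 0 := by rw [hst, pol_zero_left hQ]
    have h2 : pol Q (s • u + t • w) u = 0 := by rw [hst, pol_zero_left hQ]
    rw [pol_add_left hQ, pol_smul_left hQ, pol_smul_left hQ, pol_self hQ, hQw, hBuw] at h1
    rw [pol_add_left hQ, pol_smul_left hQ, pol_smul_left hQ, pol_self hQ, hu0, pol_comm w u,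
      hBuw] at h2
    constructor
    · simpa using h1
    · simpa using h2
  have hspan_le : Submodule.span F {u, w} ≤ W := by
    rw [Submodule.span_le]
    intro v hv
    rcases hv with rfl | rfl
    · exact huW
    · exact hwW
  have hfr : Module.finrank F (Submodule.span F {u, w}) = 2 := by
    have := finrank_span_eq_card hli
    rw [Matrix.range_cons_cons_empty] at this
    simpa using this
  have heq : Submodule.span F {u, w} = W :=
    Submodule.eq_of_le_of_finrank_eq hspan_le (by rw [hfr, hdimW])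
  intro v hv
  rw [← heq, Submodule.mem_span_pair] at hv
  obtain ⟨a, b, hab⟩ := hv
  exact ⟨a, b, hab.symm⟩

/-- A non-singular vector orthogonal to a hyperbolic pair, in dimension at least 3. -/
lemma exists_perp_nonsingular (hQ : IsNondegenerateQuadraticForm Q) (hdim : 3 ≤ Fintype.card ι)
    (u w : ι → F) (hu : Q u = 0) (hw : Q w = 0) (huw : pol Q u w = 1) :
    ∃ z : ι → F, Q z ≠ 0 ∧ pol Q z u = 0 ∧ pol Q z w = 0 := by
  -- the projection to the orthogonal complement
  have hwu : pol Q w u = 1 := by rw [pol_comm, huw]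
  have hproj : ∀ v : ι → F, pol Q (v - pol Q v w • u - pol Q v u • w) u = 0 ∧
      pol Q (v - pol Q v w • u - pol Q v u • w) w = 0 ∧
      Q (v - pol Q v w • u - pol Q v u • w) = Q v - pol Q v u * pol Q v w := by
    intro v
    refine ⟨?_, ?_, ?_⟩
    · rw [pol_sub_left hQ, pol_sub_left hQ, pol_smul_left hQ, pol_smul_left hQ, pol_self hQ, hu,
        hwu]
      ring
    · rw [pol_sub_left hQ, pol_sub_left hQ, pol_smul_left hQ, pol_smul_left hQ, pol_self hQ, hw,
        huw]
      ring
    · simp only [Q_sub hQ, Q_smul hQ, hu, hw, pol_smul_right hQ, pol_sub_left hQ,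
        pol_smul_left hQ, huw]
      ring
  -- a non-zero vector orthogonal to u and w
  let φ : (ι → F) →ₗ[F] F × F := (polL hQ u).prod (polL hQ w)
  have hker : LinearMap.ker φ ≠ ⊥ := by
    apply LinearMap.ker_ne_bot_of_finrank_lt
    rw [Module.finrank_prod, Module.finrank_self, Module.finrank_fintype_fun_eq_card]
    omega
  obtain ⟨v0, hv0ker, hv0⟩ := Submodule.exists_mem_ne_zero_of_ne_bot hker
  have hv0u : pol Q v0 u = 0 := by
    have := LinearMap.mem_ker.mp hv0ker
    exact congrArg Prod.fst this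
  have hv0w : pol Q v0 w = 0 := by
    have := LinearMap.mem_ker.mp hv0ker
    exact congrArg Prod.snd this
  obtain ⟨-, ⟨v', hv'⟩⟩ := hQ.nondegenerate v0 hv0
  have hv'' : pol Q v0 v' ≠ 0 := hv'
  by_cases h0 : Q v0 = 0
  · by_cases h1 : Q v' - pol Q v' u * pol Q v' w = 0
    · obtain ⟨ha, hb, hc⟩ := hproj (v0 + v')
      refine ⟨_, ?_, ha, hb⟩
      rw [hc, Q_add (Q := Q), pol_add_left hQ, pol_add_left hQ, hv0u, hv0w, h0]
      intro h
      apply hv''
      linear_combination h - h1
    · obtain ⟨ha, hb, hc⟩ := hproj v'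
      exact ⟨_, by rw [hc]; exact h1, ha, hb⟩
  · exact ⟨v0, h0, hv0u, hv0w⟩

end Cfsg.Agent.Lib.Helper94
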