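import Cfsg.Agent.Lib.Helper94.Plane

set_option autoImplicit false
set_option linter.unusedSectionVars false

namespace Cfsg.Agent.Lib.Helper94

open Cfsg Cfsg.Geo
open scoped MatrixGroups Matrix commutatorElement

variable {ι : Type} [Fintype ι] [DecidableEq ι] {F : Type*} [Field F]
variable {Q : (ι → F) → F}

lemma three_eq_zero [Fintype F] (hF : Fintype.card F = 3) : (3 : F) = 0 := by
  have := FiniteField.cast_card_eq_zero F
  rw [hF] at this
  exact_mod_cast this

lemma eq_one_or_neg_one [Fintype F] (hF : Fintype.card F = 3) (a : F) (ha : a ≠ 0) :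
    a = 1 ∨ a = -1 := by
  have h := FiniteField.pow_card_sub_one_eq_one a ha
  rw [hF] at h
  have h' : (a - 1) * (a + 1) = 0 := by
    have : a ^ 2 = 1 := h
    linear_combination this
  rcases mul_eq_zero.mp h' with h | h
  · left; linear_combination h
  · right; linear_combination h

lemma gl_mulVec_injective (g : GL ι F) {v v' : ι → F}
    (h : (g : Matrix ι ι F) *ᵥ v = (g : Matrix ι ι F) *ᵥ v') : v = v' := by
  have h2 := congrArg (fun t => ((g⁻¹ : GL ι F) : Matrix ι ι F) *ᵥ t) h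
  simpa [Matrix.mulVec_mulVec] using h2

lemma mem_stabilizing_iff (g : GL ι F) (S : Set (ι → F)) :
    g ∈ stabilizing (glToMat ι F) S ↔ ∀ v, v ∈ S ↔ (g : Matrix ι ι F) *ᵥ v ∈ S := Iff.rfl

/-- Over the field with three elements, the stabiliser in Ω of a plus-type plane is not maximal. -/
theorem plus_plane_not_max_three [Fintype F] (hF : Fintype.card F = 3)
    (hQ : IsNondegenerateQuadraticForm Q) (hdim : 3 ≤ Fintype.card ι)
    (W : Submodule F (ι → F)) (hdimW : Module.finrank F W = 2)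
    (hW : IsNondegenerateOn (QuadraticMap.polar Q) W) (hplus : IsPlusTypeOn Q W) :
    ∃ K : Subgroup (GL ι F), subspaceStabilizer W ⊓ omegaGL Q < K ∧ K < omegaGL Q := by
  obtain ⟨u, w, huW, hwW, hu, hw, huw, hspan⟩ := exists_hyperbolic_pair hQ W hdimW hW hplus
  obtain ⟨z, hz, hzu, hzw⟩ := exists_perp_nonsingular hQ hdim u w hu hw huw
  have h3 := three_eq_zero hF
  have hwu : pol Q w u = 1 := by rw [pol_comm, huw]
  have huz : pol Q u z = 0 := by rw [pol_comm, hzu]
  have hwz : pol Q w z = 0 := by rw [pol_comm, hzw]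
  have huu : pol Q u u = 0 := by rw [pol_self hQ, hu, mul_zero]
  have hww : pol Q w w = 0 := by rw [pol_self hQ, hw, mul_zero]
  have hzW : z ∉ W := by
    intro hzW
    obtain ⟨a, b, hab⟩ := hspan z hzW
    have h1 : pol Q z u = b := by
      rw [hab, pol_add_left hQ, pol_smul_left hQ, pol_smul_left hQ, huu, hwu]; ring
    have h2 : pol Q z w = a := by
      rw [hab, pol_add_left hQ, pol_smul_left hQ, pol_smul_left hQ, hww, huw]; ring
    rw [hzu] at h1
    rw [hzw] at h2
    apply hz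
    rw [hab, ← h1, ← h2]
    simp [Q_zero hQ]
  obtain ⟨ε, hε⟩ : ∃ ε : F, Q z = ε := ⟨_, rfl⟩
  have hε0 : ε ≠ 0 := hε ▸ hz
  have hε1 : ε = 1 ∨ ε = -1 := eq_one_or_neg_one hF ε hε0
  have hεε : ε * ε = 1 := by rcases hε1 with h | h <;> rw [h] <;> ring
  have hzz : pol Q z z = 2 * ε := by rw [pol_self hQ, hε]
  -- the vectors
  obtain ⟨x1, hx1⟩ : ∃ x1 : ι → F, x1 = u - ε • w := ⟨_, rfl⟩
  obtain ⟨x2, hx2⟩ : ∃ x2 : ι → F, x2 = u + ε • w := ⟨_, rfl⟩
  obtain ⟨y, hy⟩ : ∃ y : ι → F, y = z - u := ⟨_, rfl⟩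
  have hQx1 : Q x1 = -ε := by
    rw [hx1, Q_sub hQ, Q_smul hQ, pol_smul_right hQ, hu, hw, huw]; ring
  have hQx2 : Q x2 = ε := by
    rw [hx2, Q_add (Q := Q), Q_smul hQ, pol_smul_right hQ, hu, hw, huw]; ring
  have hQy : Q y = ε := by
    rw [hy, Q_sub hQ, hu, hε, hzu]; ring
  have hx1ne : Q x1 ≠ 0 := by rw [hQx1]; exact neg_ne_zero.mpr hε0
  have hx2ne : Q x2 ≠ 0 := by rw [hQx2]; exact hε0
  have hyne : Q y ≠ 0 := by rw [hQy]; exact hε0
  have hx1W : x1 ∈ W := by rw [hx1]; exact W.sub_mem huW (W.smul_mem _ hwW)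
  have hBx1y : pol Q x1 y = ε := by
    rw [hx1, hy]
    simp only [pol_sub_left hQ, pol_sub_right hQ, pol_smul_left hQ, huz, huu, hwz, hwu]
    ring
  have hBx2y : pol Q x2 y = -ε := by
    rw [hx2, hy]
    simp only [pol_add_left hQ, pol_sub_right hQ, pol_smul_left hQ, huz, huu, hwz, hwu]
    ring
  have hBx1x1 : pol Q x1 x1 = -(2 * ε) := by rw [pol_self hQ, hQx1]; ring
  have hBux1 : pol Q u x1 = -ε := by
    rw [hx1]
    simp only [pol_sub_right hQ, pol_smul_right hQ, huu, huw]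
    ring
  have hBuy : pol Q u y = 0 := by
    rw [hy]
    simp only [pol_sub_right hQ, huz, huu]
    ring
  have hBx1x2 : pol Q x1 x2 = 0 := by
    rw [hx1, hx2]
    simp only [pol_sub_left hQ, pol_add_right hQ, pol_smul_left hQ, pol_smul_right hQ, huu, hww,
      huw, hwu]
    ring
  -- the set of vectors of W with value -ε
  have hSchar : ∀ v : ι → F, v ∈ W → Q v = -ε → v = x1 ∨ v = -x1 := by
    intro v hvW hQv
    obtain ⟨a, b, hab⟩ := hspan v hvW
    have hQab : a * b = -ε := by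
      rw [← hQv, hab, Q_add (Q := Q), Q_smul hQ, Q_smul hQ, pol_smul_left hQ, pol_smul_right hQ, hu,
        hw, huw]
      ring
    have ha0 : a ≠ 0 := by
      rintro rfl
      rw [zero_mul] at hQab
      exact hε0 (neg_eq_zero.mp hQab.symm)
    rcases eq_one_or_neg_one hF a ha0 with rfl | rfl
    · left
      have hb : b = -ε := by linear_combination hQab
      rw [hab, hb, hx1]; module
    · right
      have hb : b = ε := by linear_combination -hQab
      rw [hab, hb, hx1]; module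
  refine ⟨stabilizing (glToMat ι F) {v | v ∈ W ∧ Q v = -ε} ⊓ omegaGL Q, ?_, ?_⟩
  · -- the stabiliser of W is strictly smaller
    rw [SetLike.lt_iff_le_and_exists]
    constructor
    · intro g hg
      rw [Subgroup.mem_inf] at hg ⊢
      obtain ⟨hgW, hgΩ⟩ := hg
      refine ⟨(mem_stabilizing_iff _ _).mpr ?_, hgΩ⟩
      have hgW := (mem_stabilizing_iff _ _).mp hgW
      intro v
      have hgQ : Q ((g : Matrix ι ι F) *ᵥ v) = Q v := isometry_apply g (omegaGL_le Q hgΩ) v
      have hgW' : v ∈ W ↔ (g : Matrix ι ι F) *ᵥ v ∈ W := hgW v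
      show (v ∈ W ∧ Q v = -ε) ↔ ((g : Matrix ι ι F) *ᵥ v ∈ W ∧ Q ((g : Matrix ι ι F) *ᵥ v) = -ε)
      rw [hgQ, hgW']
    · obtain ⟨g, hgΩ, hg⟩ : ∃ g : GL ι F, g ∈ omegaGL Q ∧ ∀ v, (g : Matrix ι ι F) *ᵥ v =
          reflLin hQ x1 (reflLin hQ y (reflLin hQ x1 (reflLin hQ y v))) :=
        ⟨_, comm_mem_omegaGL _ _ (reflGL_mem hQ x1 hx1ne) (reflGL_mem hQ y hyne),
          reflGL_mul_mulVec hQ x1 y hx1ne hyne⟩
      have hgx1 : (g : Matrix ι ι F) *ᵥ x1 = -x1 := by
        rw [hg, comm_refl_apply hQ x1 y x1 hx1ne hyne, hQx1, hQy, hBx1y, hBx1x1]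
        match_scalars <;> grind
      have hgx1' : (g : Matrix ι ι F) *ᵥ (-x1) = x1 := by
        rw [Matrix.mulVec_neg, hgx1, neg_neg]
      have hgu : (g : Matrix ι ι F) *ᵥ u = x1 + z := by
        rw [hg, comm_refl_apply hQ x1 y u hx1ne hyne, hQx1, hQy, hBx1y, hBux1, hBuy, hx1, hy]
        match_scalars <;> grind
      refine ⟨g, Subgroup.mem_inf.mpr ⟨(mem_stabilizing_iff _ _).mpr ?_, hgΩ⟩, ?_⟩
      · -- it stabilises the set
        intro v
        show (v ∈ W ∧ Q v = -ε) ↔ ((g : Matrix ι ι F) *ᵥ v ∈ W ∧ Q ((g : Matrix ι ι F) *ᵥ v) = -ε)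
        constructor
        · rintro ⟨hvW, hQv⟩
          rcases hSchar v hvW hQv with h | h
          · rw [h, hgx1]
            exact ⟨W.neg_mem hx1W, by rw [Q_neg hQ, hQx1]⟩
          · rw [h, hgx1']
            exact ⟨hx1W, hQx1⟩
        · rintro ⟨hvW, hQv⟩
          rcases hSchar _ hvW hQv with h | h
          · rw [← hgx1'] at h
            have := gl_mulVec_injective _ h
            rw [this]
            exact ⟨W.neg_mem hx1W, by rw [Q_neg hQ, hQx1]⟩
          · rw [← hgx1] at h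
            have := gl_mulVec_injective _ h
            rw [this]
            exact ⟨hx1W, hQx1⟩
      · -- it does not stabilise W
        intro hg'
        have hgW := (mem_stabilizing_iff _ _).mp (Subgroup.mem_inf.mp hg').1
        have h1 := (hgW u).mp huW
        rw [hgu] at h1
        apply hzW
        have := W.sub_mem h1 hx1W
        simpa using this
  · rw [SetLike.lt_iff_le_and_exists]
    obtain ⟨g, hgΩ, hg⟩ : ∃ g : GL ι F, g ∈ omegaGL Q ∧ ∀ v, (g : Matrix ι ι F) *ᵥ v =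
        reflLin hQ x2 (reflLin hQ y (reflLin hQ x2 (reflLin hQ y v))) :=
      ⟨_, comm_mem_omegaGL _ _ (reflGL_mem hQ x2 hx2ne) (reflGL_mem hQ y hyne),
        reflGL_mul_mulVec hQ x2 y hx2ne hyne⟩
    have hgx : (g : Matrix ι ι F) *ᵥ x1 = x1 - y := by
      rw [hg, comm_refl_apply hQ x2 y x1 hx2ne hyne, hQx2, hQy, hBx2y, hBx1x2, hBx1y]
      match_scalars <;> grind
    refine ⟨inf_le_right, g, hgΩ, ?_⟩
    intro hg'
    have hgS := (mem_stabilizing_iff _ _).mp (Subgroup.mem_inf.mp hg').1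
    have h1 := (hgS x1).mp ⟨hx1W, hQx1⟩
    rw [hgx] at h1
    apply hzW
    have h4 : x1 - (x1 - y) + u ∈ W := W.add_mem (W.sub_mem hx1W h1.1) huW
    have h5 : x1 - (x1 - y) + u = z := by rw [hy]; module
    rwa [h5] at h4

end Cfsg.Agent.Lib.Helper94
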