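import Cfsg.Agent.Lib.Helper94.PlaneThree

set_option autoImplicit false
set_option linter.unusedSectionVars false

namespace Cfsg.Agent.Lib.Helper94

open Cfsg Cfsg.Geo
open scoped MatrixGroups Matrix commutatorElement

variable {ι : Type} [Fintype ι] [DecidableEq ι] {F : Type*} [Field F]
variable {Q : (ι → F) → F}

lemma two_eq_zero_of_card [Fintype F] (hF : Fintype.card F = 2) : (2 : F) = 0 := by
  have := FiniteField.cast_card_eq_zero F
  rw [hF] at this
  exact_mod_cast this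

lemma eq_zero_or_one_of_card [Fintype F] (hF : Fintype.card F = 2) (a : F) : a = 0 ∨ a = 1 := by
  by_cases ha : a = 0
  · exact Or.inl ha
  · right
    have h := FiniteField.pow_card_sub_one_eq_one a ha
    rw [hF] at h
    simpa using h

/-- The projection to the orthogonal complement of a hyperbolic pair. -/
lemma proj_perp (hQ : IsNondegenerateQuadraticForm Q) (u w : ι → F) (hu : Q u = 0) (hw : Q w = 0)
    (huw : pol Q u w = 1) (v : ι → F) :
    pol Q (v - pol Q v w • u - pol Q v u • w) u = 0 ∧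
      pol Q (v - pol Q v w • u - pol Q v u • w) w = 0 ∧
      Q (v - pol Q v w • u - pol Q v u • w) = Q v - pol Q v u * pol Q v w ∧
      ∀ t : ι → F, pol Q u t = 0 → pol Q w t = 0 →
        pol Q (v - pol Q v w • u - pol Q v u • w) t = pol Q v t := by
  have hwu : pol Q w u = 1 := by rw [pol_comm, huw]
  refine ⟨?_, ?_, ?_, ?_⟩
  · rw [pol_sub_left hQ, pol_sub_left hQ, pol_smul_left hQ, pol_smul_left hQ, pol_self hQ, hu,
      hwu]
    ring
  · rw [pol_sub_left hQ, pol_sub_left hQ, pol_smul_left hQ, pol_smul_left hQ, pol_self hQ, hw,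
      huw]
    ring
  · simp only [Q_sub hQ, Q_smul hQ, hu, hw, pol_smul_right hQ, pol_sub_left hQ,
      pol_smul_left hQ, huw]
    ring
  · intro t h1 h2
    rw [pol_sub_left hQ, pol_sub_left hQ, pol_smul_left hQ, pol_smul_left hQ, h1, h2]
    ring

/-- Over the field with two elements: a pair of vectors orthogonal to a hyperbolic pair, one
non-singular, one singular, not orthogonal to each other. -/
lemma exists_perp_pair_two [Fintype F] (hF : Fintype.card F = 2)
    (hQ : IsNondegenerateQuadraticForm Q) (hdim : 5 ≤ Fintype.card ι)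
    (u w : ι → F) (hu : Q u = 0) (hw : Q w = 0) (huw : pol Q u w = 1) :
    ∃ z1 z2 : ι → F, Q z1 = 1 ∧ Q z2 = 0 ∧ pol Q z1 z2 = 1 ∧ pol Q z1 u = 0 ∧ pol Q z1 w = 0 ∧
      pol Q z2 u = 0 ∧ pol Q z2 w = 0 := by
  have h2 := two_eq_zero_of_card hF
  have h01 := eq_zero_or_one_of_card hF
  have hone : ∀ a : F, a ≠ 0 → a = 1 := fun a ha => (h01 a).resolve_left ha
  -- a singular non-zero vector orthogonal to u, w
  have hsing : ∃ z2 : ι → F, z2 ≠ 0 ∧ Q z2 = 0 ∧ pol Q z2 u = 0 ∧ pol Q z2 w = 0 := by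
    obtain ⟨z0, hz0, hz0u, hz0w⟩ := exists_perp_nonsingular hQ (by omega) u w hu hw huw
    have hQz0 : Q z0 = 1 := hone _ hz0
    have hz0ne : z0 ≠ 0 := by
      rintro rfl
      exact hz0 (Q_zero hQ)
    obtain ⟨-, ⟨v, hv⟩⟩ := hQ.nondegenerate z0 hz0ne
    have hv' : pol Q z0 v ≠ 0 := hv
    obtain ⟨hpu, hpw, hpQ, hpt⟩ := proj_perp hQ u w hu hw huw v
    obtain ⟨z', hz'⟩ : ∃ z' : ι → F, z' = v - pol Q v w • u - pol Q v u • w := ⟨_, rfl⟩
    rw [← hz'] at hpu hpw hpQ hpt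
    have hz'z0 : pol Q z' z0 = 1 := by
      rw [hpt z0 (by rw [pol_comm, hz0u]) (by rw [pol_comm, hz0w])]
      apply hone
      rwa [pol_comm]
    by_cases hQz' : Q z' = 0
    · refine ⟨z', ?_, hQz', hpu, hpw⟩
      rintro rfl
      rw [pol_zero_left hQ] at hz'z0
      exact zero_ne_one hz'z0
    · have hQz'1 : Q z' = 1 := hone _ hQz'
      let φ : (ι → F) →ₗ[F] (F × F) × (F × F) :=
        ((polL hQ u).prod (polL hQ w)).prod ((polL hQ z0).prod (polL hQ z'))
      have hker : LinearMap.ker φ ≠ ⊥ := by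
        apply LinearMap.ker_ne_bot_of_finrank_lt
        rw [Module.finrank_prod, Module.finrank_prod, Module.finrank_self,
          Module.finrank_fintype_fun_eq_card]
        omega
      obtain ⟨z'', hz''ker, hz''⟩ := Submodule.exists_mem_ne_zero_of_ne_bot hker
      have hk := LinearMap.mem_ker.mp hz''ker
      have hz''u : pol Q z'' u = 0 := congrArg (fun t => t.1.1) hk
      have hz''w : pol Q z'' w = 0 := congrArg (fun t => t.1.2) hk
      have hz''z0 : pol Q z'' z0 = 0 := congrArg (fun t => t.2.1) hk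
      have hz''z' : pol Q z'' z' = 0 := congrArg (fun t => t.2.2) hk
      by_cases hQz'' : Q z'' = 0
      · exact ⟨z'', hz'', hQz'', hz''u, hz''w⟩
      · have hQz''1 : Q z'' = 1 := hone _ hQz''
        refine ⟨z0 + z'', ?_, ?_, ?_, ?_⟩
        · intro h
          have h1 : pol Q (z0 + z'') z' = 0 := by rw [h, pol_zero_left hQ]
          rw [pol_add_left hQ, hz''z', pol_comm, hz'z0] at h1
          simp at h1
        · rw [Q_add (Q := Q), hQz0, hQz''1, pol_comm, hz''z0]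
          linear_combination h2
        · rw [pol_add_left hQ, hz0u, hz''u, add_zero]
        · rw [pol_add_left hQ, hz0w, hz''w, add_zero]
  obtain ⟨z2, hz2, hQz2, hz2u, hz2w⟩ := hsing
  obtain ⟨-, ⟨v, hv⟩⟩ := hQ.nondegenerate z2 hz2
  have hv' : pol Q z2 v ≠ 0 := hv
  obtain ⟨hpu, hpw, hpQ, hpt⟩ := proj_perp hQ u w hu hw huw v
  obtain ⟨z1, hz1⟩ : ∃ z1 : ι → F, z1 = v - pol Q v w • u - pol Q v u • w := ⟨_, rfl⟩
  rw [← hz1] at hpu hpw hpQ hpt
  have hz1z2 : pol Q z1 z2 = 1 := by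
    rw [hpt z2 (by rw [pol_comm, hz2u]) (by rw [pol_comm, hz2w])]
    apply hone
    rwa [pol_comm]
  by_cases hQz1 : Q z1 = 0
  · refine ⟨z1 + z2, z2, ?_, hQz2, ?_, ?_, ?_, hz2u, hz2w⟩
    · rw [Q_add (Q := Q), hQz1, hQz2, hz1z2]
      ring
    · rw [pol_add_left hQ, hz1z2, pol_self hQ, hQz2]
      ring
    · rw [pol_add_left hQ, hpu, hz2u, add_zero]
    · rw [pol_add_left hQ, hpw, hz2w, add_zero]
  · exact ⟨z1, z2, hone _ hQz1, hQz2, hz1z2, hpu, hpw, hz2u, hz2w⟩

/-- Over the field with two elements, the stabiliser in Ω of a plus-type plane is not maximal. -/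
theorem plus_plane_not_max_two [Fintype F] (hF : Fintype.card F = 2)
    (hQ : IsNondegenerateQuadraticForm Q) (hdim : 5 ≤ Fintype.card ι)
    (W : Submodule F (ι → F)) (hdimW : Module.finrank F W = 2)
    (hW : IsNondegenerateOn (QuadraticMap.polar Q) W) (hplus : IsPlusTypeOn Q W) :
    ∃ K : Subgroup (GL ι F), subspaceStabilizer W ⊓ omegaGL Q < K ∧ K < omegaGL Q := by
  obtain ⟨u, w, huW, hwW, hu, hw, huw, hspan⟩ := exists_hyperbolic_pair hQ W hdimW hW hplus
  obtain ⟨z1, z2, hQz1, hQz2, hz1z2, hz1u, hz1w, hz2u, hz2w⟩ :=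
    exists_perp_pair_two hF hQ hdim u w hu hw huw
  have h2 := two_eq_zero_of_card hF
  have h01 := eq_zero_or_one_of_card hF
  have hwu : pol Q w u = 1 := by rw [pol_comm, huw]
  have huz1 : pol Q u z1 = 0 := by rw [pol_comm, hz1u]
  have hwz1 : pol Q w z1 = 0 := by rw [pol_comm, hz1w]
  have huz2 : pol Q u z2 = 0 := by rw [pol_comm, hz2u]
  have hwz2 : pol Q w z2 = 0 := by rw [pol_comm, hz2w]
  have hz2z1 : pol Q z2 z1 = 1 := by rw [pol_comm, hz1z2]
  have huu : pol Q u u = 0 := by rw [pol_self hQ, hu, mul_zero]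
  have hww : pol Q w w = 0 := by rw [pol_self hQ, hw, mul_zero]
  -- a vector orthogonal to u, w lying in W is zero
  have hperpW : ∀ t : ι → F, t ∈ W → pol Q t u = 0 → pol Q t w = 0 → t = 0 := by
    intro t htW h1 h2'
    obtain ⟨a, b, hab⟩ := hspan t htW
    have e1 : pol Q t u = b := by
      rw [hab, pol_add_left hQ, pol_smul_left hQ, pol_smul_left hQ, huu, hwu]; ring
    have e2 : pol Q t w = a := by
      rw [hab, pol_add_left hQ, pol_smul_left hQ, pol_smul_left hQ, hww, huw]; ring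
    rw [h1] at e1
    rw [h2'] at e2
    rw [hab, ← e1, ← e2]
    simp
  have hz1W : z1 ∉ W := by
    intro h
    have := hperpW z1 h hz1u hz1w
    rw [this, Q_zero hQ] at hQz1
    exact zero_ne_one hQz1
  have hz2W : z2 ∉ W := by
    intro h
    have := hperpW z2 h hz2u hz2w
    rw [this, pol_zero_right hQ] at hz1z2
    exact zero_ne_one hz1z2
  obtain ⟨s, hs⟩ : ∃ s : ι → F, s = u + w := ⟨_, rfl⟩
  have hsW : s ∈ W := by rw [hs]; exact W.add_mem huW hwW
  have hQs : Q s = 1 := by rw [hs, Q_add (Q := Q), hu, hw, huw]; ring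
  have hsne : Q s ≠ 0 := by rw [hQs]; exact one_ne_zero
  have hz1ne : Q z1 ≠ 0 := by rw [hQz1]; exact one_ne_zero
  have hSchar : ∀ v : ι → F, v ∈ W → Q v = 1 → v = s := by
    intro v hvW hQv
    obtain ⟨a, b, hab⟩ := hspan v hvW
    have hQab : a * b = 1 := by
      rw [← hQv, hab, Q_add (Q := Q), Q_smul hQ, Q_smul hQ, pol_smul_left hQ, pol_smul_right hQ, hu,
        hw, huw]
      ring
    have ha : a = 1 := by
      rcases h01 a with rfl | rfl
      · simp at hQab
      · rfl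
    have hb : b = 1 := by
      rcases h01 b with rfl | rfl
      · simp at hQab
      · rfl
    rw [hab, ha, hb, hs]
    simp
  -- the vectors for the two commutators
  obtain ⟨y1, hy1⟩ : ∃ y1 : ι → F, y1 = s + z2 := ⟨_, rfl⟩
  obtain ⟨y2, hy2⟩ : ∃ y2 : ι → F, y2 = z1 + u := ⟨_, rfl⟩
  have hssz2 : pol Q s z2 = 0 := by
    rw [hs, pol_add_left hQ, huz2, hwz2, add_zero]
  have hssz1 : pol Q s z1 = 0 := by
    rw [hs, pol_add_left hQ, huz1, hwz1, add_zero]
  have hss : pol Q s s = 0 := by rw [pol_self hQ, hQs]; linear_combination h2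
  have hus : pol Q u s = 1 := by rw [hs, pol_add_right hQ, huu, huw]; ring
  have hsu : pol Q s u = 1 := by rw [pol_comm, hus]
  have hQy1 : Q y1 = 1 := by rw [hy1, Q_add (Q := Q), hQs, hQz2, hssz2]; ring
  have hQy2 : Q y2 = 1 := by rw [hy2, Q_add (Q := Q), hQz1, hu, hz1u]; ring
  have hy1ne : Q y1 ≠ 0 := by rw [hQy1]; exact one_ne_zero
  have hy2ne : Q y2 ≠ 0 := by rw [hQy2]; exact one_ne_zero
  have hz1y1 : pol Q z1 y1 = 1 := by
    rw [hy1, pol_add_right hQ, pol_comm z1 s, hssz1, hz1z2]; ring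
  have hsy1 : pol Q s y1 = 0 := by rw [hy1, pol_add_right hQ, hss, hssz2]; ring
  have huy1 : pol Q u y1 = 1 := by rw [hy1, pol_add_right hQ, hus, huz2]; ring
  have hsy2 : pol Q s y2 = 1 := by rw [hy2, pol_add_right hQ, hssz1, hsu]; ring
  refine ⟨stabilizing (glToMat ι F) {v | v ∈ W ∧ Q v = 1} ⊓ omegaGL Q, ?_, ?_⟩
  · rw [SetLike.lt_iff_le_and_exists]
    constructor
    · intro g hg
      rw [Subgroup.mem_inf] at hg ⊢
      obtain ⟨hgW, hgΩ⟩ := hg
      refine ⟨(mem_stabilizing_iff _ _).mpr ?_, hgΩ⟩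
      have hgW := (mem_stabilizing_iff _ _).mp hgW
      intro v
      have hgQ : Q ((g : Matrix ι ι F) *ᵥ v) = Q v := isometry_apply g (omegaGL_le Q hgΩ) v
      have hgW' : v ∈ W ↔ (g : Matrix ι ι F) *ᵥ v ∈ W := hgW v
      show (v ∈ W ∧ Q v = 1) ↔ ((g : Matrix ι ι F) *ᵥ v ∈ W ∧ Q ((g : Matrix ι ι F) *ᵥ v) = 1)
      rw [hgQ, hgW']
    · obtain ⟨g, hgΩ, hg⟩ : ∃ g : GL ι F, g ∈ omegaGL Q ∧ ∀ v, (g : Matrix ι ι F) *ᵥ v =
          reflLin hQ z1 (reflLin hQ y1 (reflLin hQ z1 (reflLin hQ y1 v))) :=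
        ⟨_, comm_mem_omegaGL _ _ (reflGL_mem hQ z1 hz1ne) (reflGL_mem hQ y1 hy1ne),
          reflGL_mul_mulVec hQ z1 y1 hz1ne hy1ne⟩
      have hgs : (g : Matrix ι ι F) *ᵥ s = s := by
        rw [hg, comm_refl_apply hQ z1 y1 s hz1ne hy1ne, hQz1, hQy1, hz1y1, hssz1, hsy1]
        match_scalars <;> grind
      have hgu : (g : Matrix ι ι F) *ᵥ u = u - y1 := by
        rw [hg, comm_refl_apply hQ z1 y1 u hz1ne hy1ne, hQz1, hQy1, hz1y1, huz1, huy1]
        match_scalars <;> grind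
      refine ⟨g, Subgroup.mem_inf.mpr ⟨(mem_stabilizing_iff _ _).mpr ?_, hgΩ⟩, ?_⟩
      · intro v
        show (v ∈ W ∧ Q v = 1) ↔ ((g : Matrix ι ι F) *ᵥ v ∈ W ∧ Q ((g : Matrix ι ι F) *ᵥ v) = 1)
        constructor
        · rintro ⟨hvW, hQv⟩
          rw [hSchar v hvW hQv, hgs]
          exact ⟨hsW, hQs⟩
        · rintro ⟨hvW, hQv⟩
          have h := hSchar _ hvW hQv
          rw [← hgs] at h
          have := gl_mulVec_injective _ h
          rw [this]
          exact ⟨hsW, hQs⟩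
      · intro hg'
        have hgW := (mem_stabilizing_iff _ _).mp (Subgroup.mem_inf.mp hg').1
        have h1 := (hgW u).mp huW
        rw [hgu] at h1
        apply hz2W
        have h4 : s - (u - (u - y1)) ∈ W := W.sub_mem hsW (W.sub_mem huW h1)
        have h5 : s - (u - (u - y1)) = -z2 := by rw [hy1]; module
        rw [h5] at h4
        simpa using h4
  · rw [SetLike.lt_iff_le_and_exists]
    obtain ⟨g, hgΩ, hg⟩ : ∃ g : GL ι F, g ∈ omegaGL Q ∧ ∀ v, (g : Matrix ι ι F) *ᵥ v =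
        reflLin hQ s (reflLin hQ y2 (reflLin hQ s (reflLin hQ y2 v))) :=
      ⟨_, comm_mem_omegaGL _ _ (reflGL_mem hQ s hsne) (reflGL_mem hQ y2 hy2ne),
        reflGL_mul_mulVec hQ s y2 hsne hy2ne⟩
    have hgx : (g : Matrix ι ι F) *ᵥ s = s - y2 := by
      rw [hg, comm_refl_apply hQ s y2 s hsne hy2ne, hQs, hQy2, hsy2, hss]
      match_scalars <;> grind
    refine ⟨inf_le_right, g, hgΩ, ?_⟩
    intro hg'
    have hgS := (mem_stabilizing_iff _ _).mp (Subgroup.mem_inf.mp hg').1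
    have h1 := (hgS s).mp ⟨hsW, hQs⟩
    rw [hgx] at h1
    apply hz1W
    have h4 : s - (s - y2) - u ∈ W := W.sub_mem (W.sub_mem hsW h1.1) huW
    have h5 : s - (s - y2) - u = z1 := by rw [hy2]; module
    rwa [h5] at h4

end Cfsg.Agent.Lib.Helper94
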