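-- helper94: generation of `SL₃(F)` by two conjugate regular unipotent elements: basic tools
-- (transvection calculus on `Fin 3` with explicit vectors, subrings of finite fields).
import Mathlib
import Cfsg.Agent.Lib.Helper99.TvCalc

set_option autoImplicit false
set_option linter.unusedSectionVars false
set_option linter.unusedVariables false

namespace Cfsg.Agent.Lib.Helper94.RU3

open Matrix Cfsg.Agent.Lib.Helper99

variable {F : Type*} [Field F]

/-- conjugation of a transvection by an element given through its matrix and inverse matrix -/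
theorem tv_conj_mat {H : Subgroup (SpecialLinearGroup (Fin 3) F)} {v φ : Fin 3 → F}
    (h : TV H v φ) {g : SpecialLinearGroup (Fin 3) F} (hg : g ∈ H)
    {A Ai : Matrix (Fin 3) (Fin 3) F} (hA : (g : Matrix (Fin 3) (Fin 3) F) = A) (hAi : A * Ai = 1)
    {v' φ' : Fin 3 → F} (hv : A *ᵥ v = v') (hφ : φ ᵥ* Ai = φ') : TV H v' φ' := by
  have h1 := h.conj hg
  have h2 : ((g⁻¹ : SpecialLinearGroup (Fin 3) F) : Matrix (Fin 3) (Fin 3) F) = Ai := by
    have e1 : ((g⁻¹ : SpecialLinearGroup (Fin 3) F) : Matrix (Fin 3) (Fin 3) F) * A = 1 := by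
      rw [← hA, ← Matrix.SpecialLinearGroup.coe_mul, inv_mul_cancel,
        Matrix.SpecialLinearGroup.coe_one]
    calc ((g⁻¹ : SpecialLinearGroup (Fin 3) F) : Matrix (Fin 3) (Fin 3) F)
        = ((g⁻¹ : SpecialLinearGroup (Fin 3) F) : Matrix (Fin 3) (Fin 3) F) * (A * Ai) := by
          rw [hAi, Matrix.mul_one]
      _ = Ai := by rw [← Matrix.mul_assoc, e1, Matrix.one_mul]
  rw [hA, h2, hv, hφ] at h1
  exact h1

/-- the same, for the inverse element -/
theorem tv_conj_mat' {H : Subgroup (SpecialLinearGroup (Fin 3) F)} {v φ : Fin 3 → F}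
    (h : TV H v φ) {g : SpecialLinearGroup (Fin 3) F} (hg : g ∈ H)
    {A Ai : Matrix (Fin 3) (Fin 3) F} (hA : (g : Matrix (Fin 3) (Fin 3) F) = A) (hAi : A * Ai = 1)
    {v' φ' : Fin 3 → F} (hv : Ai *ᵥ v = v') (hφ : φ ᵥ* A = φ') : TV H v' φ' := by
  have h1 := h.conj (inv_mem hg)
  have h2 : ((g⁻¹ : SpecialLinearGroup (Fin 3) F) : Matrix (Fin 3) (Fin 3) F) = Ai := by
    have e1 : ((g⁻¹ : SpecialLinearGroup (Fin 3) F) : Matrix (Fin 3) (Fin 3) F) * A = 1 := by
      rw [← hA, ← Matrix.SpecialLinearGroup.coe_mul, inv_mul_cancel,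
        Matrix.SpecialLinearGroup.coe_one]
    calc ((g⁻¹ : SpecialLinearGroup (Fin 3) F) : Matrix (Fin 3) (Fin 3) F)
        = ((g⁻¹ : SpecialLinearGroup (Fin 3) F) : Matrix (Fin 3) (Fin 3) F) * (A * Ai) := by
          rw [hAi, Matrix.mul_one]
      _ = Ai := by rw [← Matrix.mul_assoc, e1, Matrix.one_mul]
  rw [inv_inv, hA, h2, hv, hφ] at h1
  exact h1

theorem tv_sub_left {H : Subgroup (SpecialLinearGroup (Fin 3) F)} {v v' φ : Fin 3 → F}
    (h : TV H v φ) (h' : TV H v' φ) : TV H (v - v') φ := by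
  rw [sub_eq_add_neg]
  exact h.add_left h'.neg_left

theorem tv_congr {H : Subgroup (SpecialLinearGroup (Fin 3) F)} {v v' φ φ' : Fin 3 → F}
    (h : TV H v φ) (hv : v = v') (hφ : φ = φ') : TV H v' φ' := by
  rw [← hv, ← hφ]; exact h

/-- an element of `H` whose matrix is `1 + v φᵀ` -/
theorem tv_of_mem {H : Subgroup (SpecialLinearGroup (Fin 3) F)} {g : SpecialLinearGroup (Fin 3) F}
    (hg : g ∈ H) {v φ : Fin 3 → F} (h : (g : Matrix (Fin 3) (Fin 3) F) = tvm v φ) : TV H v φ :=
  ⟨g, hg, h⟩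

/-- all six families of elementary transvections give everything -/
theorem eq_top_of_six {H : Subgroup (SpecialLinearGroup (Fin 3) F)}
    (h12 : ∀ c : F, TV H ![1, 0, 0] ![0, c, 0]) (h13 : ∀ c : F, TV H ![1, 0, 0] ![0, 0, c])
    (h21 : ∀ c : F, TV H ![0, 1, 0] ![c, 0, 0]) (h23 : ∀ c : F, TV H ![0, 1, 0] ![0, 0, c])
    (h31 : ∀ c : F, TV H ![0, 0, 1] ![c, 0, 0]) (h32 : ∀ c : F, TV H ![0, 0, 1] ![0, c, 0]) :
    H = ⊤ := by
  apply Cfsg.Agent.Lib.Helper5.eq_top_of_transvection_mem
  intro i j hij c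
  have key : ∀ (v φ : Fin 3 → F), TV H v φ →
      ((SpecialLinearGroup.transvection hij c : SpecialLinearGroup (Fin 3) F) :
        Matrix (Fin 3) (Fin 3) F) = tvm v φ → SpecialLinearGroup.transvection hij c ∈ H := by
    intro v φ ⟨g, hg, eg⟩ e
    have : SpecialLinearGroup.transvection hij c = g := Subtype.ext (by rw [e, eg])
    rw [this]; exact hg
  fin_cases i <;> fin_cases j
  · exact absurd rfl hij
  · refine key _ _ (h12 c) ?_
    ext a b
    fin_cases a <;> fin_cases b <;>
      simp [Matrix.SpecialLinearGroup.transvection_coe, tvm]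
  · refine key _ _ (h13 c) ?_
    ext a b
    fin_cases a <;> fin_cases b <;>
      simp [Matrix.SpecialLinearGroup.transvection_coe, tvm]
  · refine key _ _ (h21 c) ?_
    ext a b
    fin_cases a <;> fin_cases b <;>
      simp [Matrix.SpecialLinearGroup.transvection_coe, tvm]
  · exact absurd rfl hij
  · refine key _ _ (h23 c) ?_
    ext a b
    fin_cases a <;> fin_cases b <;>
      simp [Matrix.SpecialLinearGroup.transvection_coe, tvm]
  · refine key _ _ (h31 c) ?_
    ext a b
    fin_cases a <;> fin_cases b <;>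
      simp [Matrix.SpecialLinearGroup.transvection_coe, tvm]
  · refine key _ _ (h32 c) ?_
    ext a b
    fin_cases a <;> fin_cases b <;>
      simp [Matrix.SpecialLinearGroup.transvection_coe, tvm]
  · exact absurd rfl hij

/-! ### subrings of a finite field -/

theorem subring_inv_mem [Fintype F] (S : Subring F) {m : F} (hm : m ∈ S) : m⁻¹ ∈ S := by
  by_cases h0 : m = 0
  · rw [h0, _root_.inv_zero]; exact S.zero_mem
  · have h1 : m ^ (Fintype.card F - 1) = 1 := FiniteField.pow_card_sub_one_eq_one m h0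
    have h2 : 2 ≤ Fintype.card F := Fintype.one_lt_card
    have h3 : m ^ (Fintype.card F - 2) * m = 1 := by
      rw [← pow_succ]
      have : Fintype.card F - 2 + 1 = Fintype.card F - 1 := by omega
      rw [this, h1]
    have h4 : m⁻¹ = m ^ (Fintype.card F - 2) := (eq_inv_of_mul_eq_one_left h3).symm
    rw [h4]
    exact S.pow_mem hm _

theorem subring_top_of_gen (S : Subring F) (lam : F) (hlam : ∀ y : F, y ≠ 0 → ∃ k : ℕ, y = lam ^ k)
    (h : lam ∈ S) : S = ⊤ := by
  rw [eq_top_iff]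
  intro y _
  by_cases hy : y = 0
  · rw [hy]; exact S.zero_mem
  · obtain ⟨k, rfl⟩ := hlam y hy
    exact S.pow_mem h k

end Cfsg.Agent.Lib.Helper94.RU3
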