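-- helper94: generation of `SL₃(F)` by two conjugate regular unipotent elements, characteristic two.
-- `u = 1 + E₁₂ + E₂₃`, `v = 1 + b E₂₃ + b E₃₁` (a monomial conjugate), `u² = x₁₃(1)`, `v² = x₂₁(b²)`.
import Mathlib
import Cfsg.Agent.Lib.Helper94.RU3Base

set_option autoImplicit false
set_option linter.unusedSectionVars false
set_option linter.unusedVariables false

namespace Cfsg.Agent.Lib.Helper94.RU3

open Matrix Cfsg.Agent.Lib.Helper99

variable {F : Type*} [Field F]

theorem gen_even (H : Subgroup (SpecialLinearGroup (Fin 3) F)) (b : F)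
    (u v : SpecialLinearGroup (Fin 3) F) (hu : u ∈ H) (hv : v ∈ H)
    (hu' : (u : Matrix (Fin 3) (Fin 3) F) = !![1, 1, 0; 0, 1, 1; 0, 0, 1])
    (hv' : (v : Matrix (Fin 3) (Fin 3) F) = !![1, 0, 0; 0, 1, b; b, 0, 1])
    (h2 : (2 : F) = 0) (hb : b ≠ 0)
    (hgen : ∀ S : Subring F, b ∈ S → S = ⊤) : H = ⊤ := by
  have h11 : (1 : F) + 1 = 0 := by rw [one_add_one_eq_two]; exact h2
  have hbb : b + b = 0 := by linear_combination b * h2
  have hUi : (!![1, 1, 0; 0, 1, 1; 0, 0, 1] : Matrix (Fin 3) (Fin 3) F) *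
      !![1, -1, 1; 0, 1, -1; 0, 0, 1] = 1 := by
    ext i j; fin_cases i <;> fin_cases j <;> simp [Matrix.mul_apply, Fin.sum_univ_three]
  have hVi : (!![1, 0, 0; 0, 1, b; b, 0, 1] : Matrix (Fin 3) (Fin 3) F) *
      !![1, 0, 0; b ^ 2, 1, -b; -b, 0, 1] = 1 := by
    ext i j; fin_cases i <;> fin_cases j <;> simp [Matrix.mul_apply, Fin.sum_univ_three] <;> ring
  have T1 : TV H ![1, 0, 0] ![0, 0, 1] := by
    refine tv_of_mem (mul_mem hu hu) ?_
    rw [Matrix.SpecialLinearGroup.coe_mul, hu']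
    ext i j
    fin_cases i <;> fin_cases j <;>
      simp [Matrix.mul_apply, Fin.sum_univ_three, tvm, vecMulVec_apply, h11]
  have T2 : TV H ![0, 1, 0] ![b ^ 2, 0, 0] := by
    refine tv_of_mem (mul_mem hv hv) ?_
    rw [Matrix.SpecialLinearGroup.coe_mul, hv']
    ext i j
    fin_cases i <;> fin_cases j <;>
      simp [Matrix.mul_apply, Fin.sum_univ_three, tvm, vecMulVec_apply, hbb, pow_two]
  have T3 : TV H ![0, 1, 0] ![0, 0, b ^ 2] := by
    have h1 : TV H (b ^ 2 • ![0, 1, 0]) ![0, 0, 1] :=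
      tv_congr (T2.comm T1 (by simp [dotProduct, Fin.sum_univ_three]))
        (by ext i; fin_cases i <;> simp [dotProduct, Fin.sum_univ_three]) rfl
    exact tv_congr h1.smul_swap' rfl (by ext i; fin_cases i <;> simp)
  -- from `x₂₃(c)` to `x₂₁(c b)`
  have s21 : ∀ c, TV H ![0, 1, 0] ![0, 0, c] → TV H ![0, 1, 0] ![c * b, 0, 0] := by
    intro c hc
    have h1 : TV H ![0, 1, 0] ![-(c * b), 0, c] :=
      tv_conj_mat hc hv hv' hVi
        (by ext i; fin_cases i <;> simp [Matrix.mulVec, dotProduct, Fin.sum_univ_three])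
        (by ext i; fin_cases i <;> simp [Matrix.vecMul, dotProduct, Fin.sum_univ_three])
    have h3 : TV H ![0, 1, 0] ![-(c * b), 0, 0] :=
      tv_congr (h1.sub_right hc) rfl (by ext i; fin_cases i <;> simp)
    exact tv_congr h3.neg_right rfl (by ext i; fin_cases i <;> simp)
  have m : ∀ c, TV H ![0, 1, 0] ![0, 0, c] → TV H ![0, 1, 0] ![0, 0, c * b] := by
    intro c hc
    have h4 : TV H ((c * b) • ![0, 1, 0]) ![0, 0, 1] :=
      tv_congr ((s21 c hc).comm T1 (by simp [dotProduct, Fin.sum_univ_three]))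
        (by ext i; fin_cases i <;> simp [dotProduct, Fin.sum_univ_three]) rfl
    exact tv_congr h4.smul_swap' rfl (by ext i; fin_cases i <;> simp)
  obtain ⟨M, hMdef⟩ : ∃ M : Subring F, ∀ m, m ∈ M ↔
      ∀ c, TV H ![0, 1, 0] ![0, 0, c] → TV H ![0, 1, 0] ![0, 0, c * m] := by
    refine ⟨{ carrier := {m | ∀ c, TV H ![0, 1, 0] ![0, 0, c] → TV H ![0, 1, 0] ![0, 0, c * m]}
              mul_mem' := ?_
              one_mem' := ?_
              add_mem' := ?_
              zero_mem' := ?_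
              neg_mem' := ?_ }, fun m => Iff.rfl⟩
    · intro a b ha hb c hc
      have := hb _ (ha c hc)
      rwa [mul_assoc] at this
    · intro c hc
      rwa [mul_one]
    · intro a b ha hb c hc
      exact tv_congr ((ha c hc).add_right (hb c hc)) rfl
        (by ext i; fin_cases i <;> simp <;> ring)
    · intro c hc
      exact tv_congr (TV.zero_right H ![0, 1, 0]) rfl (by ext i; fin_cases i <;> simp)
    · intro a ha c hc
      exact tv_congr (ha c hc).neg_right rfl (by ext i; fin_cases i <;> simp)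
  have hM : M = ⊤ := hgen M ((hMdef b).2 m)
  have hb2 : b ^ 2 ≠ 0 := pow_ne_zero 2 hb
  have h23 : ∀ c, TV H ![0, 1, 0] ![0, 0, c] := by
    intro c
    have h1 : (b ^ 2)⁻¹ * c ∈ M := by rw [hM]; trivial
    have h3 := (hMdef _).1 h1 (b ^ 2) T3
    rwa [mul_inv_cancel_left₀ hb2] at h3
  have h21 : ∀ c, TV H ![0, 1, 0] ![c, 0, 0] := by
    intro c
    have h1 := s21 (c * b⁻¹) (h23 _)
    rwa [inv_mul_cancel_right₀ hb] at h1
  have h13 : ∀ c, TV H ![1, 0, 0] ![0, 0, c] := by
    intro c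
    have h1 : TV H ![1, 1, 0] ![0, 0, c] :=
      tv_conj_mat (h23 c) hu hu' hUi
        (by ext i; fin_cases i <;> simp [Matrix.mulVec, dotProduct, Fin.sum_univ_three])
        (by ext i; fin_cases i <;> simp [Matrix.vecMul, dotProduct, Fin.sum_univ_three])
    exact tv_congr (tv_sub_left h1 (h23 c)) (by ext i; fin_cases i <;> simp) rfl
  have h12one : TV H ![1, 0, 0] ![0, 1, 0] := by
    obtain ⟨g1, hg1, eg1⟩ := h13 1
    obtain ⟨g2, hg2, eg2⟩ := h23 (-1)
    refine tv_of_mem (mul_mem (mul_mem hu hg1) hg2) ?_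
    have e12 : tvm ![1, 0, 0] ![0, 0, (1 : F)] * tvm ![0, 1, 0] ![0, 0, (-1 : F)] =
        !![1, 0, 1; 0, 1, -1; 0, 0, 1] := by
      ext i j
      fin_cases i <;> fin_cases j <;>
        simp [Matrix.mul_apply, Fin.sum_univ_three, tvm, vecMulVec_apply]
    rw [Matrix.SpecialLinearGroup.coe_mul, Matrix.SpecialLinearGroup.coe_mul, hu', eg1, eg2,
      Matrix.mul_assoc, e12]
    ext i j
    fin_cases i <;> fin_cases j <;>
      simp [Matrix.mul_apply, Fin.sum_univ_three, tvm, vecMulVec_apply]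
  have h31b : TV H ![0, 0, 1] ![b, 0, 0] := by
    obtain ⟨g2, hg2, eg2⟩ := h23 (-b)
    refine tv_of_mem (mul_mem hv hg2) ?_
    rw [Matrix.SpecialLinearGroup.coe_mul, hv', eg2]
    ext i j
    fin_cases i <;> fin_cases j <;>
      simp [Matrix.mul_apply, Fin.sum_univ_three, tvm, vecMulVec_apply]
  have h32b : TV H ![0, 0, b] ![0, 1, 0] :=
    tv_congr (h31b.comm h12one (by simp [dotProduct, Fin.sum_univ_three]))
      (by ext i; fin_cases i <;> simp [dotProduct, Fin.sum_univ_three]) rfl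
  have h12 : ∀ c, TV H ![1, 0, 0] ![0, c, 0] := by
    intro c
    have h1 : TV H (c • ![1, 0, 0]) ![0, 1, 0] :=
      tv_congr ((h13 (c * b⁻¹)).comm h32b (by simp [dotProduct, Fin.sum_univ_three]))
        (by ext i; fin_cases i <;>
          simp [dotProduct, Fin.sum_univ_three, inv_mul_cancel_right₀ hb]) rfl
    exact tv_congr h1.smul_swap' rfl (by ext i; fin_cases i <;> simp)
  have h31 : ∀ c, TV H ![0, 0, 1] ![c, 0, 0] := by
    intro c
    have h1 : TV H (b • ![0, 0, 1]) ![b⁻¹ * c, 0, 0] :=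
      tv_congr (h32b.comm (h21 (b⁻¹ * c)) (by simp [dotProduct, Fin.sum_univ_three]))
        (by ext i; fin_cases i <;> simp [dotProduct, Fin.sum_univ_three]) rfl
    exact tv_congr h1.smul_swap' rfl
      (by ext i; fin_cases i <;> simp [mul_inv_cancel_left₀ hb])
  have h32 : ∀ c, TV H ![0, 0, 1] ![0, c, 0] := by
    intro c
    have h1 : TV H (c • ![0, 0, 1]) ![0, 1, 0] :=
      tv_congr ((h31 c).comm h12one (by simp [dotProduct, Fin.sum_univ_three]))
        (by ext i; fin_cases i <;> simp [dotProduct, Fin.sum_univ_three]) rfl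
    exact tv_congr h1.smul_swap' rfl (by ext i; fin_cases i <;> simp)
  exact eq_top_of_six h12 h13 h21 h23 h31 h32

end Cfsg.Agent.Lib.Helper94.RU3
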