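-- helper94: generation of `SL₃(F)` by two conjugate regular unipotent elements, odd characteristic.
-- `u = 1 + E₂₁ + E₃₂` and an upper triangular `B` with diagonal `(-1, 1, -1)`, `B² = x₁₃(x² + 12)`.
import Mathlib
import Cfsg.Agent.Lib.Helper94.RU3Base

set_option autoImplicit false
set_option linter.unusedSectionVars false
set_option linter.unusedVariables false

namespace Cfsg.Agent.Lib.Helper94.RU3

open Matrix Cfsg.Agent.Lib.Helper99

variable {F : Type*} [Field F]

theorem gen_odd (H : Subgroup (SpecialLinearGroup (Fin 3) F)) (x : F)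
    (u B : SpecialLinearGroup (Fin 3) F) (hu : u ∈ H) (hB : B ∈ H)
    (hu' : (u : Matrix (Fin 3) (Fin 3) F) = !![1, 0, 0; 1, 1, 0; 0, 1, 1])
    (hB' : (B : Matrix (Fin 3) (Fin 3) F) = !![-1, 2 + x, -4 - x ^ 2; 0, 1, 2 - x; 0, 0, -1])
    (hθ : x ^ 2 + 12 ≠ 0)
    (hgen : ∀ S : Subring F, (x ^ 2 + 12) * x ∈ S → (x ^ 2 + 12) ^ 3 ∈ S → S = ⊤) : H = ⊤ := by
  obtain ⟨θ, hθdef⟩ : ∃ θ : F, θ = x ^ 2 + 12 := ⟨_, rfl⟩
  have hθ0 : θ ≠ 0 := by rw [hθdef]; exact hθ
  have hUi : (!![1, 0, 0; 1, 1, 0; 0, 1, 1] : Matrix (Fin 3) (Fin 3) F) *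
      !![1, 0, 0; -1, 1, 0; 1, -1, 1] = 1 := by
    ext i j; fin_cases i <;> fin_cases j <;> simp [Matrix.mul_apply, Fin.sum_univ_three]
  have hBi : (!![-1, 2 + x, -4 - x ^ 2; 0, 1, 2 - x; 0, 0, -1] : Matrix (Fin 3) (Fin 3) F) *
      !![-1, 2 + x, 8; 0, 1, 2 - x; 0, 0, -1] = 1 := by
    ext i j; fin_cases i <;> fin_cases j <;> simp [Matrix.mul_apply, Fin.sum_univ_three] <;> ring
  have T1 : TV H ![1, 0, 0] ![0, 0, θ] := by
    refine tv_of_mem (mul_mem hB hB) ?_
    rw [Matrix.SpecialLinearGroup.coe_mul, hB', hθdef]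
    ext i j
    fin_cases i <;> fin_cases j <;>
      simp [Matrix.mul_apply, Fin.sum_univ_three, tvm, vecMulVec_apply] <;> ring
  have T2 : TV H ![1, 1, 0] ![θ, -θ, θ] :=
    tv_conj_mat T1 hu hu' hUi
      (by ext i; fin_cases i <;> simp [Matrix.mulVec, dotProduct, Fin.sum_univ_three])
      (by ext i; fin_cases i <;> simp [Matrix.vecMul, dotProduct, Fin.sum_univ_three])
  have T3 : TV H ![1, -1, 1] ![0, θ, θ] :=
    tv_conj_mat' T1 hu hu' hUi
      (by ext i; fin_cases i <;> simp [Matrix.mulVec, dotProduct, Fin.sum_univ_three])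
      (by ext i; fin_cases i <;> simp [Matrix.vecMul, dotProduct, Fin.sum_univ_three])
  have T4 : TV H ![θ, 0, 0] ![0, θ, θ] :=
    tv_congr (T1.comm T3 (by simp [dotProduct, Fin.sum_univ_three]))
      (by ext i; fin_cases i <;> simp [dotProduct, Fin.sum_univ_three]) rfl
  have T5 : ∀ c, TV H ![1, 0, 0] ![0, 0, c] → TV H ![θ, θ, 0] ![0, 0, c] := fun c hc =>
    tv_congr (T2.comm hc (by simp [dotProduct, Fin.sum_univ_three]))
      (by ext i; fin_cases i <;> simp [dotProduct, Fin.sum_univ_three]) rfl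
  have m1 : ∀ c, TV H ![1, 0, 0] ![0, 0, c] → TV H ![1, 0, 0] ![0, 0, c * (θ * x)] := by
    intro c hc
    have h5 := T5 c hc
    have h6 : TV H ![(1 + x) * θ, θ, 0] ![0, 0, -c] :=
      tv_conj_mat h5 hB hB' hBi
        (by ext i; fin_cases i <;> simp [Matrix.mulVec, dotProduct, Fin.sum_univ_three] <;> ring)
        (by ext i; fin_cases i <;> simp [Matrix.vecMul, dotProduct, Fin.sum_univ_three])
    have h7 : TV H ![(1 + x) * θ, θ, 0] ![0, 0, c] :=
      tv_congr h6.neg_right rfl (by ext i; fin_cases i <;> simp)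
    have h8 : TV H ((θ * x) • ![1, 0, 0]) ![0, 0, c] :=
      tv_congr (tv_sub_left h7 h5) (by ext i; fin_cases i <;> simp <;> ring) rfl
    exact tv_congr h8.smul_swap' rfl (by ext i; fin_cases i <;> simp <;> ring)
  have m2 : ∀ c, TV H ![1, 0, 0] ![0, 0, c] → TV H ![1, 0, 0] ![0, 0, c * θ ^ 3] := by
    intro c hc
    have h5 := T5 c hc
    have h6 : TV H (θ ^ 3 • ![1, 0, 0]) ![0, 0, c] :=
      tv_congr (T4.comm h5 (by simp [dotProduct, Fin.sum_univ_three]))
        (by ext i; fin_cases i <;> simp [dotProduct, Fin.sum_univ_three] <;> ring) rfl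
    exact tv_congr h6.smul_swap' rfl (by ext i; fin_cases i <;> simp <;> ring)
  -- the subring of multipliers
  obtain ⟨M, hMdef⟩ : ∃ M : Subring F, ∀ m, m ∈ M ↔
      ∀ c, TV H ![1, 0, 0] ![0, 0, c] → TV H ![1, 0, 0] ![0, 0, c * m] := by
    refine ⟨{ carrier := {m | ∀ c, TV H ![1, 0, 0] ![0, 0, c] → TV H ![1, 0, 0] ![0, 0, c * m]}
              mul_mem' := ?_
              one_mem' := ?_
              add_mem' := ?_
              zero_mem' := ?_
              neg_mem' := ?_ }, fun m => Iff.rfl⟩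
    · intro a b ha hb c hc
      have := hb _ (ha c hc)
      rwa [mul_assoc] at this
    · intro c hc
      rwa [mul_one]
    · intro a b ha hb c hc
      exact tv_congr ((ha c hc).add_right (hb c hc)) rfl
        (by ext i; fin_cases i <;> simp <;> ring)
    · intro c hc
      exact tv_congr (TV.zero_right H ![1, 0, 0]) rfl (by ext i; fin_cases i <;> simp)
    · intro a ha c hc
      exact tv_congr (ha c hc).neg_right rfl (by ext i; fin_cases i <;> simp)
  have hM : M = ⊤ := by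
    apply hgen M
    · rw [hMdef, ← hθdef]; exact m1
    · rw [hMdef, ← hθdef]; exact m2
  have h13 : ∀ c, TV H ![1, 0, 0] ![0, 0, c] := by
    intro c
    have h1 : θ⁻¹ * c ∈ M := by rw [hM]; trivial
    have h2 := (hMdef _).1 h1 θ T1
    rwa [mul_inv_cancel_left₀ hθ0] at h2
  have h110 : ∀ c, TV H ![1, 1, 0] ![0, 0, c] := by
    intro c
    have h1 : TV H (θ • ![1, 1, 0]) ![0, 0, θ⁻¹ * c] :=
      tv_congr (T5 _ (h13 (θ⁻¹ * c))) (by ext i; fin_cases i <;> simp) rfl
    exact tv_congr h1.smul_swap' rfl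
      (by ext i; fin_cases i <;> simp [mul_inv_cancel_left₀ hθ0])
  have h23 : ∀ c, TV H ![0, 1, 0] ![0, 0, c] := fun c =>
    tv_congr (tv_sub_left (h110 c) (h13 c)) (by ext i; fin_cases i <;> simp) rfl
  have h12 : ∀ c, TV H ![1, 0, 0] ![0, c, 0] := by
    intro c
    have h1 : TV H ![1, 0, 0] ![0, c, c] :=
      tv_conj_mat' (h110 c) hu hu' hUi
        (by ext i; fin_cases i <;> simp [Matrix.mulVec, dotProduct, Fin.sum_univ_three])
        (by ext i; fin_cases i <;> simp [Matrix.vecMul, dotProduct, Fin.sum_univ_three])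
    exact tv_congr (h1.sub_right (h13 c)) rfl (by ext i; fin_cases i <;> simp)
  have h21 : ∀ c, TV H ![0, 1, 0] ![c, 0, 0] := by
    intro c
    have h1 : TV H ![1, 1, 0] ![c, -c, c] :=
      tv_conj_mat (h13 c) hu hu' hUi
        (by ext i; fin_cases i <;> simp [Matrix.mulVec, dotProduct, Fin.sum_univ_three])
        (by ext i; fin_cases i <;> simp [Matrix.vecMul, dotProduct, Fin.sum_univ_three])
    have h2 : TV H ![1, 1, 0] ![c, -c, 0] :=
      tv_congr (h1.sub_right (h110 c)) rfl (by ext i; fin_cases i <;> simp)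
    obtain ⟨g, hg, eg⟩ := h12 (-1)
    have hmul : tvm ![1, 0, 0] ![0, (-1 : F), 0] * tvm ![1, 0, 0] ![0, (1 : F), 0] = 1 := by
      ext i j
      fin_cases i <;> fin_cases j <;>
        simp [Matrix.mul_apply, Fin.sum_univ_three, tvm, vecMulVec_apply]
    exact tv_conj_mat h2 hg eg hmul
      (by ext i; fin_cases i <;>
        simp [Matrix.mulVec, dotProduct, Fin.sum_univ_three, tvm, vecMulVec_apply])
      (by ext i; fin_cases i <;>
        simp [Matrix.vecMul, dotProduct, Fin.sum_univ_three, tvm, vecMulVec_apply])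
  have h32 : ∀ c, TV H ![0, 0, 1] ![0, c, 0] := by
    intro c
    have h1 : TV H ![0, 1, -1] ![0, -c, -c] :=
      tv_conj_mat' (h23 (-c)) hu hu' hUi
        (by ext i; fin_cases i <;> simp [Matrix.mulVec, dotProduct, Fin.sum_univ_three])
        (by ext i; fin_cases i <;> simp [Matrix.vecMul, dotProduct, Fin.sum_univ_three])
    obtain ⟨g, hg, eg⟩ := h23 1
    have hmul : tvm ![0, 1, 0] ![0, 0, (1 : F)] * tvm ![0, 1, 0] ![0, 0, (-1 : F)] = 1 := by
      ext i j
      fin_cases i <;> fin_cases j <;>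
        simp [Matrix.mul_apply, Fin.sum_univ_three, tvm, vecMulVec_apply]
    have h2 : TV H ![0, 0, -1] ![0, -c, 0] :=
      tv_conj_mat h1 hg eg hmul
        (by ext i; fin_cases i <;>
          simp [Matrix.mulVec, dotProduct, Fin.sum_univ_three, tvm, vecMulVec_apply])
        (by ext i; fin_cases i <;>
          simp [Matrix.vecMul, dotProduct, Fin.sum_univ_three, tvm, vecMulVec_apply])
    have h3 : TV H ((-1 : F) • ![0, 0, 1]) ![0, -c, 0] :=
      tv_congr h2 (by ext i; fin_cases i <;> simp) rfl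
    exact tv_congr h3.smul_swap' rfl (by ext i; fin_cases i <;> simp)
  have h31 : ∀ c, TV H ![0, 0, 1] ![c, 0, 0] := by
    intro c
    have h1 : TV H (c • ![0, 0, 1]) ![1, 0, 0] :=
      tv_congr ((h32 c).comm (h21 1) (by simp [dotProduct, Fin.sum_univ_three]))
        (by ext i; fin_cases i <;> simp [dotProduct, Fin.sum_univ_three]) rfl
    exact tv_congr h1.smul_swap' rfl (by ext i; fin_cases i <;> simp)
  exact eq_top_of_six h12 h13 h21 h23 h31 h32

end Cfsg.Agent.Lib.Helper94.RU3
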