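-- helper94: `SL₃(F)` is generated by two conjugate regular unipotent elements (`F` finite).
import Mathlib
import Cfsg.Agent.Lib.Helper94.RU3Odd
import Cfsg.Agent.Lib.Helper94.RU3Even

set_option autoImplicit false
set_option linter.unusedSectionVars false
set_option linter.unusedVariables false

namespace Cfsg.Agent.Lib.Helper94.RU3

open Matrix Cfsg.Agent.Lib.Helper99

variable {F : Type*} [Field F] [Fintype F]

theorem exists_gen : ∃ lam : F, lam ≠ 0 ∧ ∀ y : F, y ≠ 0 → ∃ k : ℕ, y = lam ^ k := by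
  obtain ⟨ζ, hζ⟩ := IsCyclic.exists_generator (α := Fˣ)
  refine ⟨(ζ : F), ζ.ne_zero, ?_⟩
  intro y hy
  have h1 : Units.mk0 y hy ∈ Subgroup.zpowers ζ := hζ _
  rw [← mem_powers_iff_mem_zpowers] at h1
  obtain ⟨k, hk⟩ := h1
  refine ⟨k, ?_⟩
  have h2 := congrArg Units.val hk
  simpa using h2.symm

/-- a subring containing `(x² + 12) x` and `(x² + 12)³` contains `x` (odd characteristic) -/
theorem x_mem (S : Subring F) (h2 : (2 : F) ≠ 0) (x : F) (hθ : x ^ 2 + 12 ≠ 0)
    (h1 : (x ^ 2 + 12) * x ∈ S) (h3 : (x ^ 2 + 12) ^ 3 ∈ S) : x ∈ S := by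
  have hx3 : x ^ 3 ∈ S := by
    have e : x ^ 3 = ((x ^ 2 + 12) * x) ^ 3 * ((x ^ 2 + 12) ^ 3)⁻¹ := by
      field_simp
    rw [e]
    exact S.mul_mem (S.pow_mem h1 3) (subring_inv_mem S h3)
  have h12x : 12 * x ∈ S := by
    have e : 12 * x = (x ^ 2 + 12) * x - x ^ 3 := by ring
    rw [e]
    exact S.sub_mem h1 hx3
  by_cases h12 : (12 : F) = 0
  · have h3' : (3 : F) = 0 := by
      have e : (12 : F) = 2 * 2 * 3 := by norm_num
      rw [e] at h12
      rcases mul_eq_zero.1 h12 with h | h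
      · rcases mul_eq_zero.1 h with h | h <;> exact absurd h h2
      · exact h
    -- cubing is injective, hence surjective on the finite subring
    have hinj : Function.Injective (fun s : S => s ^ 3) := by
      intro s t hst
      have e1 : (s : F) ^ 3 = (t : F) ^ 3 := by
        have := congrArg (fun r : S => (r : F)) hst
        simpa using this
      have e2 : ((s : F) - (t : F)) ^ 3 = 0 := by
        have : ((s : F) - (t : F)) ^ 3 =
            (s : F) ^ 3 - (t : F) ^ 3 - 3 * ((s : F) * (t : F) * ((s : F) - (t : F))) := by ring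
        rw [this, e1, h3']; ring
      have e3 : (s : F) - (t : F) = 0 := by
        exact pow_eq_zero_iff (n := 3) (by norm_num) |>.1 e2
      exact Subtype.ext (sub_eq_zero.1 e3)
    have hsurj : Function.Surjective (fun s : S => s ^ 3) := Finite.injective_iff_surjective.1 hinj
    obtain ⟨y, hy⟩ := hsurj ⟨x ^ 3, hx3⟩
    have e1 : (y : F) ^ 3 = x ^ 3 := by
      have := congrArg (fun r : S => (r : F)) hy
      simpa using this
    have e2 : ((y : F) - x) ^ 3 = 0 := by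
      have : ((y : F) - x) ^ 3 = (y : F) ^ 3 - x ^ 3 - 3 * ((y : F) * x * ((y : F) - x)) := by ring
      rw [this, e1, h3']; ring
    have e3 : (y : F) - x = 0 := pow_eq_zero_iff (n := 3) (by norm_num) |>.1 e2
    have e4 : x = (y : F) := (sub_eq_zero.1 e3).symm
    rw [e4]
    exact y.2
  · have h12m : (12 : F) ∈ S := by
      have := natCast_mem S 12
      simpa using this
    have e : x = (12 : F)⁻¹ * (12 * x) := by field_simp
    rw [e]
    exact S.mul_mem (subring_inv_mem S h12m) h12x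

theorem exists_x (h2 : (2 : F) ≠ 0) :
    ∃ x : F, x ^ 2 + 12 ≠ 0 ∧ ∀ S : Subring F, x ∈ S → S = ⊤ := by
  obtain ⟨lam, hlam0, hlam⟩ := exists_gen (F := F)
  by_cases h : lam ^ 2 + 12 = 0
  · refine ⟨2 * lam, ?_, ?_⟩
    · have h12 : (12 : F) ≠ 0 := by
        intro h12
        rw [h12, add_zero] at h
        exact hlam0 (pow_eq_zero_iff (n := 2) (by norm_num) |>.1 h)
      have h3 : (3 : F) ≠ 0 := by
        intro h3
        apply h12
        have e : (12 : F) = 4 * 3 := by norm_num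
        rw [e, h3, mul_zero]
      have e : (2 * lam) ^ 2 + 12 = -(2 * 2 * 3 * 3) := by linear_combination 4 * h
      rw [e]
      exact neg_ne_zero.2 (mul_ne_zero (mul_ne_zero (mul_ne_zero h2 h2) h3) h3)
    · intro S hS
      have h2m : (2 : F) ∈ S := by
        have := natCast_mem S 2
        simpa using this
      have e : lam = (2 : F)⁻¹ * (2 * lam) := by field_simp
      apply subring_top_of_gen S lam hlam
      rw [e]
      exact S.mul_mem (subring_inv_mem S h2m) hS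
  · exact ⟨lam, h, fun S hS => subring_top_of_gen S lam hlam hS⟩

/-- the odd case -/
theorem exists_pair_odd (h2 : (2 : F) ≠ 0) :
    ∃ u g : SpecialLinearGroup (Fin 3) F,
      (u : Matrix (Fin 3) (Fin 3) F) = !![1, 0, 0; 1, 1, 0; 0, 1, 1] ∧
      Subgroup.closure ({u, g * u * g⁻¹} : Set (SpecialLinearGroup (Fin 3) F)) = ⊤ := by
  obtain ⟨x, hθ, hx⟩ := exists_x h2
  obtain ⟨u, hu⟩ : ∃ u : SpecialLinearGroup (Fin 3) F,
      (u : Matrix (Fin 3) (Fin 3) F) = !![1, 0, 0; 1, 1, 0; 0, 1, 1] :=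
    ⟨⟨!![1, 0, 0; 1, 1, 0; 0, 1, 1], by simp [Matrix.det_fin_three]⟩, rfl⟩
  obtain ⟨g, hg⟩ : ∃ g : SpecialLinearGroup (Fin 3) F,
      (g : Matrix (Fin 3) (Fin 3) F) = !![-1, -x, 2 - x; 0, -1, -2; 0, 0, 1] :=
    ⟨⟨!![-1, -x, 2 - x; 0, -1, -2; 0, 0, 1], by simp [Matrix.det_fin_three]⟩, rfl⟩
  obtain ⟨B, hB⟩ : ∃ B : SpecialLinearGroup (Fin 3) F,
      (B : Matrix (Fin 3) (Fin 3) F) = !![-1, 2 + x, -4 - x ^ 2; 0, 1, 2 - x; 0, 0, -1] :=
    ⟨⟨!![-1, 2 + x, -4 - x ^ 2; 0, 1, 2 - x; 0, 0, -1], by simp [Matrix.det_fin_three]⟩, rfl⟩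
  have hconj : g * u * g⁻¹ = B * u := by
    rw [mul_inv_eq_iff_eq_mul]
    apply Subtype.ext
    rw [Matrix.SpecialLinearGroup.coe_mul, Matrix.SpecialLinearGroup.coe_mul,
      Matrix.SpecialLinearGroup.coe_mul, hu, hg, hB]
    ext i j
    fin_cases i <;> fin_cases j <;> simp [Matrix.mul_apply, Fin.sum_univ_three] <;> ring
  refine ⟨u, g, hu, ?_⟩
  rw [hconj]
  have huH : u ∈ Subgroup.closure ({u, B * u} : Set (SpecialLinearGroup (Fin 3) F)) :=
    Subgroup.subset_closure (by simp)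
  have hBH : B ∈ Subgroup.closure ({u, B * u} : Set (SpecialLinearGroup (Fin 3) F)) := by
    have h1 : B * u ∈ Subgroup.closure ({u, B * u} : Set (SpecialLinearGroup (Fin 3) F)) :=
      Subgroup.subset_closure (by simp)
    have h3 := mul_mem h1 (inv_mem huH)
    rwa [mul_inv_cancel_right] at h3
  exact gen_odd _ x u B huH hBH hu hB hθ (fun S h1 h3 => hx S (x_mem S h2 x hθ h1 h3))

/-- the even case -/
theorem exists_pair_even (h2 : (2 : F) = 0) :
    ∃ u g : SpecialLinearGroup (Fin 3) F,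
      (u : Matrix (Fin 3) (Fin 3) F) = !![1, 1, 0; 0, 1, 1; 0, 0, 1] ∧
      Subgroup.closure ({u, g * u * g⁻¹} : Set (SpecialLinearGroup (Fin 3) F)) = ⊤ := by
  obtain ⟨b, hb0, hb⟩ := exists_gen (F := F)
  obtain ⟨u, hu⟩ : ∃ u : SpecialLinearGroup (Fin 3) F,
      (u : Matrix (Fin 3) (Fin 3) F) = !![1, 1, 0; 0, 1, 1; 0, 0, 1] :=
    ⟨⟨!![1, 1, 0; 0, 1, 1; 0, 0, 1], by simp [Matrix.det_fin_three]⟩, rfl⟩
  obtain ⟨g, hg⟩ : ∃ g : SpecialLinearGroup (Fin 3) F,
      (g : Matrix (Fin 3) (Fin 3) F) = !![0, 0, b⁻¹; b, 0, 0; 0, 1, 0] :=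
    ⟨⟨!![0, 0, b⁻¹; b, 0, 0; 0, 1, 0], by simp [Matrix.det_fin_three, hb0]⟩, rfl⟩
  obtain ⟨v, hv⟩ : ∃ v : SpecialLinearGroup (Fin 3) F,
      (v : Matrix (Fin 3) (Fin 3) F) = !![1, 0, 0; 0, 1, b; b, 0, 1] :=
    ⟨⟨!![1, 0, 0; 0, 1, b; b, 0, 1], by simp [Matrix.det_fin_three]⟩, rfl⟩
  have hconj : g * u * g⁻¹ = v := by
    rw [mul_inv_eq_iff_eq_mul]
    apply Subtype.ext
    rw [Matrix.SpecialLinearGroup.coe_mul, Matrix.SpecialLinearGroup.coe_mul, hu, hg, hv]
    ext i j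
    fin_cases i <;> fin_cases j <;> simp [Matrix.mul_apply, Fin.sum_univ_three, hb0]
  refine ⟨u, g, hu, ?_⟩
  rw [hconj]
  exact gen_even _ b u v (Subgroup.subset_closure (by simp)) (Subgroup.subset_closure (by simp))
    hu hv h2 hb0 (fun S hS => subring_top_of_gen S b hb hS)

/-- `SL₃(F)` is generated by two conjugate regular unipotent elements -/
theorem sl3_two_conj_regular_unipotents :
    ∃ u g : SpecialLinearGroup (Fin 3) F,
      IsNilpotent ((u : Matrix (Fin 3) (Fin 3) F) - 1) ∧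
      ((u : Matrix (Fin 3) (Fin 3) F) - 1) ^ (3 - 1) ≠ 0 ∧
      Subgroup.closure ({u, g * u * g⁻¹} : Set (SpecialLinearGroup (Fin 3) F)) = ⊤ := by
  by_cases h2 : (2 : F) = 0
  · obtain ⟨u, g, hu, hcl⟩ := exists_pair_even h2
    refine ⟨u, g, ⟨3, ?_⟩, ?_, hcl⟩
    · rw [hu]
      ext i j
      fin_cases i <;> fin_cases j <;>
        simp [pow_succ, Matrix.mul_apply, Fin.sum_univ_three, Matrix.one_apply]
    · rw [hu]
      intro h
      have := congrFun (congrFun h 0) 2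
      simp [pow_succ, Matrix.mul_apply, Fin.sum_univ_three, Matrix.one_apply] at this
  · obtain ⟨u, g, hu, hcl⟩ := exists_pair_odd h2
    refine ⟨u, g, ⟨3, ?_⟩, ?_, hcl⟩
    · rw [hu]
      ext i j
      fin_cases i <;> fin_cases j <;>
        simp [pow_succ, Matrix.mul_apply, Fin.sum_univ_three, Matrix.one_apply]
    · rw [hu]
      intro h
      have := congrFun (congrFun h 2) 0
      simp [pow_succ, Matrix.mul_apply, Fin.sum_univ_three, Matrix.one_apply] at this

end Cfsg.Agent.Lib.Helper94.RU3
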