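import Cfsg.Prelude.Def_GeometricClasses

set_option autoImplicit false
set_option linter.unusedSectionVars false

namespace Cfsg.Agent.Lib.Helper94

open Cfsg Cfsg.Geo
open scoped MatrixGroups Matrix commutatorElement

variable {ι : Type} [Fintype ι] [DecidableEq ι] {F : Type*} [Field F]

/-- An invertible matrix from two mutually inverse linear maps. -/
noncomputable def glOfLin (φ ψ : (ι → F) →ₗ[F] (ι → F)) (h1 : φ ∘ₗ ψ = LinearMap.id)
    (h2 : ψ ∘ₗ φ = LinearMap.id) : GL ι F :=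
  ⟨LinearMap.toMatrix' φ, LinearMap.toMatrix' ψ,
    by rw [← LinearMap.toMatrix'_comp, h1, LinearMap.toMatrix'_id],
    by rw [← LinearMap.toMatrix'_comp, h2, LinearMap.toMatrix'_id]⟩

lemma glOfLin_mulVec (φ ψ : (ι → F) →ₗ[F] (ι → F)) (h1 : φ ∘ₗ ψ = LinearMap.id)
    (h2 : ψ ∘ₗ φ = LinearMap.id) (v : ι → F) :
    ((glOfLin φ ψ h1 h2 : GL ι F) : Matrix ι ι F) *ᵥ v = φ v := by
  simp [glOfLin, LinearMap.toMatrix'_mulVec]

section quad

variable (Q : (ι → F) → F)

/-- The polar form, abbreviated. -/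
abbrev pol (x y : ι → F) : F := QuadraticMap.polar Q x y

variable {Q}

lemma pol_comm (x y : ι → F) : pol Q x y = pol Q y x := QuadraticMap.polar_comm Q x y

lemma Q_add (x y : ι → F) : Q (x + y) = Q x + Q y + pol Q x y := by
  simp [pol, QuadraticMap.polar]

lemma pol_self (hQ : IsNondegenerateQuadraticForm Q) (x : ι → F) : pol Q x x = 2 * Q x := by
  have h := hQ.smul 2 x
  have h2 : (2 : F) • x = x + x := two_smul F x
  rw [h2] at h
  simp only [pol, QuadraticMap.polar, h]
  ring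

lemma Q_zero (hQ : IsNondegenerateQuadraticForm Q) : Q 0 = 0 := by
  have h := hQ.smul 0 0
  simpa using h

lemma pol_add_left (hQ : IsNondegenerateQuadraticForm Q) (x y z : ι → F) :
    pol Q (x + y) z = pol Q x z + pol Q y z := hQ.polar_bilinear.add_left x y z

lemma pol_smul_left (hQ : IsNondegenerateQuadraticForm Q) (c : F) (x z : ι → F) :
    pol Q (c • x) z = c * pol Q x z := hQ.polar_bilinear.smul_left c x z

lemma pol_add_right (hQ : IsNondegenerateQuadraticForm Q) (x y z : ι → F) :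
    pol Q z (x + y) = pol Q z x + pol Q z y := hQ.polar_bilinear.add_right z x y

lemma pol_smul_right (hQ : IsNondegenerateQuadraticForm Q) (c : F) (x z : ι → F) :
    pol Q z (c • x) = c * pol Q z x := hQ.polar_bilinear.smul_right c z x

lemma pol_zero_left (hQ : IsNondegenerateQuadraticForm Q) (z : ι → F) : pol Q 0 z = 0 := by
  have h := pol_smul_left hQ 0 0 z
  simpa using h

lemma pol_zero_right (hQ : IsNondegenerateQuadraticForm Q) (z : ι → F) : pol Q z 0 = 0 := by
  rw [pol_comm, pol_zero_left hQ]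

lemma pol_neg_left (hQ : IsNondegenerateQuadraticForm Q) (x z : ι → F) :
    pol Q (-x) z = - pol Q x z := by
  have h := pol_smul_left hQ (-1) x z
  simpa using h

lemma pol_neg_right (hQ : IsNondegenerateQuadraticForm Q) (x z : ι → F) :
    pol Q z (-x) = - pol Q z x := by
  rw [pol_comm, pol_neg_left hQ, pol_comm]

lemma pol_sub_left (hQ : IsNondegenerateQuadraticForm Q) (x y z : ι → F) :
    pol Q (x - y) z = pol Q x z - pol Q y z := by
  rw [sub_eq_add_neg, pol_add_left hQ, pol_neg_left hQ, sub_eq_add_neg]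

lemma pol_sub_right (hQ : IsNondegenerateQuadraticForm Q) (x y z : ι → F) :
    pol Q z (x - y) = pol Q z x - pol Q z y := by
  rw [sub_eq_add_neg, pol_add_right hQ, pol_neg_right hQ, sub_eq_add_neg]

lemma Q_smul (hQ : IsNondegenerateQuadraticForm Q) (c : F) (x : ι → F) : Q (c • x) = c ^ 2 * Q x :=
  hQ.smul c x

lemma Q_neg (hQ : IsNondegenerateQuadraticForm Q) (x : ι → F) : Q (-x) = Q x := by
  have h := hQ.smul (-1) x
  simpa using h

lemma Q_sub (hQ : IsNondegenerateQuadraticForm Q) (x y : ι → F) :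
    Q (x - y) = Q x + Q y - pol Q x y := by
  rw [sub_eq_add_neg, Q_add (Q := Q), Q_neg hQ, pol_neg_right hQ]
  ring

/-- The linear functional `v ↦ B(v, x)`. -/
def polL (hQ : IsNondegenerateQuadraticForm Q) (x : ι → F) : (ι → F) →ₗ[F] F where
  toFun v := pol Q v x
  map_add' a b := pol_add_left hQ a b x
  map_smul' c a := by simpa using pol_smul_left hQ c a x

/-- The reflection in `x` as a linear map. -/
def reflLin (hQ : IsNondegenerateQuadraticForm Q) (x : ι → F) : (ι → F) →ₗ[F] (ι → F) :=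
  LinearMap.id - (Q x)⁻¹ • (polL hQ x).smulRight x

lemma reflLin_apply (hQ : IsNondegenerateQuadraticForm Q) (x v : ι → F) :
    reflLin hQ x v = v - ((Q x)⁻¹ * pol Q v x) • x := by
  simp [reflLin, polL, smul_smul]

lemma pol_reflLin (hQ : IsNondegenerateQuadraticForm Q) (x v z : ι → F) :
    pol Q (reflLin hQ x v) z = pol Q v z - (Q x)⁻¹ * pol Q v x * pol Q x z := by
  rw [reflLin_apply, pol_sub_left hQ, pol_smul_left hQ]

lemma Q_reflLin (hQ : IsNondegenerateQuadraticForm Q) (x v : ι → F) (hx : Q x ≠ 0) :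
    Q (reflLin hQ x v) = Q v := by
  rw [reflLin_apply, Q_sub hQ, Q_smul hQ, pol_smul_right hQ]
  field_simp
  ring

lemma reflLin_reflLin (hQ : IsNondegenerateQuadraticForm Q) (x v : ι → F) (hx : Q x ≠ 0) :
    reflLin hQ x (reflLin hQ x v) = v := by
  rw [reflLin_apply, pol_reflLin hQ, pol_self hQ, reflLin_apply]
  have : (Q x)⁻¹ * (pol Q v x - (Q x)⁻¹ * pol Q v x * (2 * Q x)) = - ((Q x)⁻¹ * pol Q v x) := by
    field_simp
    ring
  rw [this]
  module

/-- The reflection in a non-singular vector as an invertible matrix. -/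
noncomputable def reflGL (hQ : IsNondegenerateQuadraticForm Q) (x : ι → F) (hx : Q x ≠ 0) : GL ι F :=
  glOfLin (reflLin hQ x) (reflLin hQ x)
    (LinearMap.ext fun v => by simpa using reflLin_reflLin hQ x v hx)
    (LinearMap.ext fun v => by simpa using reflLin_reflLin hQ x v hx)

lemma reflGL_mulVec (hQ : IsNondegenerateQuadraticForm Q) (x : ι → F) (hx : Q x ≠ 0) (v : ι → F) :
    ((reflGL hQ x hx : GL ι F) : Matrix ι ι F) *ᵥ v = reflLin hQ x v :=
  glOfLin_mulVec _ _ _ _ v

lemma reflGL_mem (hQ : IsNondegenerateQuadraticForm Q) (x : ι → F) (hx : Q x ≠ 0) :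
    reflGL hQ x hx ∈ isometryGroup F Q := by
  intro u v
  show Q (((reflGL hQ x hx : GL ι F) : Matrix ι ι F) *ᵥ u) = Q u
  rw [reflGL_mulVec, Q_reflLin hQ x u hx]

lemma reflGL_inv (hQ : IsNondegenerateQuadraticForm Q) (x : ι → F) (hx : Q x ≠ 0) :
    (reflGL hQ x hx)⁻¹ = reflGL hQ x hx := rfl

lemma reflGL_mul_mulVec (hQ : IsNondegenerateQuadraticForm Q) (x y : ι → F) (hx : Q x ≠ 0)
    (hy : Q y ≠ 0) (v : ι → F) :
    ((reflGL hQ x hx * reflGL hQ y hy * (reflGL hQ x hx)⁻¹ * (reflGL hQ y hy)⁻¹ : GL ι F) :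
      Matrix ι ι F) *ᵥ v = reflLin hQ x (reflLin hQ y (reflLin hQ x (reflLin hQ y v))) := by
  rw [reflGL_inv, reflGL_inv]
  simp only [Units.val_mul, ← Matrix.mulVec_mulVec, reflGL_mulVec]

lemma omegaGL_le (Q : (ι → F) → F) : omegaGL Q ≤ isometryGroup F Q := by
  rintro g ⟨h, -, rfl⟩
  exact h.2

lemma comm_mem_omegaGL (a b : GL ι F) (ha : a ∈ isometryGroup F Q) (hb : b ∈ isometryGroup F Q) :
    a * b * a⁻¹ * b⁻¹ ∈ omegaGL Q := by
  refine ⟨⁅(⟨a, ha⟩ : isometryGroup F Q), ⟨b, hb⟩⁆, ?_, rfl⟩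
  show _ ∈ commutator _
  rw [commutator_def]
  exact Subgroup.commutator_mem_commutator (Subgroup.mem_top _) (Subgroup.mem_top _)

lemma isometry_apply (g : GL ι F) (hg : g ∈ isometryGroup F Q) (v : ι → F) :
    Q ((g : Matrix ι ι F) *ᵥ v) = Q v := hg v v

/-- The action of the commutator of two reflections. -/
lemma comm_refl_apply (hQ : IsNondegenerateQuadraticForm Q) (x y v : ι → F) (hx : Q x ≠ 0)
    (hy : Q y ≠ 0) :
    reflLin hQ x (reflLin hQ y (reflLin hQ x (reflLin hQ y v))) =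
      v - (pol Q v x * (pol Q x y ^ 2 / (Q x * Q y)) / Q x
            + pol Q v y * pol Q x y * (1 - pol Q x y ^ 2 / (Q x * Q y)) / (Q x * Q y)) • x
        - (pol Q v y * (pol Q x y ^ 2 / (Q x * Q y)) / Q y
            - pol Q v x * pol Q x y / (Q x * Q y)) • y := by
  simp only [reflLin_apply, pol_sub_left hQ, pol_smul_left hQ, pol_self hQ, pol_comm y x]
  match_scalars <;> field_simp <;> ring

end quad

end Cfsg.Agent.Lib.Helper94
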