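import Cfsg.Agent.Lib.Helper94.SpPerp

set_option autoImplicit false
set_option linter.unusedSectionVars false

namespace Cfsg.Agent.Lib.Helper94

open Cfsg Cfsg.Geo
open scoped MatrixGroups Matrix

variable {F : Type*} [Field F] {m : ℕ}

theorem sfL_apply (a x : Fin m ⊕ Fin m → F) : sfL m a x = sympForm m F x a := rfl

/-- A symplectic basis of a subspace, with the expansion formula. -/
structure IsSympBasis (D0 : Submodule F (Fin m ⊕ Fin m → F)) {r : ℕ}
    (a b : Fin r → (Fin m ⊕ Fin m → F)) : Prop where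
  mem_a : ∀ l, a l ∈ D0
  mem_b : ∀ l, b l ∈ D0
  aa : ∀ l l', sympForm m F (a l) (a l') = 0
  bb : ∀ l l', sympForm m F (b l) (b l') = 0
  ab : ∀ l l', sympForm m F (a l) (b l') = if l = l' then 1 else 0
  expand : ∀ x ∈ D0, x = ∑ l, (sympForm m F x (b l) • a l - sympForm m F x (a l) • b l)

theorem IsSympBasis.ba {D0 : Submodule F (Fin m ⊕ Fin m → F)} {r : ℕ}
    {a b : Fin r → (Fin m ⊕ Fin m → F)} (h : IsSympBasis D0 a b) (l l' : Fin r) :
    sympForm m F (b l) (a l') = if l = l' then -1 else 0 := by
  rw [sf_swap, h.ab l' l]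
  by_cases hl : l = l'
  · rw [if_pos hl, if_pos hl.symm]
  · rw [if_neg hl, if_neg (Ne.symm hl), neg_zero]

theorem exists_sympBasis_aux : ∀ n : ℕ, ∀ D0 : Submodule F (Fin m ⊕ Fin m → F),
    Module.finrank F D0 = n → IsNondegenerateOn (sympForm m F) D0 →
    ∃ r, n = 2 * r ∧ ∃ a b : Fin r → (Fin m ⊕ Fin m → F), IsSympBasis D0 a b := by
  intro n
  induction n using Nat.strong_induction_on with
  | _ n ih =>
    intro D0 hfr hnd
    by_cases hbot : D0 = ⊥
    · refine ⟨0, ?_, Fin.elim0, Fin.elim0, ?_⟩
      · rw [← hfr, hbot]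
        simp
      · refine ⟨fun l => l.elim0, fun l => l.elim0, fun l => l.elim0, fun l => l.elim0,
          fun l => l.elim0, fun x hx => ?_⟩
        rw [hbot] at hx
        simp [(Submodule.mem_bot F).mp hx]
    · obtain ⟨a₀, ha₀, ha₀0⟩ := Submodule.exists_mem_ne_zero_of_ne_bot hbot
      obtain ⟨-, ⟨b₁, hb₁, hab₁⟩⟩ := hnd a₀ ha₀ ha₀0
      obtain ⟨b₀, hb₀def⟩ : ∃ b₀ : Fin m ⊕ Fin m → F, b₀ = (sympForm m F a₀ b₁)⁻¹ • b₁ :=
        ⟨_, rfl⟩
      have hb₀ : b₀ ∈ D0 := by
        rw [hb₀def]
        exact D0.smul_mem _ hb₁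
      have hab : sympForm m F a₀ b₀ = 1 := by
        rw [hb₀def, sf_smul_right, inv_mul_cancel₀ hab₁]
      have hba : sympForm m F b₀ a₀ = -1 := by rw [sf_swap, hab]
      obtain ⟨D', hD'def⟩ : ∃ D' : Submodule F (Fin m ⊕ Fin m → F),
          D' = D0 ⊓ (LinearMap.ker (sfL m a₀) ⊓ LinearMap.ker (sfL m b₀)) := ⟨_, rfl⟩
      have hD'mem : ∀ x, x ∈ D' ↔
          x ∈ D0 ∧ sympForm m F x a₀ = 0 ∧ sympForm m F x b₀ = 0 := by
        intro x
        rw [hD'def, Submodule.mem_inf, Submodule.mem_inf, LinearMap.mem_ker, LinearMap.mem_ker,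
          sfL_apply, sfL_apply]
      have hproj : ∀ x ∈ D0, x - sympForm m F x b₀ • a₀ + sympForm m F x a₀ • b₀ ∈ D' := by
        intro x hx
        rw [hD'mem]
        refine ⟨D0.add_mem (D0.sub_mem hx (D0.smul_mem _ ha₀)) (D0.smul_mem _ hb₀), ?_, ?_⟩
        · simp only [sf_add_left, sf_sub_left, sf_smul_left, sf_self, hba]
          ring
        · simp only [sf_add_left, sf_sub_left, sf_smul_left, sf_self, hab]
          ring
      have hnd' : IsNondegenerateOn (sympForm m F) D' := by
        have key : ∀ d ∈ D', d ≠ 0 → ∃ y ∈ D', sympForm m F d y ≠ 0 := by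
          intro d hd hd0
          obtain ⟨hdD, hda, hdb⟩ := (hD'mem d).mp hd
          obtain ⟨-, ⟨y, hy, hdy⟩⟩ := hnd d hdD hd0
          refine ⟨_, hproj y hy, ?_⟩
          rw [sf_add_right, sf_sub_right, sf_smul_right, sf_smul_right, hda, hdb]
          simpa using hdy
        intro d hd hd0
        obtain ⟨y, hy, hdy⟩ := key d hd hd0
        exact ⟨⟨y, hy, by rw [sf_swap]; exact neg_ne_zero.mpr hdy⟩, ⟨y, hy, hdy⟩⟩
      have hD'le : D' ≤ D0 := fun x hx => ((hD'mem x).mp hx).1
      -- dimension count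
      have hli : LinearIndependent F ![a₀, b₀] := by
        rw [LinearIndependent.pair_iff]
        intro s t hst
        have e1 : sympForm m F (s • a₀ + t • b₀) b₀ = 0 := by rw [hst, sf_zero_left]
        have e2 : sympForm m F a₀ (s • a₀ + t • b₀) = 0 := by rw [hst, sf_zero_right]
        rw [sf_add_left, sf_smul_left, sf_smul_left, sf_self, hab] at e1
        rw [sf_add_right, sf_smul_right, sf_smul_right, sf_self, hab] at e2
        constructor
        · simpa using e1
        · simpa using e2
      have hfrP : Module.finrank F (Submodule.span F {a₀, b₀}) = 2 := by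
        have := finrank_span_eq_card hli
        rw [Matrix.range_cons_cons_empty] at this
        simpa using this
      have hinf : D' ⊓ Submodule.span F {a₀, b₀} = ⊥ := by
        rw [eq_bot_iff]
        rintro x ⟨hx1, hx2⟩
        obtain ⟨-, hxa, hxb⟩ := (hD'mem x).mp hx1
        obtain ⟨s, t, rfl⟩ := Submodule.mem_span_pair.mp hx2
        rw [sf_add_left, sf_smul_left, sf_smul_left, sf_self, hba] at hxa
        rw [sf_add_left, sf_smul_left, sf_smul_left, sf_self, hab] at hxb
        have ht : t = 0 := by linear_combination -hxa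
        have hs : s = 0 := by linear_combination hxb
        rw [hs, ht]
        simp
      have hsup : D' ⊔ Submodule.span F {a₀, b₀} = D0 := by
        apply le_antisymm
        · apply sup_le hD'le
          rw [Submodule.span_le]
          intro v hv
          rcases hv with rfl | rfl
          · exact ha₀
          · exact hb₀
        · intro x hx
          have h1 := hproj x hx
          have h2 : sympForm m F x b₀ • a₀ + (-sympForm m F x a₀) • b₀
              ∈ Submodule.span F {a₀, b₀} :=
            Submodule.mem_span_pair.mpr ⟨_, _, rfl⟩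
          have h3 : x = (x - sympForm m F x b₀ • a₀ + sympForm m F x a₀ • b₀)
              + (sympForm m F x b₀ • a₀ + (-sympForm m F x a₀) • b₀) := by
            rw [neg_smul]
            abel
          rw [h3]
          exact Submodule.add_mem_sup h1 h2
      have hfr' : Module.finrank F D' + 2 = n := by
        have h := Submodule.finrank_sup_add_finrank_inf_eq D' (Submodule.span F {a₀, b₀})
        rw [hinf, hsup, hfr, hfrP, finrank_bot] at h
        omega
      obtain ⟨r', hr', a', b', hbasis⟩ := ih (Module.finrank F D') (by omega) D' rfl hnd'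
      have ha'D : ∀ l, a' l ∈ D' := hbasis.mem_a
      have hb'D : ∀ l, b' l ∈ D' := hbasis.mem_b
      have hperp : ∀ d ∈ D', sympForm m F d a₀ = 0 ∧ sympForm m F d b₀ = 0 ∧
          sympForm m F a₀ d = 0 ∧ sympForm m F b₀ d = 0 := by
        intro d hd
        obtain ⟨-, h1, h2⟩ := (hD'mem d).mp hd
        exact ⟨h1, h2, by rw [sf_swap, h1, neg_zero], by rw [sf_swap, h2, neg_zero]⟩
      refine ⟨r' + 1, by omega, Fin.cons a₀ a', Fin.cons b₀ b', ?_⟩
      refine ⟨?_, ?_, ?_, ?_, ?_, ?_⟩
      · intro l
        refine Fin.cases ?_ (fun l => ?_) l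
        · rw [Fin.cons_zero]; exact ha₀
        · rw [Fin.cons_succ]; exact hD'le (ha'D l)
      · intro l
        refine Fin.cases ?_ (fun l => ?_) l
        · rw [Fin.cons_zero]; exact hb₀
        · rw [Fin.cons_succ]; exact hD'le (hb'D l)
      · intro l l'
        refine Fin.cases ?_ (fun l => ?_) l <;> refine Fin.cases ?_ (fun l' => ?_) l'
        · rw [Fin.cons_zero, sf_self]
        · rw [Fin.cons_zero, Fin.cons_succ]; exact (hperp _ (ha'D l')).2.2.1
        · rw [Fin.cons_zero, Fin.cons_succ]; exact (hperp _ (ha'D l)).1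
        · rw [Fin.cons_succ, Fin.cons_succ]; exact hbasis.aa l l'
      · intro l l'
        refine Fin.cases ?_ (fun l => ?_) l <;> refine Fin.cases ?_ (fun l' => ?_) l'
        · rw [Fin.cons_zero, sf_self]
        · rw [Fin.cons_zero, Fin.cons_succ]; exact (hperp _ (hb'D l')).2.2.2
        · rw [Fin.cons_zero, Fin.cons_succ]; exact (hperp _ (hb'D l)).2.1
        · rw [Fin.cons_succ, Fin.cons_succ]; exact hbasis.bb l l'
      · intro l l'
        refine Fin.cases ?_ (fun l => ?_) l <;> refine Fin.cases ?_ (fun l' => ?_) l'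
        · rw [Fin.cons_zero, Fin.cons_zero, hab, if_pos rfl]
        · rw [Fin.cons_zero, Fin.cons_succ, (hperp _ (hb'D l')).2.2.1,
            if_neg (Fin.succ_ne_zero l').symm]
        · rw [Fin.cons_zero, Fin.cons_succ, (hperp _ (ha'D l)).2.1, if_neg (Fin.succ_ne_zero l)]
        · rw [Fin.cons_succ, Fin.cons_succ, hbasis.ab l l']
          simp only [Fin.succ_inj]
      · intro x hx
        have h1 := hproj x hx
        have h2 := hbasis.expand _ h1
        have e1 : ∀ l, sympForm m F
            (x - sympForm m F x b₀ • a₀ + sympForm m F x a₀ • b₀) (b' l)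
            = sympForm m F x (b' l) := by
          intro l
          rw [sf_add_left, sf_sub_left, sf_smul_left, sf_smul_left,
            (hperp _ (hb'D l)).2.2.1, (hperp _ (hb'D l)).2.2.2]
          ring
        have e2 : ∀ l, sympForm m F
            (x - sympForm m F x b₀ • a₀ + sympForm m F x a₀ • b₀) (a' l)
            = sympForm m F x (a' l) := by
          intro l
          rw [sf_add_left, sf_sub_left, sf_smul_left, sf_smul_left,
            (hperp _ (ha'D l)).2.2.1, (hperp _ (ha'D l)).2.2.2]
          ring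
        simp only [e1, e2] at h2
        rw [Fin.sum_univ_succ]
        simp only [Fin.cons_zero, Fin.cons_succ]
        rw [← h2]
        abel

/-- Symplectic bases indexed by a fixed type for subspaces of dimension `2 r`. -/
theorem exists_sympBasis (D0 : Submodule F (Fin m ⊕ Fin m → F)) (r : ℕ)
    (hfr : Module.finrank F D0 = 2 * r) (hnd : IsNondegenerateOn (sympForm m F) D0) :
    ∃ a b : Fin r → (Fin m ⊕ Fin m → F), IsSympBasis D0 a b := by
  obtain ⟨r', hr', a, b, h⟩ := exists_sympBasis_aux (2 * r) D0 hfr hnd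
  have : r' = r := by omega
  subst this
  exact ⟨a, b, h⟩

theorem exists_even_finrank (D0 : Submodule F (Fin m ⊕ Fin m → F))
    (hnd : IsNondegenerateOn (sympForm m F) D0) : ∃ r, Module.finrank F D0 = 2 * r := by
  obtain ⟨r', hr', -⟩ := exists_sympBasis_aux _ D0 rfl hnd
  exact ⟨r', hr'⟩

end Cfsg.Agent.Lib.Helper94
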