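import Cfsg.Agent.Lib.Helper94.Symp
import Cfsg.Agent.Lib.Helper94.FrameMax
import Cfsg.Agent.Lib.Helper8.SpGen

set_option autoImplicit false
set_option linter.unusedSectionVars false

namespace Cfsg.Agent.Lib.Helper94

open Cfsg Cfsg.Geo
open scoped MatrixGroups Matrix

variable {F : Type*} [Field F] {m : ℕ}

/-- Two invertible matrices with the same action on column vectors are equal. -/
lemma gl_ext {ι : Type} [Fintype ι] [DecidableEq ι] {g h : GL ι F}
    (H : ∀ x : ι → F, (g : Matrix ι ι F) *ᵥ x = (h : Matrix ι ι F) *ᵥ x) : g = h := by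
  apply Units.ext
  apply Matrix.toLin'.injective
  apply LinearMap.ext
  intro x
  rw [Matrix.toLin'_apply, Matrix.toLin'_apply]
  exact H x

lemma gl_mul_mulVec {ι : Type} [Fintype ι] [DecidableEq ι] (g h : GL ι F) (x : ι → F) :
    ((g * h : GL ι F) : Matrix ι ι F) *ᵥ x
      = (g : Matrix ι ι F) *ᵥ ((h : Matrix ι ι F) *ᵥ x) := by
  rw [Units.val_mul, Matrix.mulVec_mulVec]

lemma gl_mulVec_inv_mulVec {ι : Type} [Fintype ι] [DecidableEq ι] (g : GL ι F) (x : ι → F) :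
    (g : Matrix ι ι F) *ᵥ (((g⁻¹ : GL ι F) : Matrix ι ι F) *ᵥ x) = x := by
  rw [Matrix.mulVec_mulVec, ← Units.val_mul, mul_inv_cancel, Units.val_one, Matrix.one_mulVec]

lemma gl_inv_mulVec_mulVec {ι : Type} [Fintype ι] [DecidableEq ι] (g : GL ι F) (x : ι → F) :
    ((g⁻¹ : GL ι F) : Matrix ι ι F) *ᵥ ((g : Matrix ι ι F) *ᵥ x) = x := by
  rw [Matrix.mulVec_mulVec, ← Units.val_mul, inv_mul_cancel, Units.val_one, Matrix.one_mulVec]

theorem sf_neg_left (u v : Fin m ⊕ Fin m → F) :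
    sympForm m F (-u) v = - sympForm m F u v := by
  have : -u = (-1 : F) • u := by simp
  rw [this, sf_smul_left]
  ring

theorem sf_neg_right (u v : Fin m ⊕ Fin m → F) :
    sympForm m F u (-v) = - sympForm m F u v := by
  have : -v = (-1 : F) • v := by simp
  rw [this, sf_smul_right]
  ring

theorem sf_sub_left (u u' v : Fin m ⊕ Fin m → F) :
    sympForm m F (u - u') v = sympForm m F u v - sympForm m F u' v := by
  rw [sub_eq_add_neg, sf_add_left, sf_neg_left]
  ring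

theorem sf_sub_right (u v v' : Fin m ⊕ Fin m → F) :
    sympForm m F u (v - v') = sympForm m F u v - sympForm m F u v' := by
  rw [sub_eq_add_neg, sf_add_right, sf_neg_right]
  ring

theorem sympTransGL_zero (c : F) : sympTransGL m (0 : Fin m ⊕ Fin m → F) c = 1 := by
  apply gl_ext
  intro x
  rw [sympTransGL_mulVec, smul_zero, add_zero, Units.val_one, Matrix.one_mulVec]

theorem sympTransGL_conj (k : GL (Fin m ⊕ Fin m) F) (hk : k ∈ spGL m F)
    (v : Fin m ⊕ Fin m → F) (c : F) :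
    k * sympTransGL m v c * k⁻¹
      = sympTransGL m ((k : Matrix (Fin m ⊕ Fin m) (Fin m ⊕ Fin m) F) *ᵥ v) c := by
  apply gl_ext
  intro x
  rw [gl_mul_mulVec, gl_mul_mulVec, sympTransGL_mulVec, sympTransGL_mulVec, Matrix.mulVec_add,
    Matrix.mulVec_smul, gl_mulVec_inv_mulVec]
  have : sympForm m F (((k⁻¹ : GL (Fin m ⊕ Fin m) F) :
      Matrix (Fin m ⊕ Fin m) (Fin m ⊕ Fin m) F) *ᵥ x) v
      = sympForm m F x ((k : Matrix (Fin m ⊕ Fin m) (Fin m ⊕ Fin m) F) *ᵥ v) := by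
    rw [← (mem_spGL_iff m k).mp hk, gl_mulVec_inv_mulVec]
  rw [this]

/-- The centres of the transvection groups contained in `K`. -/
def transCenters (K : Subgroup (GL (Fin m ⊕ Fin m) F)) : Set (Fin m ⊕ Fin m → F) :=
  {v | ∀ c : F, sympTransGL m v c ∈ K}

lemma zero_mem_transCenters (K : Subgroup (GL (Fin m ⊕ Fin m) F)) :
    (0 : Fin m ⊕ Fin m → F) ∈ transCenters K := by
  intro c
  rw [sympTransGL_zero]
  exact K.one_mem

lemma mulVec_mem_transCenters (K : Subgroup (GL (Fin m ⊕ Fin m) F))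
    (k : GL (Fin m ⊕ Fin m) F) (hk : k ∈ K) (hkS : k ∈ spGL m F) {v : Fin m ⊕ Fin m → F}
    (hv : v ∈ transCenters K) :
    (k : Matrix (Fin m ⊕ Fin m) (Fin m ⊕ Fin m) F) *ᵥ v ∈ transCenters K := by
  intro c
  rw [← sympTransGL_conj k hkS]
  exact K.mul_mem (K.mul_mem hk (hv c)) (K.inv_mem hk)

/-- Closure under hyperbolic lines. -/
lemma add_mem_transCenters (K : Subgroup (GL (Fin m ⊕ Fin m) F)) {u v : Fin m ⊕ Fin m → F}
    (hu : u ∈ transCenters K) (hv : v ∈ transCenters K) (h : sympForm m F u v ≠ 0) :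
    u + v ∈ transCenters K := by
  have := mulVec_mem_transCenters K (sympTransGL m v (sympForm m F u v)⁻¹) (hv _)
    (sympTransGL_mem m v _) hu
  rw [sympTransGL_mulVec, inv_mul_cancel₀ h, one_smul] at this
  exact this

/-- A subgroup containing all symplectic transvections contains the symplectic group. -/
theorem spGL_le_of_transCenters (K : Subgroup (GL (Fin m ⊕ Fin m) F))
    (h : ∀ v : Fin m ⊕ Fin m → F, v ∈ transCenters K) : spGL m F ≤ K := by
  intro g hg
  let φ : Matrix.symplecticGroup (Fin m) F →* GL (Fin m ⊕ Fin m) F :=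
    (Units.map (Matrix.symplecticGroup (Fin m) F).subtype).comp toUnits.toMonoidHom
  have hφ : ∀ A : Matrix.symplecticGroup (Fin m) F,
      ((φ A : GL (Fin m ⊕ Fin m) F) : Matrix (Fin m ⊕ Fin m) (Fin m ⊕ Fin m) F) = A.1 :=
    fun A => rfl
  have hgA : (g : Matrix (Fin m ⊕ Fin m) (Fin m ⊕ Fin m) F) ∈ Matrix.symplecticGroup (Fin m) F :=
    Cfsg.Agent.Lib.Helper13.mem_symplecticGroup_of_sympForm m ((mem_spGL_iff m g).mp hg)
  have hle : Subgroup.closure (Cfsg.Agent.Lib.Helper8.spTSet m F) ≤ K.comap φ := by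
    rw [Subgroup.closure_le]
    rintro A ⟨w, c, hA⟩
    show φ A ∈ K
    have : φ A = sympTransGL m w c := by
      apply gl_ext
      intro x
      rw [hφ, hA, Cfsg.Agent.Lib.Helper13.sympTransvection_mulVec, sympTransGL_mulVec]
    rw [this]
    exact h w c
  rw [Cfsg.Agent.Lib.Helper8.closure_spTSet] at hle
  have hmem : (⟨g.1, hgA⟩ : Matrix.symplecticGroup (Fin m) F) ∈ K.comap φ :=
    hle (Subgroup.mem_top _)
  have : φ ⟨g.1, hgA⟩ = g := Units.ext rfl
  rw [← this]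
  exact hmem

/-- Two non-zero functionals on a subspace are simultaneously non-zero somewhere. -/
lemma exists_both_ne (D0 : Submodule F (Fin m ⊕ Fin m → F)) (v v' : Fin m ⊕ Fin m → F)
    (h1 : ∃ d ∈ D0, sympForm m F d v ≠ 0) (h2 : ∃ d ∈ D0, sympForm m F d v' ≠ 0) :
    ∃ d ∈ D0, sympForm m F d v ≠ 0 ∧ sympForm m F d v' ≠ 0 := by
  obtain ⟨d1, hd1, h1⟩ := h1
  obtain ⟨d2, hd2, h2⟩ := h2
  by_cases h3 : sympForm m F d1 v' = 0
  · by_cases h4 : sympForm m F d2 v = 0
    · refine ⟨d1 + d2, D0.add_mem hd1 hd2, ?_, ?_⟩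
      · rw [sf_add_left, h4, add_zero]; exact h1
      · rw [sf_add_left, h3, zero_add]; exact h2
    · exact ⟨d2, hd2, h4, h2⟩
  · exact ⟨d1, hd1, h1, h3⟩

/-- Changing a centre by a vector of a subspace of centres, staying non-orthogonal to it. -/
lemma add_mem_transCenters_of_sub (K : Subgroup (GL (Fin m ⊕ Fin m) F))
    (D0 : Submodule F (Fin m ⊕ Fin m → F)) (hD : ∀ d ∈ D0, d ∈ transCenters K)
    {v u : Fin m ⊕ Fin m → F} (hv : v ∈ transCenters K) (hu : u ∈ D0)
    (h1 : ∃ d ∈ D0, sympForm m F d v ≠ 0) (h2 : ∃ d ∈ D0, sympForm m F d (v + u) ≠ 0) :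
    v + u ∈ transCenters K := by
  by_cases h0 : sympForm m F v u = 0
  · obtain ⟨u1, hu1, ha, hb⟩ := exists_both_ne D0 v (v + u) h1 h2
    have s1 : v + u1 ∈ transCenters K :=
      add_mem_transCenters K hv (hD u1 hu1) (by rw [sf_swap]; exact neg_ne_zero.mpr ha)
    have s2 : (v + u1) + (u - u1) ∈ transCenters K := by
      refine add_mem_transCenters K s1 (hD _ (D0.sub_mem hu hu1)) ?_
      have : sympForm m F (v + u1) (u - u1) = sympForm m F u1 (v + u) := by
        rw [sf_add_left, sf_sub_right, sf_sub_right, sf_add_right, sf_self, h0,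
          sf_swap m v u1]
        ring
      rw [this]
      exact hb
    have : v + u1 + (u - u1) = v + u := by abel
    rwa [this] at s2
  · exact add_mem_transCenters K hv (hD u hu) h0

/-- From one vector with two non-zero components to all of them. -/
lemma pair_mem_transCenters (K : Subgroup (GL (Fin m ⊕ Fin m) F))
    (A B : Submodule F (Fin m ⊕ Fin m → F)) (hA : ∀ d ∈ A, d ∈ transCenters K)
    (hB : ∀ d ∈ B, d ∈ transCenters K)
    (horth : ∀ x ∈ A, ∀ y ∈ B, sympForm m F x y = 0)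
    (hndA : IsNondegenerateOn (sympForm m F) A) (hndB : IsNondegenerateOn (sympForm m F) B)
    {x₀ y₀ : Fin m ⊕ Fin m → F} (hx₀ : x₀ ∈ A) (hy₀ : y₀ ∈ B) (hx₀0 : x₀ ≠ 0) (hy₀0 : y₀ ≠ 0)
    (h : x₀ + y₀ ∈ transCenters K) {x y : Fin m ⊕ Fin m → F} (hx : x ∈ A) (hy : y ∈ B) :
    x + y ∈ transCenters K := by
  by_cases hx0 : x = 0
  · rw [hx0, zero_add]; exact hB y hy
  by_cases hy0 : y = 0
  · rw [hy0, add_zero]; exact hA x hx
  have horth' : ∀ y ∈ B, ∀ x ∈ A, sympForm m F y x = 0 := by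
    intro y hy x hx
    rw [sf_swap, horth x hx y hy, neg_zero]
  have e1 : x₀ + y₀ + (x - x₀) = x + y₀ := by abel
  have s1 : x + y₀ ∈ transCenters K := by
    rw [← e1]
    refine add_mem_transCenters_of_sub K A hA h (A.sub_mem hx hx₀) ?_ ?_
    · obtain ⟨⟨d, hd, hne⟩, -⟩ := hndA x₀ hx₀ hx₀0
      exact ⟨d, hd, by rw [sf_add_right, horth d hd y₀ hy₀, add_zero]; exact hne⟩
    · obtain ⟨⟨d, hd, hne⟩, -⟩ := hndA x hx hx0
      exact ⟨d, hd, by rw [e1, sf_add_right, horth d hd y₀ hy₀, add_zero]; exact hne⟩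
  have e2 : x + y₀ + (y - y₀) = x + y := by abel
  rw [← e2]
  refine add_mem_transCenters_of_sub K B hB s1 (B.sub_mem hy hy₀) ?_ ?_
  · obtain ⟨⟨d, hd, hne⟩, -⟩ := hndB y₀ hy₀ hy₀0
    exact ⟨d, hd, by rw [sf_add_right, horth' d hd x hx, zero_add]; exact hne⟩
  · obtain ⟨⟨d, hd, hne⟩, -⟩ := hndB y hy hy0
    exact ⟨d, hd, by rw [e2, sf_add_right, horth' d hd x hx, zero_add]; exact hne⟩

end Cfsg.Agent.Lib.Helper94
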