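import Cfsg.Agent.Lib.Helper94.SpSwap

set_option autoImplicit false
set_option linter.unusedSectionVars false

namespace Cfsg.Agent.Lib.Helper94

open Cfsg Cfsg.Geo
open scoped MatrixGroups Matrix

variable {F : Type*} [Field F] {m : ℕ}

theorem sympTransGL_inv (a : Fin m ⊕ Fin m → F) (c : F) :
    (sympTransGL m a c)⁻¹ = sympTransGL m a (-c) := by
  apply gl_ext
  intro x
  have h1 : ((sympTransGL m a c : GL (Fin m ⊕ Fin m) F) :
      Matrix (Fin m ⊕ Fin m) (Fin m ⊕ Fin m) F) *ᵥ
      (((sympTransGL m a (-c) : GL (Fin m ⊕ Fin m) F) :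
        Matrix (Fin m ⊕ Fin m) (Fin m ⊕ Fin m) F) *ᵥ x) = x := by
    rw [sympTransGL_mulVec, sympTransGL_mulVec, sf_add_left, sf_smul_left, sf_self]
    module
  have h2 := gl_inv_mulVec_mulVec (sympTransGL m a c)
    (((sympTransGL m a (-c) : GL (Fin m ⊕ Fin m) F) :
      Matrix (Fin m ⊕ Fin m) (Fin m ⊕ Fin m) F) *ᵥ x)
  rw [h1] at h2
  exact h2

section family

variable {t : ℕ} (D : Fin t → Submodule F (Fin m ⊕ Fin m → F))

/-- Every vector is a sum of components. -/
lemma exists_components (hsup : iSup D = ⊤) (v : Fin m ⊕ Fin m → F) :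
    ∃ c : Fin t → (Fin m ⊕ Fin m → F), (∀ i, c i ∈ D i) ∧ v = ∑ i, c i := by
  classical
  have hv : v ∈ iSup D := by rw [hsup]; exact Submodule.mem_top
  refine Submodule.iSup_induction D (motive := fun v =>
    ∃ c : Fin t → (Fin m ⊕ Fin m → F), (∀ i, c i ∈ D i) ∧ v = ∑ i, c i) hv ?_ ?_ ?_
  · intro i x hx
    refine ⟨Pi.single i x, ?_, ?_⟩
    · intro j
      by_cases h : j = i
      · subst h
        rw [Pi.single_eq_same]
        exact hx
      · rw [Pi.single_eq_of_ne h]
        exact (D j).zero_mem
    · rw [Finset.sum_pi_single']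
      simp
  · exact ⟨0, fun i => (D i).zero_mem, by simp⟩
  · rintro x y ⟨c, hc, rfl⟩ ⟨c', hc', rfl⟩
    exact ⟨c + c', fun i => (D i).add_mem (hc i) (hc' i), by simp [Finset.sum_add_distrib]⟩

/-- A matrix mapping the members of a family to each other along a permutation, together with
its inverse, stabilises the family. -/
lemma mem_decompStab_of_maps (g : GL (Fin m ⊕ Fin m) F) (π : Equiv.Perm (Fin t))
    (h1 : ∀ l, ∀ x ∈ D l, (g : Matrix (Fin m ⊕ Fin m) (Fin m ⊕ Fin m) F) *ᵥ x ∈ D (π l))
    (h2 : ∀ l, ∀ x ∈ D l,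
      ((g⁻¹ : GL (Fin m ⊕ Fin m) F) : Matrix (Fin m ⊕ Fin m) (Fin m ⊕ Fin m) F) *ᵥ x
        ∈ D (π.symm l)) :
    g ∈ decompositionStabilizer D := by
  rw [mem_decompositionStabilizer_iff]
  refine ⟨π, fun i => le_antisymm ?_ ?_⟩
  · rintro _ ⟨x, hx, rfl⟩
    rw [Matrix.toLin'_apply]
    exact h1 i x hx
  · intro y hy
    refine ⟨((g⁻¹ : GL (Fin m ⊕ Fin m) F) : Matrix (Fin m ⊕ Fin m) (Fin m ⊕ Fin m) F) *ᵥ y,
      ?_, ?_⟩
    · have := h2 (π i) y hy
      rwa [Equiv.symm_apply_apply] at this
    · rw [Matrix.toLin'_apply, gl_mulVec_inv_mulVec]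

variable (horth : ∀ i j, i ≠ j → AreOrthogonalFor (sympForm m F) (D i) (D j))
variable (hnd : ∀ i, IsNondegenerateOn (sympForm m F) (D i))

include horth in
lemma sf_comp_right (c : Fin t → (Fin m ⊕ Fin m → F)) (hc : ∀ i, c i ∈ D i) (j : Fin t)
    (d : Fin m ⊕ Fin m → F) (hd : d ∈ D j) (S : Finset (Fin t)) (hj : j ∈ S) :
    sympForm m F d (∑ i ∈ S, c i) = sympForm m F d (c j) := by
  rw [sf_sum_right, Finset.sum_eq_single_of_mem j hj]
  intro i _ hij
  exact horth j i (Ne.symm hij) d hd (c i) (hc i)

include horth in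
lemma sf_comp_right_of_notMem (c : Fin t → (Fin m ⊕ Fin m → F)) (hc : ∀ i, c i ∈ D i)
    (j : Fin t) (d : Fin m ⊕ Fin m → F) (hd : d ∈ D j) (S : Finset (Fin t)) (hj : j ∉ S) :
    sympForm m F d (∑ i ∈ S, c i) = 0 := by
  rw [sf_sum_right]
  apply Finset.sum_eq_zero
  intro i hi
  exact horth j i (fun h => hj (h ▸ hi)) d hd (c i) (hc i)

include horth in
lemma sf_comp_left (c : Fin t → (Fin m ⊕ Fin m → F)) (hc : ∀ i, c i ∈ D i) (j : Fin t)
    (d : Fin m ⊕ Fin m → F) (hd : d ∈ D j) (S : Finset (Fin t)) (hj : j ∈ S) :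
    sympForm m F (∑ i ∈ S, c i) d = sympForm m F (c j) d := by
  rw [sf_swap, sf_comp_right D horth c hc j d hd S hj, ← sf_swap]

include horth in
lemma sf_comp_left_of_notMem (c : Fin t → (Fin m ⊕ Fin m → F)) (hc : ∀ i, c i ∈ D i)
    (j : Fin t) (d : Fin m ⊕ Fin m → F) (hd : d ∈ D j) (S : Finset (Fin t)) (hj : j ∉ S) :
    sympForm m F (∑ i ∈ S, c i) d = 0 := by
  rw [sf_swap, sf_comp_right_of_notMem D horth c hc j d hd S hj, neg_zero]

include horth hnd in
/-- Distinct members meet trivially. -/
lemma eq_of_mem_of_mem {a b : Fin t} {x : Fin m ⊕ Fin m → F} (hxa : x ∈ D a) (hxb : x ∈ D b)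
    (hx0 : x ≠ 0) : a = b := by
  by_contra hne
  obtain ⟨⟨d, hd, hdx⟩, -⟩ := hnd a x hxa hx0
  exact hdx (horth a b hne d hd x hxb)

include horth hnd in
/-- A sum of non-zero vectors of two distinct members lies in no member. -/
lemma not_mem_of_two {a b : Fin t} (hab : a ≠ b) {u u' : Fin m ⊕ Fin m → F} (hu : u ∈ D a)
    (hu0 : u ≠ 0) (hu' : u' ∈ D b) (hu'0 : u' ≠ 0) (e : Fin t) : u + u' ∉ D e := by
  intro hmem
  obtain ⟨-, ⟨d, hd, hud⟩⟩ := hnd a u hu hu0
  obtain ⟨-, ⟨d', hd', hud'⟩⟩ := hnd b u' hu' hu'0
  have h1 : e = a := by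
    by_contra hne
    have := horth e a hne _ hmem d hd
    rw [sf_add_left, horth b a (Ne.symm hab) u' hu' d hd, add_zero] at this
    exact hud this
  have h2 : e = b := by
    by_contra hne
    have := horth e b hne _ hmem d' hd'
    rw [sf_add_left, horth a b hab u hu d' hd', zero_add] at this
    exact hud' this
  exact hab (h1.symm.trans h2)

include horth hnd in
/-- Changing one non-zero component of a centre to another non-zero vector. -/
lemma update_mem_transCenters (K : Subgroup (GL (Fin m ⊕ Fin m) F))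
    (hD : ∀ i, ∀ d ∈ D i, d ∈ transCenters K) (c : Fin t → (Fin m ⊕ Fin m → F))
    (hc : ∀ i, c i ∈ D i) (hv : ∑ i, c i ∈ transCenters K) (j : Fin t)
    (x : Fin m ⊕ Fin m → F) (hx : x ∈ D j) (hcj : c j ≠ 0) (hx0 : x ≠ 0) :
    ∑ i, Function.update c j x i ∈ transCenters K := by
  classical
  have e : ∑ i, Function.update c j x i = ∑ i, c i + (x - c j) := by
    have : ∀ i, Function.update c j x i = c i + (if i = j then x - c j else 0) := by
      intro i
      by_cases h : i = j
      · subst h
        simp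
      · simp [Function.update_of_ne h, h]
    rw [Finset.sum_congr rfl (fun i _ => this i), Finset.sum_add_distrib,
      Finset.sum_ite_eq' Finset.univ j]
    simp
  rw [e]
  refine add_mem_transCenters_of_sub K (D j) (hD j) hv ((D j).sub_mem hx (hc j)) ?_ ?_
  · obtain ⟨⟨d, hd, hne⟩, -⟩ := hnd j (c j) (hc j) hcj
    exact ⟨d, hd, by rw [sf_comp_right D horth c hc j d hd _ (Finset.mem_univ j)]; exact hne⟩
  · obtain ⟨⟨d, hd, hne⟩, -⟩ := hnd j x hx hx0
    refine ⟨d, hd, ?_⟩
    rw [sf_add_right, sf_sub_right, sf_comp_right D horth c hc j d hd _ (Finset.mem_univ j)]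
    have : sympForm m F d (c j) + (sympForm m F d x - sympForm m F d (c j))
        = sympForm m F d x := by ring
    rw [this]
    exact hne

include horth hnd in
/-- Centres with the same support. -/
lemma same_support_mem_transCenters (K : Subgroup (GL (Fin m ⊕ Fin m) F))
    (hD : ∀ i, ∀ d ∈ D i, d ∈ transCenters K) (c c' : Fin t → (Fin m ⊕ Fin m → F))
    (hc : ∀ i, c i ∈ D i) (hc' : ∀ i, c' i ∈ D i) (hv : ∑ i, c i ∈ transCenters K)
    (hsupp : ∀ i, c i = 0 ↔ c' i = 0) : ∑ i, c' i ∈ transCenters K := by
  classical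
  have key : ∀ T : Finset (Fin t),
      ∑ i, (fun i => if i ∈ T then c' i else c i) i ∈ transCenters K := by
    intro T
    induction T using Finset.induction_on with
    | empty => simpa using hv
    | insert j T hj ih =>
      have hupd : (fun i => if i ∈ insert j T then c' i else c i)
          = Function.update (fun i => if i ∈ T then c' i else c i) j (c' j) := by
        funext i
        by_cases h : i = j
        · subst h
          simp
        · simp [Function.update_of_ne h, Finset.mem_insert, h]
      rw [hupd]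
      by_cases hcj : c j = 0
      · have : Function.update (fun i => if i ∈ T then c' i else c i) j (c' j)
            = (fun i => if i ∈ T then c' i else c i) := by
          rw [Function.update_eq_self_iff]
          simp [hj, (hsupp j).mp hcj, hcj]
        rw [this]
        exact ih
      · refine update_mem_transCenters D horth hnd K hD _ ?_ ih j (c' j) (hc' j) ?_ ?_
        · intro i
          show (if i ∈ T then c' i else c i) ∈ D i
          split_ifs
          · exact hc' i
          · exact hc i
        · show (if j ∈ T then c' j else c j) ≠ 0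
          rw [if_neg hj]
          exact hcj
        · exact fun h => hcj ((hsupp j).mpr h)
  have := key Finset.univ
  simpa using this

include horth hnd in
/-- If all sums of two components are centres, so are all sums of components. -/
theorem sum_mem_transCenters (K : Subgroup (GL (Fin m ⊕ Fin m) F))
    (hD : ∀ i, ∀ d ∈ D i, d ∈ transCenters K)
    (hpair : ∀ a b, a ≠ b → ∀ x ∈ D a, ∀ y ∈ D b, x + y ∈ transCenters K)
    (S : Finset (Fin t)) : ∀ c : Fin t → (Fin m ⊕ Fin m → F), (∀ i, c i ∈ D i) →
      ∑ i ∈ S, c i ∈ transCenters K := by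
  classical
  induction S using Finset.induction_on with
  | empty =>
    intro c _
    rw [Finset.sum_empty]
    exact zero_mem_transCenters K
  | insert j S hj ih =>
    intro c hc
    rw [Finset.sum_insert hj]
    by_cases hall : ∀ i ∈ S, c i = 0
    · rw [Finset.sum_eq_zero hall, add_zero]
      exact hD j _ (hc j)
    · push Not at hall
      obtain ⟨i, hiS, hci⟩ := hall
      have hij : i ≠ j := fun h => hj (h ▸ hiS)
      obtain ⟨-, ⟨q, hq, hfq⟩⟩ := hnd i (c i) (hc i) hci
      have hc2 : ∀ l, Function.update c i (c i - q) l ∈ D l := by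
        intro l
        by_cases h : l = i
        · subst h
          rw [Function.update_self]
          exact (D l).sub_mem (hc l) hq
        · rw [Function.update_of_ne h]
          exact hc l
      have hu := ih (Function.update c i (c i - q)) hc2
      have hw := hpair i j hij q hq (c j) (hc j)
      have hsum : ∑ l ∈ S, Function.update c i (c i - q) l = ∑ l ∈ S, c l - q := by
        have : ∀ l, Function.update c i (c i - q) l = c l + (if l = i then -q else 0) := by
          intro l
          by_cases h : l = i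
          · subst h
            simp [sub_eq_add_neg]
          · simp [Function.update_of_ne h, h]
        rw [Finset.sum_congr rfl (fun l _ => this l), Finset.sum_add_distrib,
          Finset.sum_ite_eq' S i, if_pos hiS, sub_eq_add_neg]
      rw [hsum] at hu
      have hf : sympForm m F (∑ l ∈ S, c l - q) (q + c j) ≠ 0 := by
        rw [sf_sub_left, sf_add_right, sf_add_right, sf_self,
          sf_comp_left D horth c hc i q hq S hiS,
          sf_comp_left_of_notMem D horth c hc j (c j) (hc j) S hj,
          horth i j hij q hq (c j) (hc j)]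
        simpa using hfq
      have := add_mem_transCenters K hu hw hf
      have e : ∑ l ∈ S, c l - q + (q + c j) = c j + ∑ l ∈ S, c l := by abel
      rwa [e] at this

end family

/-- A non-zero vector orthogonal to `u`, independent of it when the dimension is not two. -/
lemma exists_perp_indep [Fintype F] (D0 : Submodule F (Fin m ⊕ Fin m → F)) (k : ℕ)
    (hfr : Module.finrank F D0 = k) (hnd : IsNondegenerateOn (sympForm m F) D0)
    (hex : ¬ (k = 2 ∧ Fintype.card F = 2)) (u : Fin m ⊕ Fin m → F) (hu : u ∈ D0) (hu0 : u ≠ 0) :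
    ∃ z ∈ D0, z ≠ 0 ∧ sympForm m F u z = 0 ∧ u + z ≠ 0 := by
  classical
  by_cases hk : k = 2
  · have hcard : Fintype.card F ≠ 2 := fun h => hex ⟨hk, h⟩
    have hl : ∃ l : F, l ≠ 0 ∧ l ≠ -1 := by
      by_contra h
      push Not at h
      have hsub : (Finset.univ : Finset F) ⊆ {0, -1} := by
        intro x _
        by_cases hx : x = 0
        · simp [hx]
        · simp [h x hx]
      have h1 := Finset.card_le_card hsub
      rw [Finset.card_univ] at h1
      have h2 : ({0, -1} : Finset F).card ≤ 2 := Finset.card_le_two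
      have h3 : 2 ≤ Fintype.card F := Fintype.one_lt_card
      omega
    obtain ⟨l, hl0, hl1⟩ := hl
    refine ⟨l • u, D0.smul_mem _ hu, smul_ne_zero hl0 hu0, ?_, ?_⟩
    · rw [sf_smul_right, sf_self, mul_zero]
    · have : u + l • u = (1 + l) • u := by module
      rw [this]
      refine smul_ne_zero ?_ hu0
      intro h
      exact hl1 (by linear_combination h)
  · obtain ⟨-, ⟨z₁, hz₁, huz₁⟩⟩ := hnd u hu hu0
    have hli : LinearIndependent F ![u, z₁] := by
      rw [LinearIndependent.pair_iff]
      intro s t' hst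
      have e1 : sympForm m F (s • u + t' • z₁) z₁ = 0 := by rw [hst, sf_zero_left]
      have e2 : sympForm m F u (s • u + t' • z₁) = 0 := by rw [hst, sf_zero_right]
      rw [sf_add_left, sf_smul_left, sf_smul_left, sf_self] at e1
      rw [sf_add_right, sf_smul_right, sf_smul_right, sf_self] at e2
      constructor
      · have : s * sympForm m F u z₁ = 0 := by linear_combination e1
        exact (mul_eq_zero.mp this).resolve_right huz₁
      · have : t' * sympForm m F u z₁ = 0 := by linear_combination e2
        exact (mul_eq_zero.mp this).resolve_right huz₁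
    have hfrP : Module.finrank F (Submodule.span F {u, z₁}) = 2 := by
      have := finrank_span_eq_card hli
      rw [Matrix.range_cons_cons_empty] at this
      simpa using this
    have hPle : Submodule.span F {u, z₁} ≤ D0 := by
      rw [Submodule.span_le]
      intro v hv
      rcases hv with rfl | rfl
      · exact hu
      · exact hz₁
    have hPne : Submodule.span F {u, z₁} ≠ D0 := by
      intro h
      rw [h, hfr] at hfrP
      exact hk hfrP
    obtain ⟨z₂, hz₂, hz₂P⟩ := SetLike.exists_of_lt (lt_of_le_of_ne hPle hPne)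
    obtain ⟨β, hβ⟩ : ∃ β : F, β = sympForm m F u z₂ / sympForm m F u z₁ := ⟨_, rfl⟩
    refine ⟨z₂ - β • z₁, D0.sub_mem hz₂ (D0.smul_mem _ hz₁), ?_, ?_, ?_⟩
    · intro h
      apply hz₂P
      have : z₂ = (0 : F) • u + β • z₁ := by
        rw [zero_smul, zero_add]
        exact sub_eq_zero.mp h
      rw [this]
      exact Submodule.mem_span_pair.mpr ⟨_, _, rfl⟩
    · rw [sf_sub_right, sf_smul_right, hβ]
      field_simp
      ring
    · intro h
      apply hz₂P
      have : z₂ = (-1 : F) • u + β • z₁ := by
        have h' : z₂ = -u + β • z₁ := by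
          calc z₂ = (u + (z₂ - β • z₁)) - u + β • z₁ := by abel
            _ = -u + β • z₁ := by rw [h, zero_sub]
        rw [h', neg_one_smul]
      rw [this]
      exact Submodule.mem_span_pair.mpr ⟨_, _, rfl⟩

/-- A relation on indices invariant under transpositions and containing one pair of distinct
indices contains all of them. -/
lemma pairs_of_swap_invariant {t : ℕ} (Pr : Fin t → Fin t → Prop)
    (hinv : ∀ i j, i ≠ j → ∀ a b, Pr a b → Pr (Equiv.swap i j a) (Equiv.swap i j b))
    (a₀ b₀ : Fin t) (h₀ : Pr a₀ b₀) (hne₀ : a₀ ≠ b₀) : ∀ a b, a ≠ b → Pr a b := by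
  have step : ∀ a b₁ b, a ≠ b₁ → a ≠ b → Pr a b₁ → Pr a b := by
    intro a b₁ b hab₁ hab h
    by_cases hb : b₁ = b
    · rw [← hb]; exact h
    · have := hinv b₁ b hb a b₁ h
      rwa [Equiv.swap_apply_of_ne_of_ne hab₁ hab, Equiv.swap_apply_left] at this
  intro a b hab
  by_cases ha : a₀ = a
  · subst ha
    exact step a₀ b₀ b hne₀ hab h₀
  · have h1 := hinv a₀ a ha a₀ b₀ h₀
    rw [Equiv.swap_apply_left] at h1
    have hne : a ≠ Equiv.swap a₀ a b₀ := by
      intro h
      have h2 : Equiv.swap a₀ a a₀ = Equiv.swap a₀ a b₀ := by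
        rw [Equiv.swap_apply_left]
        exact h
      exact hne₀ ((Equiv.swap a₀ a).injective h2)
    exact step a _ b hne hab h1

end Cfsg.Agent.Lib.Helper94
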