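import Cfsg.Agent.Lib.Helper94.SpDecomp

set_option autoImplicit false
set_option linter.unusedSectionVars false

namespace Cfsg.Agent.Lib.Helper94

open Cfsg Cfsg.Geo
open scoped MatrixGroups Matrix

variable {F : Type*} [Field F] {m : ℕ}

section decompMax

variable {t : ℕ} (D : Fin t → Submodule F (Fin m ⊕ Fin m → F))
variable (horth : ∀ i j, i ≠ j → AreOrthogonalFor (sympForm m F) (D i) (D j))
variable (hnd : ∀ i, IsNondegenerateOn (sympForm m F) (D i))

include horth in
/-- A transvection with centre in a member stabilises the decomposition. -/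
lemma sympTransGL_mem_decompStab (i : Fin t) (d : Fin m ⊕ Fin m → F) (hd : d ∈ D i) (c : F) :
    sympTransGL m d c ∈ decompositionStabilizer D := by
  have key : ∀ c' : F, ∀ l, ∀ x ∈ D l,
      ((sympTransGL m d c' : GL (Fin m ⊕ Fin m) F) :
        Matrix (Fin m ⊕ Fin m) (Fin m ⊕ Fin m) F) *ᵥ x ∈ D l := by
    intro c' l x hx
    rw [sympTransGL_mulVec]
    by_cases hl : l = i
    · subst hl
      exact (D l).add_mem hx ((D l).smul_mem _ hd)
    · rw [horth l i hl x hx d hd, mul_zero, zero_smul, add_zero]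
      exact hx
  apply mem_decompStab_of_maps D _ 1
  · intro l x hx
    exact key c l x hx
  · intro l x hx
    rw [sympTransGL_inv]
    exact key (-c) l x hx

include horth in
lemma mem_transCenters_of_mem (M : Subgroup (GL (Fin m ⊕ Fin m) F))
    (hM : decompositionStabilizer D ⊓ spGL m F ≤ M) (i : Fin t) (d : Fin m ⊕ Fin m → F)
    (hd : d ∈ D i) : d ∈ transCenters M :=
  fun c => hM ⟨sympTransGL_mem_decompStab D horth i d hd c, sympTransGL_mem m d c⟩

include horth in
/-- The involution exchanging two members. -/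
lemma exists_block_swap {r : ℕ} (a b : Fin t → Fin r → (Fin m ⊕ Fin m → F))
    (hbasis : ∀ i, IsSympBasis (D i) (a i) (b i)) (i j : Fin t) (hij : i ≠ j) :
    ∃ τ : GL (Fin m ⊕ Fin m) F, τ ∈ spGL m F ∧ τ ∈ decompositionStabilizer D ∧
      ∀ l, ∀ x ∈ D l, (τ : Matrix (Fin m ⊕ Fin m) (Fin m ⊕ Fin m) F) *ᵥ x
        ∈ D (Equiv.swap i j l) := by
  have hp := isSwapPair_sub (D i) (D j) (horth i j hij) (a i) (b i) (a j) (b j)
    (hbasis i) (hbasis j)
  have hmaps : ∀ l, ∀ x ∈ D l,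
      ((swapGL hp : GL (Fin m ⊕ Fin m) F) : Matrix (Fin m ⊕ Fin m) (Fin m ⊕ Fin m) F) *ᵥ x
        ∈ D (Equiv.swap i j l) := by
    intro l x hx
    rw [swapGL_mulVec]
    by_cases hli : l = i
    · subst hli
      rw [Equiv.swap_apply_left]
      exact swap_mem_of_mem (D l) (D j) (horth l j hij) (a l) (b l) (a j) (b j)
        (hbasis l) (hbasis j) x hx
    · by_cases hlj : l = j
      · subst hlj
        rw [Equiv.swap_apply_right]
        exact swap_mem_of_mem' (D i) (D l) (horth i l hij) (a i) (b i) (a l) (b l)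
          (hbasis i) (hbasis l) x hx
      · rw [Equiv.swap_apply_of_ne_of_ne hli hlj, swapAux_eq_zero, add_zero]
        · exact hx
        · intro l'
          show sympForm m F x (a i l' - a j l') = 0
          rw [sf_sub_right, horth l i hli x hx _ ((hbasis i).mem_a l'),
            horth l j hlj x hx _ ((hbasis j).mem_a l'), sub_zero]
        · intro l'
          show sympForm m F x (b i l' - b j l') = 0
          rw [sf_sub_right, horth l i hli x hx _ ((hbasis i).mem_b l'),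
            horth l j hlj x hx _ ((hbasis j).mem_b l'), sub_zero]
  refine ⟨swapGL hp, swapGL_mem hp, ?_, hmaps⟩
  apply mem_decompStab_of_maps D _ (Equiv.swap i j) hmaps
  intro l x hx
  rw [swapGL_inv, Equiv.symm_swap]
  exact hmaps l x hx

include horth hnd in
/-- The stabiliser is a proper subgroup. -/
lemma decompStab_lt (ht : 2 ≤ t) (hne : ∀ i, ∃ x ∈ D i, x ≠ 0) :
    decompositionStabilizer D ⊓ spGL m F < spGL m F := by
  refine lt_of_le_of_ne inf_le_right ?_
  intro heq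
  obtain ⟨i, j, hij⟩ : ∃ i j : Fin t, i ≠ j :=
    ⟨⟨0, by omega⟩, ⟨1, by omega⟩, by simp [Fin.ext_iff]⟩
  obtain ⟨x₁, hx₁, hx₁0⟩ := hne i
  obtain ⟨y₁, hy₁, hy₁0⟩ := hne j
  obtain ⟨⟨d, hd, hdx⟩, -⟩ := hnd i x₁ hx₁ hx₁0
  have hg : sympTransGL m (x₁ + y₁) 1 ∈ decompositionStabilizer D ⊓ spGL m F := by
    rw [heq]
    exact sympTransGL_mem m _ _
  obtain ⟨σ, hσ⟩ := (mem_decompositionStabilizer_iff D _).mp hg.1
  have hmem := mulVec_mem_of_mem_decompositionStabilizer D _ σ hσ i d hd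
  rw [sympTransGL_mulVec, sf_add_right, horth i j hij d hd y₁ hy₁, add_zero, one_mul] at hmem
  have e : d + sympForm m F d x₁ • (x₁ + y₁)
      = (d + sympForm m F d x₁ • x₁) + sympForm m F d x₁ • y₁ := by
    module
  rw [e] at hmem
  refine not_mem_of_two D horth hnd hij ((D i).add_mem hd ((D i).smul_mem _ hx₁)) ?_
    ((D j).smul_mem _ hy₁) (smul_ne_zero hdx hy₁0) (σ i) hmem
  intro h0
  have h1 := congrArg (fun w => sympForm m F w x₁) h0
  simp only [sf_add_left, sf_smul_left, sf_self, sf_zero_left, mul_zero, add_zero] at h1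
  exact hdx h1

include horth hnd in
/-- If no centre has two non-zero components, every element of `M` maps members into members. -/
lemma maps_into_member (M : Subgroup (GL (Fin m ⊕ Fin m) F)) (hMS : M ≤ spGL m F)
    (hsup : iSup D = ⊤) (hne : ∀ i, ∃ x ∈ D i, x ≠ 0)
    (hDC : ∀ i, ∀ d ∈ D i, d ∈ transCenters M)
    (hN : ∀ c : Fin t → (Fin m ⊕ Fin m → F), (∀ i, c i ∈ D i) → ∑ i, c i ∈ transCenters M →
      ∀ a b, a ≠ b → c a ≠ 0 → c b = 0)
    (h : GL (Fin m ⊕ Fin m) F) (hh : h ∈ M) (i : Fin t) :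
    ∃ a, ∀ x ∈ D i, (h : Matrix (Fin m ⊕ Fin m) (Fin m ⊕ Fin m) F) *ᵥ x ∈ D a := by
  classical
  have hinj : ∀ w : Fin m ⊕ Fin m → F, w ≠ 0 →
      (h : Matrix (Fin m ⊕ Fin m) (Fin m ⊕ Fin m) F) *ᵥ w ≠ 0 := by
    intro w hw h0
    apply hw
    apply gl_mulVec_injective h
    rw [h0, Matrix.mulVec_zero]
  have hP : ∀ x ∈ D i, x ≠ 0 →
      ∃ a, (h : Matrix (Fin m ⊕ Fin m) (Fin m ⊕ Fin m) F) *ᵥ x ∈ D a := by
    intro x hx hx0
    have hC := mulVec_mem_transCenters M h hh (hMS hh) (hDC i x hx)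
    obtain ⟨c, hc, hsum⟩ := exists_components D hsup
      ((h : Matrix (Fin m ⊕ Fin m) (Fin m ⊕ Fin m) F) *ᵥ x)
    have hex : ∃ a, c a ≠ 0 := by
      by_contra hall
      push Not at hall
      apply hinj x hx0
      rw [hsum]
      exact Finset.sum_eq_zero (fun i _ => hall i)
    obtain ⟨a, ha⟩ := hex
    refine ⟨a, ?_⟩
    rw [hsum] at hC
    rw [hsum, Finset.sum_eq_single a]
    · exact hc a
    · intro b _ hba
      exact hN c hc hC a b (Ne.symm hba) ha
    · intro h'
      exact absurd (Finset.mem_univ a) h'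
  obtain ⟨x₀, hx₀, hx₀0⟩ := hne i
  obtain ⟨a, ha⟩ := hP x₀ hx₀ hx₀0
  refine ⟨a, ?_⟩
  intro x hx
  by_cases hx0 : x = 0
  · rw [hx0, Matrix.mulVec_zero]
    exact (D a).zero_mem
  obtain ⟨a', ha'⟩ := hP x hx hx0
  by_cases haa : a' = a
  · rw [← haa]
    exact ha'
  exfalso
  by_cases hsum0 : x + x₀ = 0
  · have hxe : x₀ = -x := eq_neg_of_add_eq_zero_right hsum0
    rw [hxe, Matrix.mulVec_neg] at ha
    have h1 : (h : Matrix (Fin m ⊕ Fin m) (Fin m ⊕ Fin m) F) *ᵥ x ∈ D a := by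
      have := (D a).neg_mem ha
      rwa [neg_neg] at this
    exact haa (eq_of_mem_of_mem D horth hnd ha' h1 (hinj x hx0))
  · obtain ⟨e, he⟩ := hP (x + x₀) ((D i).add_mem hx hx₀) hsum0
    rw [Matrix.mulVec_add] at he
    exact not_mem_of_two D horth hnd haa ha' (hinj x hx0) ha (hinj x₀ hx₀0) e he

include horth hnd in
/-- Some centre has two non-zero components. -/
lemma exists_two_components (M : Subgroup (GL (Fin m ⊕ Fin m) F)) (hMS : M ≤ spGL m F)
    (hsup : iSup D = ⊤) (hne : ∀ i, ∃ x ∈ D i, x ≠ 0)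
    (hDC : ∀ i, ∀ d ∈ D i, d ∈ transCenters M)
    (g : GL (Fin m ⊕ Fin m) F) (hg : g ∈ M) (hgD : g ∉ decompositionStabilizer D) :
    ∃ c : Fin t → (Fin m ⊕ Fin m → F), (∀ i, c i ∈ D i) ∧ ∑ i, c i ∈ transCenters M ∧
      ∃ a b, a ≠ b ∧ c a ≠ 0 ∧ c b ≠ 0 := by
  by_contra hcon
  have hN : ∀ c : Fin t → (Fin m ⊕ Fin m → F), (∀ i, c i ∈ D i) →
      ∑ i, c i ∈ transCenters M → ∀ a b, a ≠ b → c a ≠ 0 → c b = 0 := by
    intro c hc hsum a b hab ha
    by_contra hb
    exact hcon ⟨c, hc, hsum, a, b, hab, ha, hb⟩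
  choose σ hσ using maps_into_member D horth hnd M hMS hsup hne hDC hN g hg
  choose τ hτ using maps_into_member D horth hnd M hMS hsup hne hDC hN g⁻¹ (M.inv_mem hg)
  have hl : Function.LeftInverse τ σ := by
    intro i
    obtain ⟨x, hx, hx0⟩ := hne i
    have h1 := hτ (σ i) _ (hσ i x hx)
    rw [gl_inv_mulVec_mulVec] at h1
    exact eq_of_mem_of_mem D horth hnd h1 hx hx0
  have hr : Function.RightInverse τ σ := by
    intro i
    obtain ⟨x, hx, hx0⟩ := hne i
    have h1 := hσ (τ i) _ (hτ i x hx)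
    rw [gl_mulVec_inv_mulVec] at h1
    exact eq_of_mem_of_mem D horth hnd h1 hx hx0
  exact hgD (mem_decompStab_of_maps D g ⟨σ, τ, hl, hr⟩ hσ hτ)

include horth hnd in
/-- From a centre with two non-zero components to a centre with exactly two. -/
lemma exists_pair_center [Fintype F] (k : ℕ) (hfr : ∀ i, Module.finrank F (D i) = k)
    (hex : ¬ (k = 2 ∧ Fintype.card F = 2))
    (M : Subgroup (GL (Fin m ⊕ Fin m) F))
    (hDC : ∀ i, ∀ d ∈ D i, d ∈ transCenters M)
    (c : Fin t → (Fin m ⊕ Fin m → F)) (hc : ∀ i, c i ∈ D i)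
    (hv : ∑ i, c i ∈ transCenters M)
    (a b : Fin t) (hab : a ≠ b) (ha : c a ≠ 0) (hb : c b ≠ 0) :
    ∃ x ∈ D a, ∃ y ∈ D b, x ≠ 0 ∧ y ≠ 0 ∧ x + y ∈ transCenters M := by
  classical
  obtain ⟨-, ⟨za, hza, hfa⟩⟩ := hnd a (c a) (hc a) ha
  obtain ⟨zb, hzb, hzb0, hfb, hsb⟩ :=
    exists_perp_indep (D b) k (hfr b) (hnd b) hex (c b) (hc b) hb
  have hza0 : za ≠ 0 := by
    intro h
    apply hfa
    rw [h, sf_zero_right]
  have hsa : c a + za ≠ 0 := by
    intro h
    apply hfa
    have : za = -c a := eq_neg_of_add_eq_zero_right h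
    rw [this, sf_neg_right, sf_self, neg_zero]
  obtain ⟨c', hc'def⟩ : ∃ c' : Fin t → (Fin m ⊕ Fin m → F),
      c' = fun i => if i = a then za else if i = b then zb else -c i := ⟨_, rfl⟩
  have hca : c' a = za := by
    rw [hc'def]
    simp
  have hcb : c' b = zb := by
    rw [hc'def]
    simp [Ne.symm hab]
  have hco : ∀ i, i ≠ a → i ≠ b → c' i = -c i := by
    intro i hia hib
    rw [hc'def]
    simp [hia, hib]
  have hc' : ∀ i, c' i ∈ D i := by
    intro i
    by_cases hia : i = a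
    · subst hia
      rw [hca]
      exact hza
    · by_cases hib : i = b
      · subst hib
        rw [hcb]
        exact hzb
      · rw [hco i hia hib]
        exact (D i).neg_mem (hc i)
  have hsupp : ∀ i, c i = 0 ↔ c' i = 0 := by
    intro i
    by_cases hia : i = a
    · subst hia
      rw [hca]
      exact ⟨fun h => absurd h ha, fun h => absurd h hza0⟩
    · by_cases hib : i = b
      · subst hib
        rw [hcb]
        exact ⟨fun h => absurd h hb, fun h => absurd h hzb0⟩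
      · rw [hco i hia hib, neg_eq_zero]
  have hv' := same_support_mem_transCenters D horth hnd M hDC c c' hc hc' hv hsupp
  have hform : sympForm m F (∑ i, c i) (∑ i, c' i) = sympForm m F (c a) za := by
    rw [sf_sum_right, Finset.sum_eq_single a]
    · rw [sf_comp_left D horth c hc a (c' a) (hc' a) Finset.univ (Finset.mem_univ a), hca]
    · intro j _ hja
      rw [sf_comp_left D horth c hc j (c' j) (hc' j) Finset.univ (Finset.mem_univ j)]
      by_cases hjb : j = b
      · subst hjb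
        rw [hcb]
        exact hfb
      · rw [hco j hja hjb, sf_neg_right, sf_self, neg_zero]
    · intro h
      exact absurd (Finset.mem_univ a) h
  have hadd := add_mem_transCenters M hv hv' (by rw [hform]; exact hfa)
  have hsum : ∑ i, c i + ∑ i, c' i = (c a + za) + (c b + zb) := by
    rw [← Finset.sum_add_distrib, Finset.sum_eq_add a b hab]
    · rw [hca, hcb]
    · intro i _ hi
      rw [hco i hi.1 hi.2, add_neg_cancel]
    · intro h
      exact absurd (Finset.mem_univ a) h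
    · intro h
      exact absurd (Finset.mem_univ b) h
  rw [hsum] at hadd
  exact ⟨c a + za, (D a).add_mem (hc a) hza, c b + zb, (D b).add_mem (hc b) hzb, hsa, hsb, hadd⟩

end decompMax

/-- The stabiliser in `Sp` of a non-degenerate decomposition is maximal, unless the members
are planes over the field with two elements. -/
theorem sp_decomp_stab_max [Fintype F] {t : ℕ} (k : ℕ)
    (D : Fin t → Submodule F (Fin m ⊕ Fin m → F))
    (hD : IsNondegenerateMDecomposition (sympForm m F) k D)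
    (hex : ¬ (k = 2 ∧ Fintype.card F = 2)) :
    IsMaximalIn (spGL m F) (decompositionStabilizer D ⊓ spGL m F) := by
  classical
  have horth := hD.orthogonal
  have hnd := hD.nondegenerate
  have hsup := hD.decomp.iSup_eq_top
  have ht := hD.decomp.two_le
  have hfr := hD.decomp.finrank_eq
  have hne : ∀ i, ∃ x ∈ D i, x ≠ 0 := by
    intro i
    have hbot : D i ≠ ⊥ := by
      intro h
      have h1 := hfr i
      rw [h, finrank_bot] at h1
      have h2 := hD.decomp.pos
      omega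
    exact (Submodule.ne_bot_iff _).mp hbot
  refine ⟨decompStab_lt D horth hnd ht hne, ?_⟩
  intro M hHM hMS
  by_cases hMH : M = decompositionStabilizer D ⊓ spGL m F
  · exact Or.inl hMH
  right
  apply le_antisymm hMS
  have hnle : ¬ M ≤ decompositionStabilizer D ⊓ spGL m F := fun h => hMH (le_antisymm h hHM)
  obtain ⟨g, hgM, hgH⟩ := SetLike.not_le_iff_exists.mp hnle
  have hgD : g ∉ decompositionStabilizer D := fun h => hgH ⟨h, hMS hgM⟩
  have hDC : ∀ i, ∀ d ∈ D i, d ∈ transCenters M :=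
    fun i d hd => mem_transCenters_of_mem D horth M hHM i d hd
  obtain ⟨c, hc, hv, a₀, b₀, hab₀, ha₀, hb₀⟩ :=
    exists_two_components D horth hnd M hMS hsup hne hDC g hgM hgD
  obtain ⟨x₀, hx₀, y₀, hy₀, hx₀0, hy₀0, hxy₀⟩ :=
    exists_pair_center D horth hnd k hfr hex M hDC c hc hv a₀ b₀ hab₀ ha₀ hb₀
  obtain ⟨r, hr⟩ : ∃ r, k = 2 * r := by
    obtain ⟨r, hr⟩ := exists_even_finrank (D a₀) (hnd a₀)
    exact ⟨r, by rw [← hfr a₀]; exact hr⟩
  have hb : ∀ i, ∃ a b : Fin r → (Fin m ⊕ Fin m → F), IsSympBasis (D i) a b :=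
    fun i => exists_sympBasis (D i) r (by rw [hfr i, hr]) (hnd i)
  choose a b hbasis using hb
  have hPr : ∀ a' b', a' ≠ b' →
      ∃ x ∈ D a', ∃ y ∈ D b', x ≠ 0 ∧ y ≠ 0 ∧ x + y ∈ transCenters M := by
    apply pairs_of_swap_invariant
      (fun a' b' => ∃ x ∈ D a', ∃ y ∈ D b', x ≠ 0 ∧ y ≠ 0 ∧ x + y ∈ transCenters M) ?_ a₀ b₀
      ⟨x₀, hx₀, y₀, hy₀, hx₀0, hy₀0, hxy₀⟩ hab₀
    rintro i j hij a' b' ⟨x, hx, y, hy, hx0, hy0, hxy⟩
    obtain ⟨τ, hτS, hτD, hτ⟩ := exists_block_swap D horth a b hbasis i j hij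
    have hτM : τ ∈ M := hHM ⟨hτD, hτS⟩
    have hinj : ∀ w : Fin m ⊕ Fin m → F, w ≠ 0 →
        (τ : Matrix (Fin m ⊕ Fin m) (Fin m ⊕ Fin m) F) *ᵥ w ≠ 0 := by
      intro w hw h0
      apply hw
      apply gl_mulVec_injective τ
      rw [h0, Matrix.mulVec_zero]
    refine ⟨_, hτ a' x hx, _, hτ b' y hy, hinj x hx0, hinj y hy0, ?_⟩
    rw [← Matrix.mulVec_add]
    exact mulVec_mem_transCenters M τ hτM hτS hxy
  have hpair : ∀ a' b', a' ≠ b' → ∀ x ∈ D a', ∀ y ∈ D b', x + y ∈ transCenters M := by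
    intro a' b' hab x hx y hy
    obtain ⟨x₁, hx₁, y₁, hy₁, hx₁0, hy₁0, hxy₁⟩ := hPr a' b' hab
    exact pair_mem_transCenters M (D a') (D b') (hDC a') (hDC b') (horth a' b' hab)
      (hnd a') (hnd b') hx₁ hy₁ hx₁0 hy₁0 hxy₁ hx hy
  apply spGL_le_of_transCenters
  intro v
  obtain ⟨cv, hcv, hvsum⟩ := exists_components D hsup v
  rw [hvsum]
  exact sum_mem_transCenters D horth hnd M hDC hpair Finset.univ cv hcv

end Cfsg.Agent.Lib.Helper94
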