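import Cfsg.Agent.Lib.Helper94.SpNondegMax

set_option autoImplicit false
set_option linter.unusedSectionVars false

namespace Cfsg.Agent.Lib.Helper94

open Cfsg Cfsg.Geo
open scoped MatrixGroups Matrix

variable {F : Type*} [Field F] {m : ℕ}

/-- The element `x ↦ x + f(x, a) b + f(x, b) a` of the symplectic group (`f(a, b) = 0`). -/
noncomputable def siegelSp (m : ℕ) (a b : Fin m ⊕ Fin m → F) : GL (Fin m ⊕ Fin m) F :=
  sympTransGL m (a + b) 1 * sympTransGL m a (-1) * sympTransGL m b (-1)

theorem siegelSp_mem (a b : Fin m ⊕ Fin m → F) : siegelSp m a b ∈ spGL m F :=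
  (spGL m F).mul_mem ((spGL m F).mul_mem (sympTransGL_mem m _ _) (sympTransGL_mem m _ _))
    (sympTransGL_mem m _ _)

theorem siegelSp_mulVec (a b : Fin m ⊕ Fin m → F) (hab : sympForm m F a b = 0)
    (x : Fin m ⊕ Fin m → F) :
    ((siegelSp m a b : GL (Fin m ⊕ Fin m) F) : Matrix (Fin m ⊕ Fin m) (Fin m ⊕ Fin m) F) *ᵥ x
      = x + sympForm m F x a • b + sympForm m F x b • a := by
  have hba : sympForm m F b a = 0 := by rw [sf_swap, hab, neg_zero]
  unfold siegelSp
  rw [gl_mul_mulVec, gl_mul_mulVec, sympTransGL_mulVec, sympTransGL_mulVec, sympTransGL_mulVec]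
  simp only [sf_add_left, sf_add_right, sf_smul_left, sf_self, hab, hba]
  match_scalars <;> ring

/-- The stabiliser of a totally isotropic subspace acts irreducibly on it. -/
lemma ti_irred [Finite F] (W : Submodule F (Fin m ⊕ Fin m → F))
    (hW : IsTotallySingularFor (sympForm m F) W) (W₀ : Submodule F (Fin m ⊕ Fin m → F))
    (hne : W₀ ≠ ⊥) (hle : W₀ ≤ W)
    (hinv : ∀ h ∈ subspaceStabilizer W ⊓ spGL m F, ∀ x ∈ W₀,
      (h : Matrix (Fin m ⊕ Fin m) (Fin m ⊕ Fin m) F) *ᵥ x ∈ W₀) : W ≤ W₀ := by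
  obtain ⟨w₁, hw₁, hw₁0⟩ := Submodule.exists_mem_ne_zero_of_ne_bot hne
  intro a ha
  by_cases hb : ∃ b, sympForm m F a b = 0 ∧ sympForm m F w₁ b ≠ 0
  · obtain ⟨b, hab, hwb⟩ := hb
    have hσ : siegelSp m a b ∈ subspaceStabilizer W ⊓ spGL m F := by
      refine Subgroup.mem_inf.mpr ⟨mem_stabilizing_of_mapsTo _ _ ?_, siegelSp_mem a b⟩
      intro x hx
      rw [siegelSp_mulVec a b hab, hW x hx a ha, zero_smul, add_zero]
      exact W.add_mem hx (W.smul_mem _ ha)
    have h1 := hinv _ hσ w₁ hw₁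
    rw [siegelSp_mulVec a b hab, hW w₁ (hle hw₁) a ha, zero_smul, add_zero] at h1
    have h2 : sympForm m F w₁ b • a ∈ W₀ := by
      have := W₀.sub_mem h1 hw₁
      rwa [add_sub_cancel_left] at this
    have := W₀.smul_mem (sympForm m F w₁ b)⁻¹ h2
    rwa [smul_smul, inv_mul_cancel₀ hwb, one_smul] at this
  · push Not at hb
    have h1 : w₁ ∈ sperp (sperp (Submodule.span F {a})) := by
      rw [mem_sperp']
      intro b hb'
      exact hb b ((mem_sperp _ b).mp hb' a (Submodule.mem_span_singleton_self a))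
    rw [sperp_sperp, Submodule.mem_span_singleton] at h1
    obtain ⟨l, hl⟩ := h1
    have hl0 : l ≠ 0 := by
      rintro rfl
      rw [zero_smul] at hl
      exact hw₁0 hl.symm
    have : a = l⁻¹ • w₁ := by rw [← hl, smul_smul, inv_mul_cancel₀ hl0, one_smul]
    rw [this]
    exact W₀.smul_mem _ hw₁

/-- The stabiliser in the symplectic group of a non-zero totally isotropic subspace is a maximal
subgroup. -/
theorem sp_ti_stab_max [Fintype F] (W : Submodule F (Fin m ⊕ Fin m → F)) (hW0 : W ≠ ⊥)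
    (hW : IsTotallySingularFor (sympForm m F) W) :
    IsMaximalIn (spGL m F) (subspaceStabilizer W ⊓ spGL m F) := by
  obtain ⟨w, hwW, hw0⟩ := Submodule.exists_mem_ne_zero_of_ne_bot hW0
  have hWP : W ≤ sperp W := fun x hx => (mem_sperp W x).mpr (fun w' hw' => hW w' hw' x hx)
  constructor
  · rw [SetLike.lt_iff_le_and_exists]
    obtain ⟨z, hz⟩ := Cfsg.Agent.Lib.Helper8.exists_sympForm_ne_zero hw0
    refine ⟨inf_le_right, sympTransGL m z 1, sympTransGL_mem m z 1, ?_⟩
    intro hmem
    have hstab := (mem_stabilizing_iff _ _).mp (Subgroup.mem_inf.mp hmem).1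
    have h1 := (hstab w).mp hwW
    rw [sympTransGL_mulVec, one_mul] at h1
    have h2 : sympForm m F w z • z ∈ W := by
      have := W.sub_mem h1 hwW
      rwa [add_sub_cancel_left] at this
    have h3 : z ∈ W := by
      have := W.smul_mem (sympForm m F w z)⁻¹ h2
      rwa [smul_smul, inv_mul_cancel₀ hz, one_smul] at this
    exact hz (hW w hwW z h3)
  · intro M hM1 hM2
    by_cases hMH : M = subspaceStabilizer W ⊓ spGL m F
    · exact Or.inl hMH
    right
    refine le_antisymm hM2 (spGL_le_of_transCenters M ?_)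
    obtain ⟨g, hgM, hgH⟩ := SetLike.exists_of_lt (lt_of_le_of_ne hM1 (Ne.symm hMH))
    have hgS : g ∈ spGL m F := hM2 hgM
    have hgW : g ∉ subspaceStabilizer W := fun h => hgH (Subgroup.mem_inf.mpr ⟨h, hgS⟩)
    have hPC : ∀ d ∈ sperp W, d ∈ transCenters M := fun d hd c =>
      hM1 (Subgroup.mem_inf.mpr ⟨sympTransGL_mem_stab_of_perp W ((mem_sperp W d).mp hd) c,
        sympTransGL_mem m d c⟩)
    have hpres : ∀ k ∈ M, ∀ u v : Fin m ⊕ Fin m → F,
        sympForm m F ((k : Matrix (Fin m ⊕ Fin m) (Fin m ⊕ Fin m) F) *ᵥ u)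
          ((k : Matrix (Fin m ⊕ Fin m) (Fin m ⊕ Fin m) F) *ᵥ v) = sympForm m F u v :=
      fun k hk => (mem_spGL_iff m k).mp (hM2 hk)
    -- adding a vector of a translate of the complement
    have hcoset : ∀ k ∈ M, ∀ p ∈ sperp W, ∀ z ∈ transCenters M,
        z + (k : Matrix (Fin m ⊕ Fin m) (Fin m ⊕ Fin m) F) *ᵥ p ∈ transCenters M := by
      intro k hk p hp z hz
      have hkS := hM2 hk
      obtain ⟨U, hUdef⟩ : ∃ U : Submodule F (Fin m ⊕ Fin m → F),
          U = (sperp W).map (Matrix.toLin' (k : Matrix (Fin m ⊕ Fin m) (Fin m ⊕ Fin m) F)) :=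
        ⟨_, rfl⟩
      have hUmem : ∀ p' ∈ sperp W,
          (k : Matrix (Fin m ⊕ Fin m) (Fin m ⊕ Fin m) F) *ᵥ p' ∈ U := by
        intro p' hp'
        rw [hUdef]
        exact ⟨p', hp', by rw [Matrix.toLin'_apply]⟩
      have hU : ∀ d ∈ U, d ∈ transCenters M := by
        intro d hd
        rw [hUdef] at hd
        obtain ⟨p', hp', rfl⟩ := hd
        rw [Matrix.toLin'_apply]
        exact mulVec_mem_transCenters M k hk hkS (hPC p' hp')
      have hUperp : ∀ y, (∀ d ∈ U, sympForm m F d y = 0) → y ∈ U := by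
        intro y hy
        have h1 : ((k⁻¹ : GL (Fin m ⊕ Fin m) F) :
            Matrix (Fin m ⊕ Fin m) (Fin m ⊕ Fin m) F) *ᵥ y ∈ sperp (sperp W) := by
          rw [mem_sperp]
          intro p' hp'
          rw [← hpres k hk, gl_mulVec_inv_mulVec]
          exact hy _ (hUmem p' hp')
        rw [sperp_sperp] at h1
        have := hUmem _ (hWP h1)
        rwa [gl_mulVec_inv_mulVec] at this
      by_cases hA : ∀ d ∈ U, sympForm m F d z = 0
      · exact hU _ (U.add_mem (hUperp z hA) (hUmem p hp))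
      by_cases hB : ∀ d ∈ U,
          sympForm m F d (z + (k : Matrix (Fin m ⊕ Fin m) (Fin m ⊕ Fin m) F) *ᵥ p) = 0
      · exact hU _ (hUperp _ hB)
      push Not at hA hB
      exact add_mem_transCenters_of_sub M U hU hz (hUmem p hp) hA hB
    -- the span of the translates
    obtain ⟨N, hNdef⟩ : ∃ N : Submodule F (Fin m ⊕ Fin m → F),
        N = ⨆ k : M, (sperp W).map
          (Matrix.toLin' ((k : GL (Fin m ⊕ Fin m) F) :
            Matrix (Fin m ⊕ Fin m) (Fin m ⊕ Fin m) F)) := ⟨_, rfl⟩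
    have hNmem : ∀ k ∈ M, ∀ p ∈ sperp W,
        (k : Matrix (Fin m ⊕ Fin m) (Fin m ⊕ Fin m) F) *ᵥ p ∈ N := by
      intro k hk p hp
      rw [hNdef]
      exact Submodule.mem_iSup_of_mem (⟨k, hk⟩ : M) ⟨p, hp, by rw [Matrix.toLin'_apply]⟩
    have hNind : ∀ (motive : (Fin m ⊕ Fin m → F) → Prop),
        (∀ k ∈ M, ∀ p ∈ sperp W,
          motive ((k : Matrix (Fin m ⊕ Fin m) (Fin m ⊕ Fin m) F) *ᵥ p)) →
        motive 0 → (∀ x y, motive x → motive y → motive (x + y)) → ∀ x ∈ N, motive x := by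
      intro motive h1 h2 h3 x hx
      rw [hNdef] at hx
      refine Submodule.iSup_induction _ (motive := motive) hx ?_ h2 h3
      rintro ⟨k, hk⟩ y ⟨p, hp, rfl⟩
      rw [Matrix.toLin'_apply]
      exact h1 k hk p hp
    have hNC : ∀ x ∈ N, ∀ z ∈ transCenters M, z + x ∈ transCenters M := by
      apply hNind
      · intro k hk p hp z hz
        exact hcoset k hk p hp z hz
      · intro z hz
        rw [add_zero]
        exact hz
      · intro x y hx hy z hz
        rw [← add_assoc]
        exact hy _ (hx z hz)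
    have hNinv : ∀ k' ∈ M, ∀ x ∈ N,
        (k' : Matrix (Fin m ⊕ Fin m) (Fin m ⊕ Fin m) F) *ᵥ x ∈ N := by
      intro k' hk'
      apply hNind
      · intro k hk p hp
        rw [← gl_mul_mulVec]
        exact hNmem _ (M.mul_mem hk' hk) p hp
      · rw [Matrix.mulVec_zero]
        exact N.zero_mem
      · intro x y hx hy
        rw [Matrix.mulVec_add]
        exact N.add_mem hx hy
    by_cases hZ : sperp N = ⊥
    · have hN : N = ⊤ := by
        rw [← sperp_sperp N, hZ, eq_top_iff]
        intro x _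
        rw [mem_sperp]
        intro w' hw'
        rw [(Submodule.mem_bot F).mp hw', sf_zero_left]
      intro v
      have := hNC v (by rw [hN]; exact Submodule.mem_top) 0 (zero_mem_transCenters M)
      rwa [zero_add] at this
    · exfalso
      have hZW : sperp N ≤ W := by
        intro x hx
        rw [← sperp_sperp W, mem_sperp]
        intro p hp
        have hpN : p ∈ N := by
          have := hNmem 1 M.one_mem p hp
          rwa [Units.val_one, Matrix.one_mulVec] at this
        exact (mem_sperp N x).mp hx p hpN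
      have hZinv : ∀ h ∈ subspaceStabilizer W ⊓ spGL m F, ∀ x ∈ sperp N,
          (h : Matrix (Fin m ⊕ Fin m) (Fin m ⊕ Fin m) F) *ᵥ x ∈ sperp N := by
        intro h hh x hx
        have hhM := hM1 hh
        rw [mem_sperp]
        intro n hn
        have h1 := hNinv h⁻¹ (M.inv_mem hhM) n hn
        have h2 := (mem_sperp N x).mp hx _ h1
        rw [← hpres h hhM, gl_mulVec_inv_mulVec] at h2
        exact h2
      have hWZ := ti_irred W hW (sperp N) hZ hZW hZinv
      have hNP : N ≤ sperp W := by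
        intro n hn
        rw [mem_sperp]
        intro w' hw'
        exact (mem_sperp' N w').mp (hWZ hw') n hn
      apply hgW
      apply mem_stabilizing_of_mapsTo
      intro w' hw'
      have h1 : (g : Matrix (Fin m ⊕ Fin m) (Fin m ⊕ Fin m) F) *ᵥ w' ∈ sperp (sperp W) := by
        rw [mem_sperp]
        intro p hp
        have h2 := hNP (hNmem g⁻¹ (M.inv_mem hgM) p hp)
        have h3 := (mem_sperp' W _).mp h2 w' hw'
        rw [← hpres g hgM, gl_mulVec_inv_mulVec] at h3
        exact h3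
      rwa [sperp_sperp] at h1

end Cfsg.Agent.Lib.Helper94
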