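import Cfsg.Agent.Lib.Helper94.SpDecompMax
import Cfsg.Agent.Lib.Helper94.SpIsoMax

set_option autoImplicit false
set_option linter.unusedSectionVars false

namespace Cfsg.Agent.Lib.Helper94

open Cfsg Cfsg.Geo
open scoped MatrixGroups Matrix

variable {F : Type*} [Field F] {m : ℕ}

/-- If `y` is not a multiple of `w ≠ 0`, some vector perpendicular to `w` is not perpendicular
to `y`. -/
lemma sf_perp_sep {w y : Fin m ⊕ Fin m → F} (hw : w ≠ 0) (hy : ∀ c : F, y ≠ c • w) :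
    ∃ u, sympForm m F w u = 0 ∧ sympForm m F y u ≠ 0 := by
  by_contra hcon
  push Not at hcon
  obtain ⟨a, ha⟩ := Cfsg.Agent.Lib.Helper8.exists_sympForm_ne_zero hw
  apply hy (sympForm m F y a / sympForm m F w a)
  by_contra hne
  have hne' : y - (sympForm m F y a / sympForm m F w a) • w ≠ 0 := sub_ne_zero.mpr hne
  obtain ⟨u, hu⟩ := Cfsg.Agent.Lib.Helper8.exists_sympForm_ne_zero hne'
  apply hu
  rw [sf_sub_left, sf_smul_left]
  have h1 := hcon (u - (sympForm m F w u / sympForm m F w a) • a)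
    (by rw [sf_sub_right, sf_smul_right, div_mul_cancel₀ _ ha, sub_self])
  rw [sf_sub_right, sf_smul_right] at h1
  linear_combination h1

/-- Scalar multiples of centres are centres. -/
lemma smul_mem_transCenters (K : Subgroup (GL (Fin m ⊕ Fin m) F)) {v : Fin m ⊕ Fin m → F}
    (hv : v ∈ transCenters K) (c : F) : c • v ∈ transCenters K := by
  intro d
  have : sympTransGL m (c • v) d = sympTransGL m v (c * c * d) := by
    apply gl_ext
    intro x
    rw [sympTransGL_mulVec, sympTransGL_mulVec, sf_smul_right]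
    module
  rw [this]
  exact hv _

/-- An invertible matrix mapping a subspace into one of the same dimension: the inverse maps
back. -/
lemma inv_maps_of_maps (k : GL (Fin m ⊕ Fin m) F) (A A' : Submodule F (Fin m ⊕ Fin m → F))
    (hr : Module.finrank F A = Module.finrank F A')
    (hk : ∀ x ∈ A, (k : Matrix (Fin m ⊕ Fin m) (Fin m ⊕ Fin m) F) *ᵥ x ∈ A') :
    ∀ x ∈ A', ((k⁻¹ : GL (Fin m ⊕ Fin m) F) : Matrix (Fin m ⊕ Fin m) (Fin m ⊕ Fin m) F) *ᵥ x
      ∈ A := by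
  have hle : A.map (Matrix.toLin' (k : Matrix (Fin m ⊕ Fin m) (Fin m ⊕ Fin m) F)) ≤ A' := by
    rintro _ ⟨x, hx, rfl⟩
    rw [Matrix.toLin'_apply]
    exact hk x hx
  have hinj : Function.Injective
      (Matrix.toLin' (k : Matrix (Fin m ⊕ Fin m) (Fin m ⊕ Fin m) F)) := by
    intro x y hxy
    rw [Matrix.toLin'_apply, Matrix.toLin'_apply] at hxy
    exact gl_mulVec_injective k hxy
  have hfr : Module.finrank F (A.map (Matrix.toLin'
      (k : Matrix (Fin m ⊕ Fin m) (Fin m ⊕ Fin m) F))) = Module.finrank F A :=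
    (Submodule.equivMapOfInjective _ hinj A).finrank_eq.symm
  have heq : A.map (Matrix.toLin' (k : Matrix (Fin m ⊕ Fin m) (Fin m ⊕ Fin m) F)) = A' :=
    Submodule.eq_of_le_of_finrank_eq hle (by rw [hfr, hr])
  intro x hx
  rw [← heq] at hx
  obtain ⟨y, hy, rfl⟩ := hx
  rw [Matrix.toLin'_apply, gl_inv_mulVec_mulVec]
  exact hy

theorem siegelSp_conj (k : GL (Fin m ⊕ Fin m) F) (hk : k ∈ spGL m F)
    (a b : Fin m ⊕ Fin m → F) :
    k * siegelSp m a b * k⁻¹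
      = siegelSp m ((k : Matrix (Fin m ⊕ Fin m) (Fin m ⊕ Fin m) F) *ᵥ a)
          ((k : Matrix (Fin m ⊕ Fin m) (Fin m ⊕ Fin m) F) *ᵥ b) := by
  unfold siegelSp
  rw [← Matrix.mulVec_add, ← sympTransGL_conj k hk, ← sympTransGL_conj k hk,
    ← sympTransGL_conj k hk]
  group

theorem siegelSp_comm (a y₁ y₂ : Fin m ⊕ Fin m → F) (h1 : sympForm m F y₁ a = 0)
    (h2 : sympForm m F y₂ a = 0) :
    siegelSp m a y₁ * siegelSp m a y₂ * siegelSp m a (-y₁) * siegelSp m a (-y₂)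
      = sympTransGL m a (2 * sympForm m F y₂ y₁) := by
  have h1' : sympForm m F a y₁ = 0 := by rw [sf_swap, h1, neg_zero]
  have h2' : sympForm m F a y₂ = 0 := by rw [sf_swap, h2, neg_zero]
  have h12 : sympForm m F y₁ y₂ = - sympForm m F y₂ y₁ := sf_swap m y₁ y₂
  apply gl_ext
  intro x
  rw [gl_mul_mulVec, gl_mul_mulVec, gl_mul_mulVec,
    siegelSp_mulVec a (-y₂) (by rw [sf_neg_right, h2', neg_zero]),
    siegelSp_mulVec a (-y₁) (by rw [sf_neg_right, h1', neg_zero]),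
    siegelSp_mulVec a y₂ h2', siegelSp_mulVec a y₁ h1', sympTransGL_mulVec]
  simp only [sf_add_left, sf_smul_left, sf_neg_left, sf_neg_right,
    sf_self, h1, h2, h1', h2', h12]
  match_scalars <;> ring

/-- A pair of complementary Lagrangian subspaces. -/
structure IsLagrPair (A B : Submodule F (Fin m ⊕ Fin m → F)) : Prop where
  tiA : ∀ u ∈ A, ∀ v ∈ A, sympForm m F u v = 0
  tiB : ∀ u ∈ B, ∀ v ∈ B, sympForm m F u v = 0
  sum : ∀ x, ∃ a ∈ A, ∃ b ∈ B, x = a + b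
  rankA : Module.finrank F A = m
  rankB : Module.finrank F B = m

section lagr

variable {A B : Submodule F (Fin m ⊕ Fin m → F)}

theorem IsLagrPair.symm (h : IsLagrPair A B) : IsLagrPair B A :=
  ⟨h.tiB, h.tiA, fun x => by
    obtain ⟨a, ha, b, hb, rfl⟩ := h.sum x
    exact ⟨b, hb, a, ha, add_comm a b⟩, h.rankB, h.rankA⟩

lemma IsLagrPair.perp_mem (h : IsLagrPair A B) {x : Fin m ⊕ Fin m → F}
    (hx : ∀ a ∈ A, sympForm m F x a = 0) : x ∈ A := by
  obtain ⟨a, ha, b, hb, rfl⟩ := h.sum x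
  have hb0 : b = 0 := by
    by_contra hne
    obtain ⟨z, hz⟩ := Cfsg.Agent.Lib.Helper8.exists_sympForm_ne_zero hne
    apply hz
    obtain ⟨a', ha', b', hb', rfl⟩ := h.sum z
    rw [sf_add_right, h.tiB b hb b' hb', add_zero]
    have := hx a' ha'
    rw [sf_add_left, h.tiA a ha a' ha', zero_add] at this
    exact this
  rw [hb0, add_zero]
  exact ha

lemma IsLagrPair.inter (h : IsLagrPair A B) {x : Fin m ⊕ Fin m → F} (hxA : x ∈ A)
    (hxB : x ∈ B) : x = 0 := by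
  by_contra hne
  obtain ⟨z, hz⟩ := Cfsg.Agent.Lib.Helper8.exists_sympForm_ne_zero hne
  apply hz
  obtain ⟨a', ha', b', hb', rfl⟩ := h.sum z
  rw [sf_add_right, h.tiA x hxA a' ha', h.tiB x hxB b' hb', add_zero]

lemma IsLagrPair.sep (h : IsLagrPair A B) {a y : Fin m ⊕ Fin m → F} (ha : a ∈ A) (ha0 : a ≠ 0)
    (hy : y ∈ A) (hya : ∀ c : F, y ≠ c • a) :
    ∃ b ∈ B, sympForm m F a b = 0 ∧ sympForm m F y b ≠ 0 := by
  obtain ⟨u, hu1, hu2⟩ := sf_perp_sep ha0 hya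
  obtain ⟨a', ha', b', hb', rfl⟩ := h.sum u
  refine ⟨b', hb', ?_, ?_⟩
  · rw [sf_add_right, h.tiA a ha a' ha', zero_add] at hu1
    exact hu1
  · rw [sf_add_right, h.tiA y hy a' ha', zero_add] at hu2
    exact hu2

lemma IsLagrPair.exists_ne (h : IsLagrPair A B) {a : Fin m ⊕ Fin m → F} (ha : a ∈ A)
    (ha0 : a ≠ 0) : ∃ b ∈ B, sympForm m F a b ≠ 0 := by
  obtain ⟨z, hz⟩ := Cfsg.Agent.Lib.Helper8.exists_sympForm_ne_zero ha0
  obtain ⟨a', ha', b', hb', rfl⟩ := h.sum z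
  refine ⟨b', hb', ?_⟩
  rw [sf_add_right, h.tiA a ha a' ha', zero_add] at hz
  exact hz

lemma IsLagrPair.exists_ne_zero_perp (h : IsLagrPair A B) (hm : 2 ≤ m)
    (v : Fin m ⊕ Fin m → F) : ∃ b ∈ B, b ≠ 0 ∧ sympForm m F v b = 0 := by
  have hlt : Module.finrank F F < Module.finrank F B := by
    rw [Module.finrank_self, h.rankB]
    omega
  have hker := LinearMap.ker_ne_bot_of_finrank_lt (f := (sfR m v).comp B.subtype) hlt
  obtain ⟨b, hb, hb0⟩ := Submodule.exists_mem_ne_zero_of_ne_bot hker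
  refine ⟨b.1, b.2, ?_, ?_⟩
  · intro h0
    exact hb0 (Subtype.ext h0)
  · exact LinearMap.mem_ker.mp hb

lemma IsLagrPair.siegel_maps (h : IsLagrPair A B) {a b : Fin m ⊕ Fin m → F} (ha : a ∈ A)
    (hb : b ∈ B) (hab : sympForm m F a b = 0) :
    (∀ x ∈ A, ((siegelSp m a b : GL (Fin m ⊕ Fin m) F) :
        Matrix (Fin m ⊕ Fin m) (Fin m ⊕ Fin m) F) *ᵥ x ∈ A) ∧
    (∀ x ∈ B, ((siegelSp m a b : GL (Fin m ⊕ Fin m) F) :
        Matrix (Fin m ⊕ Fin m) (Fin m ⊕ Fin m) F) *ᵥ x ∈ B) := by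
  constructor
  · intro x hx
    rw [siegelSp_mulVec a b hab, h.tiA x hx a ha, zero_smul, add_zero]
    exact A.add_mem hx (A.smul_mem _ ha)
  · intro x hx
    rw [siegelSp_mulVec a b hab, h.tiB x hx b hb, zero_smul, add_zero]
    exact B.add_mem hx (B.smul_mem _ hb)


/-- The first transvection group: from a Siegel element of `M` whose two vectors both lie
outside `B`. -/
lemma IsLagrPair.first_center (h : IsLagrPair A B) (h2 : (2 : F) ≠ 0) (hm : 5 ≤ m)
    (M : Subgroup (GL (Fin m ⊕ Fin m) F))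
    (hLevi : ∀ k ∈ spGL m F,
      (∀ x ∈ A, (k : Matrix (Fin m ⊕ Fin m) (Fin m ⊕ Fin m) F) *ᵥ x ∈ A) →
      (∀ x ∈ B, (k : Matrix (Fin m ⊕ Fin m) (Fin m ⊕ Fin m) F) *ᵥ x ∈ B) → k ∈ M)
    {a' b' : Fin m ⊕ Fin m → F} (hab : sympForm m F a' b' = 0) (hE : siegelSp m a' b' ∈ M)
    (ha' : a' ∉ B) (hb' : b' ∉ B) :
    ∃ a ∈ A, a ≠ 0 ∧ a ∈ transCenters M := by
  classical
  obtain ⟨a'₀, ha'₀, a'₁, ha'₁, hae⟩ := h.sum a'
  obtain ⟨b'₀, hb'₀, b'₁, hb'₁, hbe⟩ := h.sum b'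
  have ha'₀0 : a'₀ ≠ 0 := by
    intro h0
    apply ha'
    rw [hae, h0, zero_add]
    exact ha'₁
  have hb'₀0 : b'₀ ≠ 0 := by
    intro h0
    apply hb'
    rw [hbe, h0, zero_add]
    exact hb'₁
  -- the vector `a`
  obtain ⟨a, haW, haS⟩ : ∃ a, a ∈ sperp (A ⊔ Submodule.span F
      ((({a', b'} : Finset (Fin m ⊕ Fin m → F)) : Set (Fin m ⊕ Fin m → F)))) ∧
      a ∉ Submodule.span F
        ((({a'₀, b'₀} : Finset (Fin m ⊕ Fin m → F)) : Set (Fin m ⊕ Fin m → F))) := by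
    by_contra hcon
    push Not at hcon
    have hle : sperp (A ⊔ Submodule.span F
        ((({a', b'} : Finset (Fin m ⊕ Fin m → F)) : Set (Fin m ⊕ Fin m → F))))
        ≤ Submodule.span F
          ((({a'₀, b'₀} : Finset (Fin m ⊕ Fin m → F)) : Set (Fin m ⊕ Fin m → F))) :=
      fun a ha => hcon a ha
    have h1 := Submodule.finrank_mono hle
    have h2 := finrank_sperp (A ⊔ Submodule.span F
        ((({a', b'} : Finset (Fin m ⊕ Fin m → F)) : Set (Fin m ⊕ Fin m → F))))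
    have h3 := Submodule.finrank_add_le_finrank_add_finrank A (Submodule.span F
        ((({a', b'} : Finset (Fin m ⊕ Fin m → F)) : Set (Fin m ⊕ Fin m → F))))
    have h4 : Module.finrank F (Submodule.span F
        ((({a', b'} : Finset (Fin m ⊕ Fin m → F)) : Set (Fin m ⊕ Fin m → F)))) ≤ 2 :=
      (finrank_span_finset_le_card _).trans Finset.card_le_two
    have h5 : Module.finrank F (Submodule.span F
        ((({a'₀, b'₀} : Finset (Fin m ⊕ Fin m → F)) : Set (Fin m ⊕ Fin m → F)))) ≤ 2 :=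
      (finrank_span_finset_le_card _).trans Finset.card_le_two
    rw [h.rankA] at h3
    omega
  rw [mem_sperp'] at haW
  have haA : a ∈ A := h.perp_mem (fun x hx => haW x (Submodule.mem_sup_left hx))
  have haa' : sympForm m F a a' = 0 :=
    haW a' (Submodule.mem_sup_right (Submodule.subset_span (by simp)))
  have hab'' : sympForm m F a b' = 0 :=
    haW b' (Submodule.mem_sup_right (Submodule.subset_span (by simp)))
  have ha0 : a ≠ 0 := by
    intro h0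
    apply haS
    rw [h0]
    exact Submodule.zero_mem _
  have hna : ∀ c : F, a'₀ ≠ c • a := by
    intro c hc
    have hc0 : c ≠ 0 := by
      intro h0
      rw [h0, zero_smul] at hc
      exact ha'₀0 hc
    apply haS
    have : a = c⁻¹ • a'₀ := by rw [hc, smul_smul, inv_mul_cancel₀ hc0, one_smul]
    rw [this]
    exact Submodule.smul_mem _ _ (Submodule.subset_span (by simp))
  have hnb : ∀ c : F, b'₀ ≠ c • a := by
    intro c hc
    have hc0 : c ≠ 0 := by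
      intro h0
      rw [h0, zero_smul] at hc
      exact hb'₀0 hc
    apply haS
    have : a = c⁻¹ • b'₀ := by rw [hc, smul_smul, inv_mul_cancel₀ hc0, one_smul]
    rw [this]
    exact Submodule.smul_mem _ _ (Submodule.subset_span (by simp))
  obtain ⟨b₁, hb₁, hab₁, hne₁⟩ := h.sep haA ha0 ha'₀ hna
  obtain ⟨b₂, hb₂, hab₂, hne₂⟩ := h.sep haA ha0 hb'₀ hnb
  obtain ⟨b, hb, hab0, hn1, hn2⟩ : ∃ b ∈ B, sympForm m F a b = 0 ∧ sympForm m F a'₀ b ≠ 0 ∧
      sympForm m F b'₀ b ≠ 0 := by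
    by_cases h3 : sympForm m F b'₀ b₁ = 0
    · by_cases h4 : sympForm m F a'₀ b₂ = 0
      · refine ⟨b₁ + b₂, B.add_mem hb₁ hb₂, ?_, ?_, ?_⟩
        · rw [sf_add_right, hab₁, hab₂, add_zero]
        · rw [sf_add_right, h4, add_zero]
          exact hne₁
        · rw [sf_add_right, h3, zero_add]
          exact hne₂
      · exact ⟨b₂, hb₂, hab₂, h4, hne₂⟩
    · exact ⟨b₁, hb₁, hab₁, hne₁, h3⟩
  have hba : sympForm m F b a = 0 := by rw [sf_swap, hab0, neg_zero]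
  obtain ⟨γ₁, hγ₁⟩ : ∃ γ₁ : F, γ₁ = sympForm m F b a' := ⟨_, rfl⟩
  obtain ⟨γ₂, hγ₂⟩ : ∃ γ₂ : F, γ₂ = sympForm m F b b' := ⟨_, rfl⟩
  have hγ₁0 : γ₁ ≠ 0 := by
    rw [hγ₁, hae, sf_add_right, h.tiB b hb a'₁ ha'₁, add_zero, sf_swap]
    exact neg_ne_zero.mpr hn1
  have hγ₂0 : γ₂ ≠ 0 := by
    rw [hγ₂, hbe, sf_add_right, h.tiB b hb b'₁ hb'₁, add_zero, sf_swap]
    exact neg_ne_zero.mpr hn2
  obtain ⟨y₁, hy₁⟩ : ∃ y₁ : Fin m ⊕ Fin m → F, y₁ = b + γ₁ • b' + γ₂ • a' := ⟨_, rfl⟩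
  have hS : ∀ μ : F, siegelSp m a (μ • b) ∈ M := by
    intro μ
    have h0 : sympForm m F a (μ • b) = 0 := by rw [sf_smul_right, hab0, mul_zero]
    exact hLevi _ (siegelSp_mem _ _) (h.siegel_maps haA (B.smul_mem μ hb) h0).1
      (h.siegel_maps haA (B.smul_mem μ hb) h0).2
  have hC : ∀ μ : F, siegelSp m a (μ • y₁) ∈ M := by
    intro μ
    have hmem := M.mul_mem (M.mul_mem hE (hS μ)) (M.inv_mem hE)
    rw [siegelSp_conj _ (siegelSp_mem _ _), siegelSp_mulVec a' b' hab, siegelSp_mulVec a' b' hab,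
      haa', hab'', zero_smul, zero_smul, add_zero, add_zero, sf_smul_left, sf_smul_left,
      ← hγ₁, ← hγ₂] at hmem
    have e : μ • b + (μ * γ₁) • b' + (μ * γ₂) • a' = μ • y₁ := by
      rw [hy₁]
      module
    rw [e] at hmem
    exact hmem
  have hy₁a : sympForm m F y₁ a = 0 := by
    rw [hy₁, sf_add_left, sf_add_left, sf_smul_left, sf_smul_left, hba, sf_swap m b' a,
      sf_swap m a' a, hab'', haa']
    ring
  have hfy : sympForm m F b y₁ = 2 * γ₁ * γ₂ := by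
    rw [hy₁, sf_add_right, sf_add_right, sf_smul_right, sf_smul_right, sf_self, ← hγ₁, ← hγ₂]
    ring
  refine ⟨a, haA, ha0, ?_⟩
  intro c
  obtain ⟨μ, hμ⟩ : ∃ μ : F, μ = c / (4 * γ₁ * γ₂) := ⟨_, rfl⟩
  have h4 : (4 : F) ≠ 0 := by
    have : (4 : F) = 2 * 2 := by norm_num
    rw [this]
    exact mul_ne_zero h2 h2
  have key := siegelSp_comm a y₁ (μ • b) hy₁a (by rw [sf_smul_left, hba, mul_zero])
  have hc : 2 * sympForm m F (μ • b) y₁ = c := by
    rw [sf_smul_left, hfy, hμ]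
    field_simp
    ring
  rw [hc] at key
  rw [← key]
  have e1 : siegelSp m a y₁ ∈ M := by simpa using hC 1
  have e2 : siegelSp m a (-y₁) ∈ M := by simpa using hC (-1)
  have e3 : siegelSp m a (-(μ • b)) ∈ M := by simpa using hS (-μ)
  exact M.mul_mem (M.mul_mem (M.mul_mem e1 (hS μ)) e2) e3

/-- An element that neither fixes nor exchanges the two subspaces moves a perpendicular pair
badly. -/
lemma IsLagrPair.good_pair (h : IsLagrPair A B) (hm : 2 ≤ m) (g : GL (Fin m ⊕ Fin m) F)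
    (h1 : ¬ ((∀ x ∈ A, (g : Matrix (Fin m ⊕ Fin m) (Fin m ⊕ Fin m) F) *ᵥ x ∈ A) ∧
      (∀ x ∈ B, (g : Matrix (Fin m ⊕ Fin m) (Fin m ⊕ Fin m) F) *ᵥ x ∈ B)))
    (h2 : ¬ ((∀ x ∈ A, (g : Matrix (Fin m ⊕ Fin m) (Fin m ⊕ Fin m) F) *ᵥ x ∈ B) ∧
      (∀ x ∈ B, (g : Matrix (Fin m ⊕ Fin m) (Fin m ⊕ Fin m) F) *ᵥ x ∈ A))) :
    ∃ a₀ ∈ A, ∃ b₀ ∈ B, sympForm m F a₀ b₀ = 0 ∧
      (((g : Matrix (Fin m ⊕ Fin m) (Fin m ⊕ Fin m) F) *ᵥ a₀ ∉ B ∧
        (g : Matrix (Fin m ⊕ Fin m) (Fin m ⊕ Fin m) F) *ᵥ b₀ ∉ B) ∨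
       ((g : Matrix (Fin m ⊕ Fin m) (Fin m ⊕ Fin m) F) *ᵥ a₀ ∉ A ∧
        (g : Matrix (Fin m ⊕ Fin m) (Fin m ⊕ Fin m) F) *ᵥ b₀ ∉ A)) := by
  by_contra hcon
  have hc : ∀ a₀ ∈ A, ∀ b₀ ∈ B, sympForm m F a₀ b₀ = 0 →
      ((g : Matrix (Fin m ⊕ Fin m) (Fin m ⊕ Fin m) F) *ᵥ a₀ ∈ B ∨
        (g : Matrix (Fin m ⊕ Fin m) (Fin m ⊕ Fin m) F) *ᵥ b₀ ∈ B) ∧
      ((g : Matrix (Fin m ⊕ Fin m) (Fin m ⊕ Fin m) F) *ᵥ a₀ ∈ A ∨
        (g : Matrix (Fin m ⊕ Fin m) (Fin m ⊕ Fin m) F) *ᵥ b₀ ∈ A) := by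
    intro a₀ ha₀ b₀ hb₀ h0
    have := fun hx => hcon ⟨a₀, ha₀, b₀, hb₀, h0, hx⟩
    tauto
  have hinj0 : ∀ x, (g : Matrix (Fin m ⊕ Fin m) (Fin m ⊕ Fin m) F) *ᵥ x ∈ A →
      (g : Matrix (Fin m ⊕ Fin m) (Fin m ⊕ Fin m) F) *ᵥ x ∈ B → x = 0 := by
    intro x hxA hxB
    apply gl_mulVec_injective g
    rw [h.inter hxA hxB, Matrix.mulVec_zero]
  have hA1 : ∀ a₀ ∈ A, (g : Matrix (Fin m ⊕ Fin m) (Fin m ⊕ Fin m) F) *ᵥ a₀ ∈ A ∨
      (g : Matrix (Fin m ⊕ Fin m) (Fin m ⊕ Fin m) F) *ᵥ a₀ ∈ B := by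
    intro a₀ ha₀
    obtain ⟨b₀, hb₀, hb₀0, hab⟩ := h.exists_ne_zero_perp hm a₀
    obtain ⟨c1, c2⟩ := hc a₀ ha₀ b₀ hb₀ hab
    rcases c1 with c1 | c1
    · exact Or.inr c1
    · rcases c2 with c2 | c2
      · exact Or.inl c2
      · exact absurd (hinj0 b₀ c2 c1) hb₀0
  have hB1 : ∀ b₀ ∈ B, (g : Matrix (Fin m ⊕ Fin m) (Fin m ⊕ Fin m) F) *ᵥ b₀ ∈ A ∨
      (g : Matrix (Fin m ⊕ Fin m) (Fin m ⊕ Fin m) F) *ᵥ b₀ ∈ B := by
    intro b₀ hb₀
    obtain ⟨a₀, ha₀, ha₀0, hba⟩ := h.symm.exists_ne_zero_perp hm b₀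
    have hab : sympForm m F a₀ b₀ = 0 := by rw [sf_swap, hba, neg_zero]
    obtain ⟨c1, c2⟩ := hc a₀ ha₀ b₀ hb₀ hab
    rcases c1 with c1 | c1
    · rcases c2 with c2 | c2
      · exact absurd (hinj0 a₀ c2 c1) ha₀0
      · exact Or.inl c2
    · exact Or.inr c1
  have hdich : ∀ C : Submodule F (Fin m ⊕ Fin m → F),
      (∀ x ∈ C, (g : Matrix (Fin m ⊕ Fin m) (Fin m ⊕ Fin m) F) *ᵥ x ∈ A ∨
        (g : Matrix (Fin m ⊕ Fin m) (Fin m ⊕ Fin m) F) *ᵥ x ∈ B) →
      (∀ x ∈ C, (g : Matrix (Fin m ⊕ Fin m) (Fin m ⊕ Fin m) F) *ᵥ x ∈ A) ∨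
      (∀ x ∈ C, (g : Matrix (Fin m ⊕ Fin m) (Fin m ⊕ Fin m) F) *ᵥ x ∈ B) := by
    intro C hC
    by_contra hn
    push Not at hn
    obtain ⟨⟨x₁, hx₁, hx₁A⟩, ⟨x₂, hx₂, hx₂B⟩⟩ := hn
    have hx₁B := (hC x₁ hx₁).resolve_left hx₁A
    have hx₂A := (hC x₂ hx₂).resolve_right hx₂B
    rcases hC (x₁ + x₂) (C.add_mem hx₁ hx₂) with h3 | h3
    · rw [Matrix.mulVec_add] at h3
      apply hx₁A
      have := A.sub_mem h3 hx₂A
      rwa [add_sub_cancel_right] at this
    · rw [Matrix.mulVec_add] at h3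
      apply hx₂B
      have := B.sub_mem h3 hx₁B
      rwa [add_sub_cancel_left] at this
  obtain ⟨a₀, ha₀, ha₀0, -⟩ := h.symm.exists_ne_zero_perp hm 0
  obtain ⟨b₀, hb₀, hb₀0, hab⟩ := h.exists_ne_zero_perp hm a₀
  obtain ⟨c1, c2⟩ := hc a₀ ha₀ b₀ hb₀ hab
  rcases hdich A hA1 with hAA | hAB
  · rcases hdich B hB1 with hBA | hBB
    · rcases c1 with c1 | c1
      · exact ha₀0 (hinj0 a₀ (hAA a₀ ha₀) c1)
      · exact hb₀0 (hinj0 b₀ (hBA b₀ hb₀) c1)
    · exact h1 ⟨hAA, hBB⟩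
  · rcases hdich B hB1 with hBA | hBB
    · exact h2 ⟨hAB, hBA⟩
    · rcases c2 with c2 | c2
      · exact ha₀0 (hinj0 a₀ c2 (hAB a₀ ha₀))
      · exact hb₀0 (hinj0 b₀ c2 (hBB b₀ hb₀))

/-- One non-zero centre in `A` gives all of `A`. -/
lemma IsLagrPair.centers (h : IsLagrPair A B) (M : Subgroup (GL (Fin m ⊕ Fin m) F))
    (hLevi : ∀ k ∈ spGL m F,
      (∀ x ∈ A, (k : Matrix (Fin m ⊕ Fin m) (Fin m ⊕ Fin m) F) *ᵥ x ∈ A) →
      (∀ x ∈ B, (k : Matrix (Fin m ⊕ Fin m) (Fin m ⊕ Fin m) F) *ᵥ x ∈ B) → k ∈ M)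
    {a : Fin m ⊕ Fin m → F} (ha : a ∈ A) (ha0 : a ≠ 0) (haC : a ∈ transCenters M) :
    ∀ x ∈ A, x ∈ transCenters M := by
  intro x hx
  by_cases hxa : ∃ c : F, x = c • a
  · obtain ⟨c, rfl⟩ := hxa
    exact smul_mem_transCenters M haC c
  · push Not at hxa
    have hne : x - a ≠ 0 := by
      intro h0
      apply hxa 1
      rw [one_smul]
      exact sub_eq_zero.mp h0
    have hna : ∀ c : F, a ≠ c • (x - a) := by
      intro c hc
      have hc0 : c ≠ 0 := by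
        intro h0
        rw [h0, zero_smul] at hc
        exact ha0 hc
      have hd : x - a = c⁻¹ • a := by
        conv_rhs => rw [hc]
        rw [smul_smul, inv_mul_cancel₀ hc0, one_smul]
      apply hxa (c⁻¹ + 1)
      rw [add_smul, one_smul, ← hd]
      abel
    obtain ⟨b, hb, hb1, hb2⟩ := h.sep (A.sub_mem hx ha) hne ha hna
    have h0 : sympForm m F (x - a) ((sympForm m F a b)⁻¹ • b) = 0 := by
      rw [sf_smul_right, hb1, mul_zero]
    have hkM : siegelSp m (x - a) ((sympForm m F a b)⁻¹ • b) ∈ M :=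
      hLevi _ (siegelSp_mem _ _) (h.siegel_maps (A.sub_mem hx ha) (B.smul_mem _ hb) h0).1
        (h.siegel_maps (A.sub_mem hx ha) (B.smul_mem _ hb) h0).2
    have hmem := mulVec_mem_transCenters M _ hkM (siegelSp_mem _ _) haC
    rw [siegelSp_mulVec _ _ h0, h.tiA a ha (x - a) (A.sub_mem hx ha), zero_smul, add_zero,
      sf_smul_right, inv_mul_cancel₀ hb2, one_smul] at hmem
    have e : a + (x - a) = x := by abel
    rwa [e] at hmem

/-- Dual bases of the two subspaces. -/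
lemma IsLagrPair.exists_dual_basis (h : IsLagrPair A B) :
    ∃ α β : Fin m → (Fin m ⊕ Fin m → F), (∀ l, α l ∈ A) ∧ (∀ l, β l ∈ B) ∧
      IsSympBasis (⊤ : Submodule F (Fin m ⊕ Fin m → F)) α β := by
  classical
  obtain ⟨bA⟩ : Nonempty (Module.Basis (Fin m) F A) := ⟨Module.finBasisOfFinrankEq F A h.rankA⟩
  have hexp : ∀ a (ha : a ∈ A), a = ∑ i, (bA.repr ⟨a, ha⟩ i) • (bA i : Fin m ⊕ Fin m → F) := by
    intro a ha
    have h1 : ((∑ i, (bA.repr ⟨a, ha⟩ i) • bA i : A) : Fin m ⊕ Fin m → F) = a :=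
      congrArg (Subtype.val) (bA.sum_repr ⟨a, ha⟩)
    rw [Submodule.coe_sum] at h1
    simp only [Submodule.coe_smul] at h1
    exact h1.symm
  have hA_of : ∀ v, (∀ j, sympForm m F (bA j : Fin m ⊕ Fin m → F) v = 0) →
      ∀ a ∈ A, sympForm m F a v = 0 := by
    intro v hv a ha
    rw [hexp a ha, sf_sum_left]
    apply Finset.sum_eq_zero
    intro i _
    rw [sf_smul_left, hv i, mul_zero]
  obtain ⟨Φ, hΦ⟩ : ∃ Φ : B →ₗ[F] (Fin m → F), ∀ b : B, ∀ j,
      Φ b j = sympForm m F (bA j : Fin m ⊕ Fin m → F) b :=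
    ⟨LinearMap.pi (fun j => (sfR m (bA j : Fin m ⊕ Fin m → F)).comp B.subtype),
      fun b j => rfl⟩
  have hinj : Function.Injective Φ := by
    rw [← LinearMap.ker_eq_bot, LinearMap.ker_eq_bot']
    intro b hb
    have h0 : ∀ j, sympForm m F (bA j : Fin m ⊕ Fin m → F) b = 0 := fun j => by
      rw [← hΦ, hb]
      rfl
    have hbA : (b : Fin m ⊕ Fin m → F) ∈ A :=
      h.perp_mem (fun a ha => by rw [sf_swap, hA_of b h0 a ha, neg_zero])
    exact Subtype.ext (h.inter hbA b.2)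
  have hsurj : Function.Surjective Φ :=
    (LinearMap.injective_iff_surjective_of_finrank_eq_finrank
      (by rw [h.rankB, Module.finrank_fintype_fun_eq_card, Fintype.card_fin])).mp hinj
  choose β' hβ' using fun l : Fin m => hsurj (Pi.single l 1)
  have hab : ∀ l l', sympForm m F (bA l : Fin m ⊕ Fin m → F) (β' l') = if l = l' then 1 else 0 := by
    intro l l'
    rw [← hΦ, hβ', Pi.single_apply]
  have hba : ∀ l l', sympForm m F (β' l : Fin m ⊕ Fin m → F) (bA l') = if l = l' then -1 else 0 := by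
    intro l l'
    rw [sf_swap, hab l' l]
    by_cases hl : l = l'
    · rw [if_pos hl, if_pos hl.symm]
    · rw [if_neg hl, if_neg (Ne.symm hl), neg_zero]
  have hrepr : ∀ a ∈ A, a = ∑ j, sympForm m F a (β' j) • (bA j : Fin m ⊕ Fin m → F) := by
    intro a ha
    have hco : ∀ j, sympForm m F a (β' j) = bA.repr ⟨a, ha⟩ j := by
      intro j
      conv_lhs => rw [hexp a ha]
      rw [sf_sum_left, Finset.sum_eq_single j]
      · rw [sf_smul_left, hab, if_pos rfl, mul_one]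
      · intro l _ hl
        rw [sf_smul_left, hab, if_neg hl, mul_zero]
      · intro hh
        exact absurd (Finset.mem_univ _) hh
    conv_lhs => rw [hexp a ha]
    exact Finset.sum_congr rfl (fun j _ => by rw [hco j])
  refine ⟨fun l => (bA l : Fin m ⊕ Fin m → F), fun l => (β' l : Fin m ⊕ Fin m → F),
    fun l => (bA l).2, fun l => (β' l).2, ?_⟩
  refine ⟨fun _ => Submodule.mem_top, fun _ => Submodule.mem_top,
    fun l l' => h.tiA _ (bA l).2 _ (bA l').2, fun l l' => h.tiB _ (β' l).2 _ (β' l').2, hab, ?_⟩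
  intro x _
  obtain ⟨x', hx'⟩ : ∃ x' : Fin m ⊕ Fin m → F, x' = ∑ l, (sympForm m F x (β' l) •
      (bA l : Fin m ⊕ Fin m → F) - sympForm m F x (bA l) • (β' l : Fin m ⊕ Fin m → F)) :=
    ⟨_, rfl⟩
  rw [← hx']
  have h1 : ∀ j, sympForm m F x' (bA j) = sympForm m F x (bA j) := by
    intro j
    rw [hx', sf_sum_left, Finset.sum_eq_single j]
    · rw [sf_sub_left, sf_smul_left, sf_smul_left, h.tiA _ (bA j).2 _ (bA j).2, hba, if_pos rfl]
      ring
    · intro l _ hl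
      rw [sf_sub_left, sf_smul_left, sf_smul_left, h.tiA _ (bA l).2 _ (bA j).2, hba, if_neg hl]
      ring
    · intro hh
      exact absurd (Finset.mem_univ _) hh
  have h2 : ∀ j, sympForm m F x' (β' j) = sympForm m F x (β' j) := by
    intro j
    rw [hx', sf_sum_left, Finset.sum_eq_single j]
    · rw [sf_sub_left, sf_smul_left, sf_smul_left, h.tiB _ (β' j).2 _ (β' j).2, hab, if_pos rfl]
      ring
    · intro l _ hl
      rw [sf_sub_left, sf_smul_left, sf_smul_left, h.tiB _ (β' l).2 _ (β' j).2, hab, if_neg hl]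
      ring
    · intro hh
      exact absurd (Finset.mem_univ _) hh
  have hdA : x - x' ∈ A := h.perp_mem (fun a ha => by
    rw [sf_swap, hA_of (x - x') (fun j => by rw [sf_swap, sf_sub_left, h1, sub_self, neg_zero])
      a ha, neg_zero])
  have hd0 : x - x' = 0 := by
    rw [hrepr _ hdA]
    apply Finset.sum_eq_zero
    intro j _
    rw [sf_sub_left, h2, sub_self, zero_smul]
  exact sub_eq_zero.mp hd0

end lagr

section swap

variable {r : ℕ} (α β : Fin r → (Fin m ⊕ Fin m → F))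

/-- The linear map `x ↦ Σ (f(x, β l) β l + f(x, α l) α l)`. -/
def lagrSwapLin : (Fin m ⊕ Fin m → F) →ₗ[F] (Fin m ⊕ Fin m → F) :=
  ∑ l, ((sfL m (β l)).smulRight (β l) + (sfL m (α l)).smulRight (α l))

theorem lagrSwapLin_apply (x : Fin m ⊕ Fin m → F) :
    lagrSwapLin α β x = ∑ l, (sympForm m F x (β l) • β l + sympForm m F x (α l) • α l) := by
  simp [lagrSwapLin, LinearMap.sum_apply, sfL_apply]

variable {α β} (hS : IsSympBasis (⊤ : Submodule F (Fin m ⊕ Fin m → F)) α β)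

include hS in
theorem sf_lagrSwap_β (x : Fin m ⊕ Fin m → F) (j : Fin r) :
    sympForm m F (lagrSwapLin α β x) (β j) = sympForm m F x (α j) := by
  rw [lagrSwapLin_apply, sf_sum_left, Finset.sum_eq_single j]
  · rw [sf_add_left, sf_smul_left, sf_smul_left, hS.bb, hS.ab, if_pos rfl]
    ring
  · intro l _ hl
    rw [sf_add_left, sf_smul_left, sf_smul_left, hS.bb, hS.ab, if_neg hl]
    ring
  · intro hh
    exact absurd (Finset.mem_univ _) hh

include hS in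
theorem sf_lagrSwap_α (x : Fin m ⊕ Fin m → F) (j : Fin r) :
    sympForm m F (lagrSwapLin α β x) (α j) = - sympForm m F x (β j) := by
  rw [lagrSwapLin_apply, sf_sum_left, Finset.sum_eq_single j]
  · rw [sf_add_left, sf_smul_left, sf_smul_left, hS.aa, hS.ba, if_pos rfl]
    ring
  · intro l _ hl
    rw [sf_add_left, sf_smul_left, sf_smul_left, hS.aa, hS.ba, if_neg hl]
    ring
  · intro hh
    exact absurd (Finset.mem_univ _) hh

include hS in
theorem lagrSwap_sq (x : Fin m ⊕ Fin m → F) :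
    lagrSwapLin α β (lagrSwapLin α β x) = -x := by
  rw [lagrSwapLin_apply]
  simp only [sf_lagrSwap_β hS, sf_lagrSwap_α hS]
  conv_rhs => rw [hS.expand x Submodule.mem_top]
  rw [← Finset.sum_neg_distrib]
  apply Finset.sum_congr rfl
  intro l _
  module

include hS in
theorem lagrSwap_form (x y : Fin m ⊕ Fin m → F) :
    sympForm m F (lagrSwapLin α β x) (lagrSwapLin α β y) = sympForm m F x y := by
  conv_rhs => rw [hS.expand y Submodule.mem_top]
  rw [lagrSwapLin_apply α β y, sf_sum_right, sf_sum_right]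
  apply Finset.sum_congr rfl
  intro l _
  rw [sf_add_right, sf_smul_right, sf_smul_right, sf_lagrSwap_β hS, sf_lagrSwap_α hS,
    sf_sub_right, sf_smul_right, sf_smul_right]
  ring

end swap

section lagr2

variable {A B : Submodule F (Fin m ⊕ Fin m → F)}

/-- A symplectic map exchanging the two subspaces, with square `-1`. -/
lemma IsLagrPair.exists_swap (h : IsLagrPair A B) :
    ∃ s : GL (Fin m ⊕ Fin m) F, s ∈ spGL m F ∧
      (∀ x ∈ A, (s : Matrix (Fin m ⊕ Fin m) (Fin m ⊕ Fin m) F) *ᵥ x ∈ B) ∧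
      (∀ x ∈ B, (s : Matrix (Fin m ⊕ Fin m) (Fin m ⊕ Fin m) F) *ᵥ x ∈ A) ∧
      (∀ x, (s : Matrix (Fin m ⊕ Fin m) (Fin m ⊕ Fin m) F) *ᵥ
        ((s : Matrix (Fin m ⊕ Fin m) (Fin m ⊕ Fin m) F) *ᵥ x) = -x) := by
  obtain ⟨α, β, hα, hβ, hS⟩ := h.exists_dual_basis
  have e1 : lagrSwapLin α β ∘ₗ (-lagrSwapLin α β) = LinearMap.id := by
    apply LinearMap.ext
    intro x
    rw [LinearMap.comp_apply, LinearMap.neg_apply, map_neg, lagrSwap_sq hS, neg_neg,
      LinearMap.id_apply]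
  have e2 : (-lagrSwapLin α β) ∘ₗ lagrSwapLin α β = LinearMap.id := by
    apply LinearMap.ext
    intro x
    rw [LinearMap.comp_apply, LinearMap.neg_apply, lagrSwap_sq hS, neg_neg,
      LinearMap.id_apply]
  refine ⟨glOfLin (lagrSwapLin α β) (-lagrSwapLin α β) e1 e2, ?_, ?_, ?_, ?_⟩
  · rw [mem_spGL_iff]
    intro u v
    rw [glOfLin_mulVec, glOfLin_mulVec, lagrSwap_form hS]
  · intro x hx
    rw [glOfLin_mulVec, lagrSwapLin_apply]
    apply Submodule.sum_mem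
    intro l _
    rw [h.tiA x hx (α l) (hα l), zero_smul, add_zero]
    exact B.smul_mem _ (hβ l)
  · intro x hx
    rw [glOfLin_mulVec, lagrSwapLin_apply]
    apply Submodule.sum_mem
    intro l _
    rw [h.tiB x hx (β l) (hβ l), zero_smul, zero_add]
    exact A.smul_mem _ (hα l)
  · intro x
    rw [glOfLin_mulVec, glOfLin_mulVec, lagrSwap_sq hS]

end lagr2

/-- The stabiliser of a pair of complementary Lagrangian subspaces is maximal in the symplectic
group (odd characteristic, `m ≥ 5`). -/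
theorem sp_lagr_max (h2 : (2 : F) ≠ 0) (hm : 5 ≤ m)
    (D : Fin 2 → Submodule F (Fin m ⊕ Fin m → F)) (hD : IsMDecomposition m D)
    (hts : ∀ i, IsTotallySingularFor (sympForm m F) (D i)) :
    IsMaximalIn (spGL m F) (decompositionStabilizer D ⊓ spGL m F) := by
  have h : IsLagrPair (D 0) (D 1) := ⟨hts 0, hts 1, fun x => by
    obtain ⟨c, hc, hx⟩ := exists_components D hD.iSup_eq_top x
    rw [Fin.sum_univ_two] at hx
    exact ⟨c 0, hc 0, c 1, hc 1, hx⟩, hD.finrank_eq 0, hD.finrank_eq 1⟩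
  have hLeviH : ∀ k ∈ spGL m F,
      (∀ x ∈ D 0, (k : Matrix (Fin m ⊕ Fin m) (Fin m ⊕ Fin m) F) *ᵥ x ∈ D 0) →
      (∀ x ∈ D 1, (k : Matrix (Fin m ⊕ Fin m) (Fin m ⊕ Fin m) F) *ᵥ x ∈ D 1) →
      k ∈ decompositionStabilizer D ⊓ spGL m F := by
    intro k hk h0 h1
    refine ⟨mem_decompStab_of_maps D k 1 ?_ ?_, hk⟩
    · intro l x hx
      fin_cases l
      · exact h0 x hx
      · exact h1 x hx
    · intro l x hx
      fin_cases l
      · exact inv_maps_of_maps k (D 0) (D 0) rfl h0 x hx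
      · exact inv_maps_of_maps k (D 1) (D 1) rfl h1 x hx
  have hSwapH : ∀ k ∈ spGL m F,
      (∀ x ∈ D 0, (k : Matrix (Fin m ⊕ Fin m) (Fin m ⊕ Fin m) F) *ᵥ x ∈ D 1) →
      (∀ x ∈ D 1, (k : Matrix (Fin m ⊕ Fin m) (Fin m ⊕ Fin m) F) *ᵥ x ∈ D 0) →
      k ∈ decompositionStabilizer D ⊓ spGL m F := by
    intro k hk h0 h1
    have e0 : Equiv.swap (0 : Fin 2) 1 0 = 1 := Equiv.swap_apply_left 0 1
    have e1 : Equiv.swap (0 : Fin 2) 1 1 = 0 := Equiv.swap_apply_right 0 1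
    refine ⟨mem_decompStab_of_maps D k (Equiv.swap 0 1) ?_ ?_, hk⟩
    · intro l x hx
      fin_cases l
      · show _ ∈ D (Equiv.swap (0 : Fin 2) 1 0)
        rw [e0]
        exact h0 x hx
      · show _ ∈ D (Equiv.swap (0 : Fin 2) 1 1)
        rw [e1]
        exact h1 x hx
    · intro l x hx
      rw [Equiv.symm_swap]
      fin_cases l
      · show _ ∈ D (Equiv.swap (0 : Fin 2) 1 0)
        rw [e0]
        exact inv_maps_of_maps k (D 1) (D 0) (by rw [h.rankA, h.rankB]) h1 x hx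
      · show _ ∈ D (Equiv.swap (0 : Fin 2) 1 1)
        rw [e1]
        exact inv_maps_of_maps k (D 0) (D 1) (by rw [h.rankA, h.rankB]) h0 x hx
  constructor
  · refine lt_of_le_of_ne inf_le_right ?_
    intro heq
    obtain ⟨a, ha, ha0, -⟩ := h.symm.exists_ne_zero_perp (by omega) 0
    obtain ⟨b, hb, hab⟩ := h.exists_ne ha ha0
    have hT : sympTransGL m b 1 ∈ decompositionStabilizer D ⊓ spGL m F := by
      rw [heq]
      exact sympTransGL_mem m b 1
    obtain ⟨σ, hσ⟩ := (mem_decompositionStabilizer_iff D _).mp hT.1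
    have hmem := mulVec_mem_of_mem_decompositionStabilizer D _ σ hσ 0 a ha
    rw [sympTransGL_mulVec, one_mul] at hmem
    have hb0 : b ≠ 0 := by
      intro h0
      rw [h0, sf_zero_right] at hab
      exact hab rfl
    have h01 : ∀ i : Fin 2, i = 0 ∨ i = 1 := by decide
    rcases h01 (σ 0) with hs | hs
    · rw [hs] at hmem
      have h1 : sympForm m F a b • b ∈ D 0 := by
        have := (D 0).sub_mem hmem ha
        rwa [add_sub_cancel_left] at this
      have h3 : b ∈ D 0 := by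
        have := (D 0).smul_mem (sympForm m F a b)⁻¹ h1
        rwa [smul_smul, inv_mul_cancel₀ hab, one_smul] at this
      exact hb0 (h.inter h3 hb)
    · rw [hs] at hmem
      have h1 : a ∈ D 1 := by
        have := (D 1).sub_mem hmem ((D 1).smul_mem (sympForm m F a b) hb)
        rwa [add_sub_cancel_right] at this
      exact ha0 (h.inter ha h1)
  · intro M hHM hMS
    by_cases hMH : M = decompositionStabilizer D ⊓ spGL m F
    · exact Or.inl hMH
    right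
    apply le_antisymm hMS
    obtain ⟨g, hgM, hgH⟩ := SetLike.not_le_iff_exists.mp (fun hle => hMH (le_antisymm hle hHM))
    have hLevi : ∀ k ∈ spGL m F,
        (∀ x ∈ D 0, (k : Matrix (Fin m ⊕ Fin m) (Fin m ⊕ Fin m) F) *ᵥ x ∈ D 0) →
        (∀ x ∈ D 1, (k : Matrix (Fin m ⊕ Fin m) (Fin m ⊕ Fin m) F) *ᵥ x ∈ D 1) → k ∈ M :=
      fun k hk h0 h1 => hHM (hLeviH k hk h0 h1)
    obtain ⟨s, hsS, hsA, hsB, hss⟩ := h.exists_swap
    have hsM : s ∈ M := hHM (hSwapH s hsS hsA hsB)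
    have hg1 : ¬ ((∀ x ∈ D 0, (g : Matrix (Fin m ⊕ Fin m) (Fin m ⊕ Fin m) F) *ᵥ x ∈ D 0) ∧
        (∀ x ∈ D 1, (g : Matrix (Fin m ⊕ Fin m) (Fin m ⊕ Fin m) F) *ᵥ x ∈ D 1)) :=
      fun hpq => hgH (hLeviH g (hMS hgM) hpq.1 hpq.2)
    have hg2 : ¬ ((∀ x ∈ D 0, (g : Matrix (Fin m ⊕ Fin m) (Fin m ⊕ Fin m) F) *ᵥ x ∈ D 1) ∧
        (∀ x ∈ D 1, (g : Matrix (Fin m ⊕ Fin m) (Fin m ⊕ Fin m) F) *ᵥ x ∈ D 0)) :=
      fun hpq => hgH (hSwapH g (hMS hgM) hpq.1 hpq.2)
    obtain ⟨a₀, ha₀, b₀, hb₀, hab, hcase⟩ := h.good_pair (by omega) g hg1 hg2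
    have hE₀ : siegelSp m a₀ b₀ ∈ M :=
      hLevi _ (siegelSp_mem _ _) (h.siegel_maps ha₀ hb₀ hab).1 (h.siegel_maps ha₀ hb₀ hab).2
    obtain ⟨a', b', hab', hE, ha', hb'⟩ : ∃ a' b' : Fin m ⊕ Fin m → F,
        sympForm m F a' b' = 0 ∧ siegelSp m a' b' ∈ M ∧ a' ∉ D 1 ∧ b' ∉ D 1 := by
      rcases hcase with ⟨c1, c2⟩ | ⟨c1, c2⟩
      · refine ⟨_, _, ?_, ?_, c1, c2⟩
        · rw [(mem_spGL_iff m g).mp (hMS hgM)]
          exact hab
        · rw [← siegelSp_conj g (hMS hgM)]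
          exact M.mul_mem (M.mul_mem hgM hE₀) (M.inv_mem hgM)
      · have hsg : s * g ∈ spGL m F := (spGL m F).mul_mem hsS (hMS hgM)
        refine ⟨((s * g : GL (Fin m ⊕ Fin m) F) : Matrix (Fin m ⊕ Fin m) (Fin m ⊕ Fin m) F) *ᵥ a₀,
          ((s * g : GL (Fin m ⊕ Fin m) F) : Matrix (Fin m ⊕ Fin m) (Fin m ⊕ Fin m) F) *ᵥ b₀,
          ?_, ?_, ?_, ?_⟩
        · rw [(mem_spGL_iff m (s * g)).mp hsg]
          exact hab
        · rw [← siegelSp_conj (s * g) hsg]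
          exact M.mul_mem (M.mul_mem (M.mul_mem hsM hgM) hE₀) (M.inv_mem (M.mul_mem hsM hgM))
        · intro hin
          rw [gl_mul_mulVec] at hin
          apply c1
          have := hsB _ hin
          rw [hss] at this
          simpa using (D 0).neg_mem this
        · intro hin
          rw [gl_mul_mulVec] at hin
          apply c2
          have := hsB _ hin
          rw [hss] at this
          simpa using (D 0).neg_mem this
    obtain ⟨a, ha, ha0, haC⟩ := h.first_center h2 hm M hLevi hab' hE ha' hb'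
    have hAC := h.centers M hLevi ha ha0 haC
    have hBC : ∀ y ∈ D 1, y ∈ transCenters M := by
      intro y hy
      have h1 := hsB y hy
      have h3 := mulVec_mem_transCenters M s hsM hsS (hAC _ ((D 0).neg_mem h1))
      rw [Matrix.mulVec_neg, hss, neg_neg] at h3
      exact h3
    apply spGL_le_of_transCenters
    intro v
    obtain ⟨x, hx, y, hy, rfl⟩ := h.sum v
    by_cases hx0 : x = 0
    · rw [hx0, zero_add]
      exact hBC y hy
    by_cases hxy : sympForm m F x y = 0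
    · obtain ⟨y₂, hy₂, hne⟩ := h.exists_ne hx hx0
      have s1 : x + (y + y₂) ∈ transCenters M :=
        add_mem_transCenters M (hAC x hx) (hBC _ ((D 1).add_mem hy hy₂))
          (by rw [sf_add_right, hxy, zero_add]; exact hne)
      have s2 : (x + (y + y₂)) + (-y₂) ∈ transCenters M :=
        add_mem_transCenters M s1 (hBC _ ((D 1).neg_mem hy₂)) (by
          rw [sf_neg_right, sf_add_left, sf_add_left, h.tiB y hy y₂ hy₂, sf_self, add_zero,
            add_zero]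
          exact neg_ne_zero.mpr hne)
      have e : x + (y + y₂) + (-y₂) = x + y := by abel
      rwa [e] at s2
    · exact add_mem_transCenters M (hAC x hx) (hBC y hy) hxy

end Cfsg.Agent.Lib.Helper94
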