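import Cfsg.Agent.Lib.Helper94.SpPerp

set_option autoImplicit false
set_option linter.unusedSectionVars false

namespace Cfsg.Agent.Lib.Helper94

open Cfsg Cfsg.Geo
open scoped MatrixGroups Matrix

variable {F : Type*} [Field F] {m : ℕ}

/-- A transvection whose centre lies in `W` stabilises `W`. -/
lemma sympTransGL_mem_stab_of_mem [Finite F] (W : Submodule F (Fin m ⊕ Fin m → F))
    {v : Fin m ⊕ Fin m → F} (hv : v ∈ W) (c : F) :
    sympTransGL m v c ∈ subspaceStabilizer W := by
  apply mem_stabilizing_of_mapsTo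
  intro x hx
  rw [sympTransGL_mulVec]
  exact W.add_mem hx (W.smul_mem _ hv)

/-- A transvection whose centre is orthogonal to `W` stabilises `W`. -/
lemma sympTransGL_mem_stab_of_perp [Finite F] (W : Submodule F (Fin m ⊕ Fin m → F))
    {v : Fin m ⊕ Fin m → F} (hv : ∀ w ∈ W, sympForm m F w v = 0) (c : F) :
    sympTransGL m v c ∈ subspaceStabilizer W := by
  apply mem_stabilizing_of_mapsTo
  intro x hx
  rw [sympTransGL_mulVec, hv x hx, mul_zero, zero_smul, add_zero]
  exact hx

/-- An element of `GL` not stabilising `W` moves some vector of `W` out of `W`. -/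
lemma exists_not_mem_of_not_stab [Finite F] (W : Submodule F (Fin m ⊕ Fin m → F))
    (g : GL (Fin m ⊕ Fin m) F) (hg : g ∉ subspaceStabilizer W) :
    ∃ x ∈ W, (g : Matrix (Fin m ⊕ Fin m) (Fin m ⊕ Fin m) F) *ᵥ x ∉ W := by
  by_contra h
  push Not at h
  exact hg (mem_stabilizing_of_mapsTo g _ h)

/-- The stabiliser in the symplectic group of a non-degenerate subspace of dimension less than
half the dimension of the space is a maximal subgroup. -/
theorem sp_nondeg_stab_max [Fintype F] (W : Submodule F (Fin m ⊕ Fin m → F)) (hW0 : W ≠ ⊥)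
    (hW : IsNondegenerateOn (sympForm m F) W) (hdim : Module.finrank F W < m) :
    IsMaximalIn (spGL m F) (subspaceStabilizer W ⊓ spGL m F) := by
  have hcompl := isCompl_sperp W hW
  have hP := sperp_nondeg W hW
  have horth : ∀ x ∈ W, ∀ y ∈ sperp W, sympForm m F x y = 0 :=
    fun x hx y hy => (mem_sperp W y).mp hy x hx
  have horth' : ∀ y ∈ sperp W, ∀ x ∈ W, sympForm m F y x = 0 :=
    fun y hy x hx => (mem_sperp' W y).mp hy x hx
  have hfrP := finrank_sperp W
  have hdisj : ∀ z, z ∈ W → z ∈ sperp W → z = 0 := by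
    intro z h1 h2
    have : z ∈ W ⊓ sperp W := ⟨h1, h2⟩
    rw [hcompl.inf_eq_bot] at this
    exact (Submodule.mem_bot F).mp this
  have hPne : sperp W ≠ ⊥ := by
    intro h
    rw [h] at hfrP
    simp at hfrP
    omega
  obtain ⟨w, hwW, hw0⟩ := Submodule.exists_mem_ne_zero_of_ne_bot hW0
  obtain ⟨y, hyP, hy0⟩ := Submodule.exists_mem_ne_zero_of_ne_bot hPne
  constructor
  · rw [SetLike.lt_iff_le_and_exists]
    refine ⟨inf_le_right, sympTransGL m (w + y) 1, sympTransGL_mem m _ 1, ?_⟩
    intro hmem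
    have hstab := (mem_stabilizing_iff _ _).mp (Subgroup.mem_inf.mp hmem).1
    obtain ⟨⟨x, hx, hxw⟩, -⟩ := hW w hwW hw0
    have h1 := (hstab x).mp hx
    rw [sympTransGL_mulVec, one_mul, sf_add_right, horth x hx y hyP, add_zero] at h1
    have h2 : sympForm m F x w • (w + y) ∈ W := by
      have := W.sub_mem h1 hx
      rwa [add_sub_cancel_left] at this
    have h3 : w + y ∈ W := by
      have := W.smul_mem (sympForm m F x w)⁻¹ h2
      rwa [smul_smul, inv_mul_cancel₀ hxw, one_smul] at this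
    have h4 : y ∈ W := by
      have := W.sub_mem h3 hwW
      rwa [add_sub_cancel_left] at this
    exact hy0 (hdisj y h4 hyP)
  · intro M hM1 hM2
    by_cases hMH : M = subspaceStabilizer W ⊓ spGL m F
    · exact Or.inl hMH
    right
    refine le_antisymm hM2 (spGL_le_of_transCenters M ?_)
    obtain ⟨g, hgM, hgH⟩ := SetLike.exists_of_lt (lt_of_le_of_ne hM1 (Ne.symm hMH))
    have hgS : g ∈ spGL m F := hM2 hgM
    have hgW : g ∉ subspaceStabilizer W := fun h => hgH (Subgroup.mem_inf.mpr ⟨h, hgS⟩)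
    have hWC : ∀ d ∈ W, d ∈ transCenters M := fun d hd c =>
      hM1 (Subgroup.mem_inf.mpr ⟨sympTransGL_mem_stab_of_mem W hd c, sympTransGL_mem m d c⟩)
    have hPC : ∀ d ∈ sperp W, d ∈ transCenters M := fun d hd c =>
      hM1 (Subgroup.mem_inf.mpr ⟨sympTransGL_mem_stab_of_perp W
        (fun w hw => horth w hw d hd) c, sympTransGL_mem m d c⟩)
    have hgC : ∀ v ∈ transCenters M,
        (g : Matrix (Fin m ⊕ Fin m) (Fin m ⊕ Fin m) F) *ᵥ v ∈ transCenters M :=
      fun v hv => mulVec_mem_transCenters M g hgM hgS hv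
    obtain ⟨x, hx, hgx⟩ := exists_not_mem_of_not_stab W g hgW
    -- a centre with two non-zero components
    have hA : ∃ x₀ ∈ W, ∃ y₀ ∈ sperp W, x₀ ≠ 0 ∧ y₀ ≠ 0 ∧ x₀ + y₀ ∈ transCenters M := by
      by_contra hno
      push Not at hno
      have hsplit : ∀ v ∈ transCenters M, v ∈ W ∨ v ∈ sperp W := by
        intro v hv
        obtain ⟨p, hp, q, hq, rfl⟩ := exists_add_sperp W hW v
        by_cases hp0 : p = 0
        · right; rw [hp0, zero_add]; exact hq
        · left
          by_contra hnW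
          have hq0 : q ≠ 0 := by
            rintro rfl
            rw [add_zero] at hnW
            exact hnW hp
          exact hno p hp q hq hp0 hq0 hv
      have hgxP : (g : Matrix (Fin m ⊕ Fin m) (Fin m ⊕ Fin m) F) *ᵥ x ∈ sperp W :=
        (hsplit _ (hgC x (hWC x hx))).resolve_left hgx
      have hgx0 : (g : Matrix (Fin m ⊕ Fin m) (Fin m ⊕ Fin m) F) *ᵥ x ≠ 0 := by
        intro h
        rw [h] at hgx
        exact hgx W.zero_mem
      -- g maps W into the complement
      have hWP : ∀ x' ∈ W, (g : Matrix (Fin m ⊕ Fin m) (Fin m ⊕ Fin m) F) *ᵥ x' ∈ sperp W := by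
        intro x' hx'
        by_contra hnP
        have h1 : (g : Matrix (Fin m ⊕ Fin m) (Fin m ⊕ Fin m) F) *ᵥ x' ∈ W :=
          (hsplit _ (hgC x' (hWC x' hx'))).resolve_right hnP
        have h10 : (g : Matrix (Fin m ⊕ Fin m) (Fin m ⊕ Fin m) F) *ᵥ x' ≠ 0 := by
          intro h
          rw [h] at hnP
          exact hnP (sperp W).zero_mem
        have h2 := hgC (x' + x) (hWC _ (W.add_mem hx' hx))
        rw [Matrix.mulVec_add] at h2
        exact hno _ h1 _ hgxP h10 hgx0 h2
      -- g does not map the complement into W (dimension)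
      have hex : ∃ z₁ ∈ sperp W,
          (g : Matrix (Fin m ⊕ Fin m) (Fin m ⊕ Fin m) F) *ᵥ z₁ ∉ W := by
        by_contra hall
        push Not at hall
        let φ : sperp W →ₗ[F] W :=
          (Matrix.toLin' (g : Matrix (Fin m ⊕ Fin m) (Fin m ⊕ Fin m) F)).restrict
            (fun z hz => by rw [Matrix.toLin'_apply]; exact hall z hz)
        have hinj : Function.Injective φ := by
          intro a b hab
          have h1 := congrArg Subtype.val hab
          simp only [φ, LinearMap.coe_restrict_apply, Matrix.toLin'_apply] at h1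
          exact Subtype.ext (gl_mulVec_injective g h1)
        have := LinearMap.finrank_le_finrank_of_injective hinj
        omega
      obtain ⟨z₁, hz₁, hgz₁⟩ := hex
      have hgz₁P : (g : Matrix (Fin m ⊕ Fin m) (Fin m ⊕ Fin m) F) *ᵥ z₁ ∈ sperp W :=
        (hsplit _ (hgC z₁ (hPC z₁ hz₁))).resolve_left hgz₁
      have hgz₁0 : (g : Matrix (Fin m ⊕ Fin m) (Fin m ⊕ Fin m) F) *ᵥ z₁ ≠ 0 := by
        intro h
        rw [h] at hgz₁
        exact hgz₁ W.zero_mem
      have hPP : ∀ z ∈ sperp W,
          (g : Matrix (Fin m ⊕ Fin m) (Fin m ⊕ Fin m) F) *ᵥ z ∈ sperp W := by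
        intro z hz
        by_contra hnP
        have h1 : (g : Matrix (Fin m ⊕ Fin m) (Fin m ⊕ Fin m) F) *ᵥ z ∈ W :=
          (hsplit _ (hgC z (hPC z hz))).resolve_right hnP
        have h10 : (g : Matrix (Fin m ⊕ Fin m) (Fin m ⊕ Fin m) F) *ᵥ z ≠ 0 := by
          intro h
          rw [h] at hnP
          exact hnP (sperp W).zero_mem
        have h2 := hgC (z + z₁) (hPC _ ((sperp W).add_mem hz hz₁))
        rw [Matrix.mulVec_add] at h2
        exact hno _ h1 _ hgz₁P h10 hgz₁0 h2
      -- hence g maps everything into the complement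
      have hall : ∀ v, (g : Matrix (Fin m ⊕ Fin m) (Fin m ⊕ Fin m) F) *ᵥ v ∈ sperp W := by
        intro v
        obtain ⟨p, hp, q, hq, rfl⟩ := exists_add_sperp W hW v
        rw [Matrix.mulVec_add]
        exact (sperp W).add_mem (hWP p hp) (hPP q hq)
      have hwP : w ∈ sperp W := by
        have := hall (((g⁻¹ : GL (Fin m ⊕ Fin m) F) :
          Matrix (Fin m ⊕ Fin m) (Fin m ⊕ Fin m) F) *ᵥ w)
        rwa [gl_mulVec_inv_mulVec] at this
      exact hw0 (hdisj w hwW hwP)
    obtain ⟨x₀, hx₀, y₀, hy₀, hx₀0, hy₀0, hxy⟩ := hA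
    intro v
    obtain ⟨p, hp, q, hq, rfl⟩ := exists_add_sperp W hW v
    exact pair_mem_transCenters M W (sperp W) hWC hPC horth hW hP hx₀ hy₀ hx₀0 hy₀0 hxy hp hq

end Cfsg.Agent.Lib.Helper94
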