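import Cfsg.Agent.Lib.Helper94.SpClosure

set_option autoImplicit false
set_option linter.unusedSectionVars false

namespace Cfsg.Agent.Lib.Helper94

open Cfsg Cfsg.Geo
open scoped MatrixGroups Matrix

variable {F : Type*} [Field F] {m : ℕ}

/-- The standard alternating form as a bilinear form. -/
noncomputable def sfB (m : ℕ) (F : Type*) [Field F] : LinearMap.BilinForm F (Fin m ⊕ Fin m → F) :=
  LinearMap.mk₂ F (sympForm m F) (sf_add_left m) (fun c u v => by simpa using sf_smul_left m c u v)
    (sf_add_right m) (fun c u v => by simpa using sf_smul_right m c u v)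

theorem sfB_apply (u v : Fin m ⊕ Fin m → F) : sfB m F u v = sympForm m F u v := rfl

theorem sfB_isRefl : (sfB m F).IsRefl := by
  intro x y h
  rw [sfB_apply] at h ⊢
  rw [sf_swap, h, neg_zero]

theorem sfB_nondegenerate : (sfB m F).Nondegenerate := by
  constructor
  · intro x hx
    by_contra hne
    obtain ⟨z, hz⟩ := Cfsg.Agent.Lib.Helper8.exists_sympForm_ne_zero hne
    exact hz (hx z)
  · intro y hy
    by_contra hne
    obtain ⟨z, hz⟩ := Cfsg.Agent.Lib.Helper8.exists_sympForm_ne_zero hne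
    apply hz
    have := hy z
    rw [sfB_apply] at this
    rw [sf_swap, this, neg_zero]

/-- The orthogonal complement of a subspace for the standard alternating form. -/
noncomputable def sperp (W : Submodule F (Fin m ⊕ Fin m → F)) :
    Submodule F (Fin m ⊕ Fin m → F) := (sfB m F).orthogonal W

theorem mem_sperp (W : Submodule F (Fin m ⊕ Fin m → F)) (x : Fin m ⊕ Fin m → F) :
    x ∈ sperp W ↔ ∀ w ∈ W, sympForm m F w x = 0 := by
  unfold sperp
  rw [LinearMap.BilinForm.mem_orthogonal_iff]
  rfl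

theorem mem_sperp' (W : Submodule F (Fin m ⊕ Fin m → F)) (x : Fin m ⊕ Fin m → F) :
    x ∈ sperp W ↔ ∀ w ∈ W, sympForm m F x w = 0 := by
  rw [mem_sperp]
  constructor
  · intro h w hw
    rw [sf_swap, h w hw, neg_zero]
  · intro h w hw
    rw [sf_swap, h w hw, neg_zero]

theorem finrank_sperp (W : Submodule F (Fin m ⊕ Fin m → F)) :
    Module.finrank F (sperp W) = 2 * m - Module.finrank F W := by
  unfold sperp
  rw [LinearMap.BilinForm.finrank_orthogonal sfB_nondegenerate, Module.finrank_fintype_fun_eq_card]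
  simp only [Fintype.card_sum, Fintype.card_fin]
  congr 1
  ring

theorem sperp_sperp (W : Submodule F (Fin m ⊕ Fin m → F)) : sperp (sperp W) = W :=
  LinearMap.BilinForm.orthogonal_orthogonal sfB_nondegenerate sfB_isRefl W

theorem isCompl_sperp (W : Submodule F (Fin m ⊕ Fin m → F))
    (hW : IsNondegenerateOn (sympForm m F) W) : IsCompl W (sperp W) := by
  apply LinearMap.BilinForm.isCompl_orthogonal_of_restrict_nondegenerate sfB_isRefl
  constructor
  · intro x hx
    by_contra hne
    have hne' : (x : Fin m ⊕ Fin m → F) ≠ 0 := fun h => hne (Subtype.ext h)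
    obtain ⟨-, ⟨y, hy, hxy⟩⟩ := hW x x.2 hne'
    exact hxy (hx ⟨y, hy⟩)
  · intro y hy
    by_contra hne
    have hne' : (y : Fin m ⊕ Fin m → F) ≠ 0 := fun h => hne (Subtype.ext h)
    obtain ⟨⟨x, hx, hxy⟩, -⟩ := hW y y.2 hne'
    exact hxy (hy ⟨x, hx⟩)

/-- Decomposition of a vector along a non-degenerate subspace and its orthogonal complement. -/
theorem exists_add_sperp (W : Submodule F (Fin m ⊕ Fin m → F))
    (hW : IsNondegenerateOn (sympForm m F) W) (v : Fin m ⊕ Fin m → F) :
    ∃ p ∈ W, ∃ q ∈ sperp W, p + q = v := by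
  have h := (isCompl_sperp W hW).sup_eq_top
  have hv : v ∈ W ⊔ sperp W := by rw [h]; exact Submodule.mem_top
  exact Submodule.mem_sup.mp hv

theorem sperp_nondeg (W : Submodule F (Fin m ⊕ Fin m → F))
    (hW : IsNondegenerateOn (sympForm m F) W) : IsNondegenerateOn (sympForm m F) (sperp W) := by
  have key : ∀ x ∈ sperp W, x ≠ 0 → ∃ y ∈ sperp W, sympForm m F x y ≠ 0 := by
    intro x hx hx0
    obtain ⟨z, hz⟩ := Cfsg.Agent.Lib.Helper8.exists_sympForm_ne_zero hx0
    obtain ⟨p, hp, q, hq, rfl⟩ := exists_add_sperp W hW z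
    refine ⟨q, hq, ?_⟩
    rw [sf_add_right, (mem_sperp' W x).mp hx p hp, zero_add] at hz
    exact hz
  intro x hx hx0
  obtain ⟨y, hy, hxy⟩ := key x hx hx0
  exact ⟨⟨y, hy, by rw [sf_swap]; exact neg_ne_zero.mpr hxy⟩, ⟨y, hy, hxy⟩⟩

end Cfsg.Agent.Lib.Helper94
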