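import Cfsg.Agent.Lib.Helper94.SpBasis

set_option autoImplicit false
set_option linter.unusedSectionVars false

namespace Cfsg.Agent.Lib.Helper94

open Cfsg Cfsg.Geo
open scoped MatrixGroups Matrix

variable {F : Type*} [Field F] {m : ℕ}

section swap

variable {r : ℕ} (α β : Fin r → (Fin m ⊕ Fin m → F))

/-- The linear map `x ↦ Σ (−f(x, β l) α l + f(x, α l) β l)`. -/
def swapAux : (Fin m ⊕ Fin m → F) →ₗ[F] (Fin m ⊕ Fin m → F) :=
  ∑ l, (-(sfL m (β l)).smulRight (α l) + (sfL m (α l)).smulRight (β l))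

theorem swapAux_apply (x : Fin m ⊕ Fin m → F) :
    swapAux α β x = ∑ l, (-(sympForm m F x (β l) • α l) + sympForm m F x (α l) • β l) := by
  simp [swapAux, LinearMap.sum_apply, sfL_apply]

/-- Relations making `1 + swapAux` a symplectic involution. -/
structure IsSwapPair (α β : Fin r → (Fin m ⊕ Fin m → F)) : Prop where
  αα : ∀ l l', sympForm m F (α l) (α l') = 0
  ββ : ∀ l l', sympForm m F (β l) (β l') = 0
  αβ : ∀ l l', sympForm m F (α l) (β l') = if l = l' then 2 else 0

variable {α β}

theorem IsSwapPair.βα (h : IsSwapPair α β) (l l' : Fin r) :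
    sympForm m F (β l) (α l') = if l = l' then -2 else 0 := by
  rw [sf_swap, h.αβ l' l]
  by_cases hl : l = l'
  · rw [if_pos hl, if_pos hl.symm]
  · rw [if_neg hl, if_neg (Ne.symm hl), neg_zero]

theorem sf_swapAux_α (h : IsSwapPair α β) (x : Fin m ⊕ Fin m → F) (l' : Fin r) :
    sympForm m F (swapAux α β x) (α l') = -2 * sympForm m F x (α l') := by
  rw [swapAux_apply, sf_sum_left, Finset.sum_eq_single l']
  · rw [sf_add_left, sf_neg_left, sf_smul_left, sf_smul_left, h.αα, h.βα, if_pos rfl]
    ring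
  · intro l _ hl
    rw [sf_add_left, sf_neg_left, sf_smul_left, sf_smul_left, h.αα, h.βα, if_neg hl]
    ring
  · intro h'
    exact absurd (Finset.mem_univ _) h'

theorem sf_swapAux_β (h : IsSwapPair α β) (x : Fin m ⊕ Fin m → F) (l' : Fin r) :
    sympForm m F (swapAux α β x) (β l') = -2 * sympForm m F x (β l') := by
  rw [swapAux_apply, sf_sum_left, Finset.sum_eq_single l']
  · rw [sf_add_left, sf_neg_left, sf_smul_left, sf_smul_left, h.ββ, h.αβ, if_pos rfl]
    ring
  · intro l _ hl
    rw [sf_add_left, sf_neg_left, sf_smul_left, sf_smul_left, h.ββ, h.αβ, if_neg hl]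
    ring
  · intro h'
    exact absurd (Finset.mem_univ _) h'

theorem sf_right_swapAux (x y : Fin m ⊕ Fin m → F) :
    sympForm m F x (swapAux α β y)
      = ∑ l, (-(sympForm m F y (β l) * sympForm m F x (α l))
          + sympForm m F y (α l) * sympForm m F x (β l)) := by
  rw [swapAux_apply, sf_sum_right]
  apply Finset.sum_congr rfl
  intro l _
  rw [sf_add_right, sf_neg_right, sf_smul_right, sf_smul_right]

theorem sf_left_swapAux (x y : Fin m ⊕ Fin m → F) :
    sympForm m F (swapAux α β x) y = sympForm m F x (swapAux α β y) := by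
  rw [sf_right_swapAux, swapAux_apply, sf_sum_left]
  apply Finset.sum_congr rfl
  intro l _
  rw [sf_add_left, sf_neg_left, sf_smul_left, sf_smul_left, sf_swap m (α l) y,
    sf_swap m (β l) y]
  ring

theorem sf_swapAux_swapAux (h : IsSwapPair α β) (x y : Fin m ⊕ Fin m → F) :
    sympForm m F (swapAux α β x) (swapAux α β y) = -2 * sympForm m F x (swapAux α β y) := by
  rw [sf_right_swapAux, sf_right_swapAux, Finset.mul_sum]
  apply Finset.sum_congr rfl
  intro l _
  rw [sf_swapAux_α h, sf_swapAux_β h]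
  ring

theorem swapAux_swapAux (h : IsSwapPair α β) (x : Fin m ⊕ Fin m → F) :
    swapAux α β (swapAux α β x) = (-2 : F) • swapAux α β x := by
  rw [swapAux_apply, swapAux_apply, Finset.smul_sum]
  apply Finset.sum_congr rfl
  intro l _
  rw [← swapAux_apply, sf_swapAux_α h, sf_swapAux_β h]
  module

variable (α β)

/-- The symplectic involution `x ↦ x + swapAux x`. -/
def swapLin : (Fin m ⊕ Fin m → F) →ₗ[F] (Fin m ⊕ Fin m → F) :=
  LinearMap.id + swapAux α β

variable {α β}

theorem swapLin_apply (x : Fin m ⊕ Fin m → F) : swapLin α β x = x + swapAux α β x := rfl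

theorem swapLin_swapLin (h : IsSwapPair α β) (x : Fin m ⊕ Fin m → F) :
    swapLin α β (swapLin α β x) = x := by
  rw [swapLin_apply, swapLin_apply, map_add, swapAux_swapAux h]
  module

/-- The symplectic involution as an invertible matrix. -/
noncomputable def swapGL (h : IsSwapPair α β) : GL (Fin m ⊕ Fin m) F :=
  glOfLin (swapLin α β) (swapLin α β)
    (LinearMap.ext fun x => by simpa using swapLin_swapLin h x)
    (LinearMap.ext fun x => by simpa using swapLin_swapLin h x)

theorem swapGL_mulVec (h : IsSwapPair α β) (x : Fin m ⊕ Fin m → F) :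
    ((swapGL h : GL (Fin m ⊕ Fin m) F) : Matrix (Fin m ⊕ Fin m) (Fin m ⊕ Fin m) F) *ᵥ x
      = x + swapAux α β x := by
  rw [swapGL, glOfLin_mulVec, swapLin_apply]

theorem swapGL_inv (h : IsSwapPair α β) : (swapGL h)⁻¹ = swapGL h := rfl

theorem swapGL_mem (h : IsSwapPair α β) : swapGL h ∈ spGL m F := by
  rw [mem_spGL_iff]
  intro x y
  rw [swapGL_mulVec, swapGL_mulVec, sf_add_left, sf_add_right, sf_add_right,
    sf_swapAux_swapAux h, sf_left_swapAux]
  ring

theorem swapAux_eq_zero (x : Fin m ⊕ Fin m → F) (hα : ∀ l, sympForm m F x (α l) = 0)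
    (hβ : ∀ l, sympForm m F x (β l) = 0) : swapAux α β x = 0 := by
  rw [swapAux_apply]
  apply Finset.sum_eq_zero
  intro l _
  rw [hα l, hβ l]
  simp

end swap

/-- The difference of symplectic bases of two orthogonal subspaces is a swap pair. -/
theorem isSwapPair_sub {r : ℕ} (A B : Submodule F (Fin m ⊕ Fin m → F))
    (horth : ∀ x ∈ A, ∀ y ∈ B, sympForm m F x y = 0)
    (a b a' b' : Fin r → (Fin m ⊕ Fin m → F)) (hA : IsSympBasis A a b)
    (hB : IsSympBasis B a' b') :
    IsSwapPair (fun l => a l - a' l) (fun l => b l - b' l) := by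
  have horth' : ∀ y ∈ B, ∀ x ∈ A, sympForm m F y x = 0 := by
    intro y hy x hx
    rw [sf_swap, horth x hx y hy, neg_zero]
  refine ⟨?_, ?_, ?_⟩
  · intro l l'
    simp only [sf_sub_left, sf_sub_right, hA.aa, hB.aa, horth _ (hA.mem_a l) _ (hB.mem_a l'),
      horth' _ (hB.mem_a l) _ (hA.mem_a l')]
    ring
  · intro l l'
    simp only [sf_sub_left, sf_sub_right, hA.bb, hB.bb, horth _ (hA.mem_b l) _ (hB.mem_b l'),
      horth' _ (hB.mem_b l) _ (hA.mem_b l')]
    ring
  · intro l l'
    simp only [sf_sub_left, sf_sub_right, hA.ab, hB.ab, horth _ (hA.mem_a l) _ (hB.mem_b l'),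
      horth' _ (hB.mem_a l) _ (hA.mem_b l')]
    split_ifs <;> ring

/-- The swap maps the first subspace into the second. -/
theorem swap_mem_of_mem {r : ℕ} (A B : Submodule F (Fin m ⊕ Fin m → F))
    (horth : ∀ x ∈ A, ∀ y ∈ B, sympForm m F x y = 0)
    (a b a' b' : Fin r → (Fin m ⊕ Fin m → F)) (hA : IsSympBasis A a b)
    (hB : IsSympBasis B a' b') (x : Fin m ⊕ Fin m → F) (hx : x ∈ A) :
    x + swapAux (fun l => a l - a' l) (fun l => b l - b' l) x ∈ B := by
  have hx' := hA.expand x hx
  have key : x + swapAux (fun l => a l - a' l) (fun l => b l - b' l) x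
      = ∑ l, (sympForm m F x (b l) • a' l - sympForm m F x (a l) • b' l) := by
    rw [swapAux_apply]
    nth_rewrite 1 [hx']
    rw [← Finset.sum_add_distrib]
    apply Finset.sum_congr rfl
    intro l _
    rw [sf_sub_right, sf_sub_right, horth x hx _ (hB.mem_b l), horth x hx _ (hB.mem_a l)]
    module
  rw [key]
  apply Submodule.sum_mem
  intro l _
  exact B.sub_mem (B.smul_mem _ (hB.mem_a l)) (B.smul_mem _ (hB.mem_b l))

/-- The swap maps the second subspace into the first. -/
theorem swap_mem_of_mem' {r : ℕ} (A B : Submodule F (Fin m ⊕ Fin m → F))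
    (horth : ∀ x ∈ A, ∀ y ∈ B, sympForm m F x y = 0)
    (a b a' b' : Fin r → (Fin m ⊕ Fin m → F)) (hA : IsSympBasis A a b)
    (hB : IsSympBasis B a' b') (x : Fin m ⊕ Fin m → F) (hx : x ∈ B) :
    x + swapAux (fun l => a l - a' l) (fun l => b l - b' l) x ∈ A := by
  have horth' : ∀ y ∈ B, ∀ x ∈ A, sympForm m F y x = 0 := by
    intro y hy x hx
    rw [sf_swap, horth x hx y hy, neg_zero]
  have hx' := hB.expand x hx
  have key : x + swapAux (fun l => a l - a' l) (fun l => b l - b' l) x
      = ∑ l, (sympForm m F x (b' l) • a l - sympForm m F x (a' l) • b l) := by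
    rw [swapAux_apply]
    nth_rewrite 1 [hx']
    rw [← Finset.sum_add_distrib]
    apply Finset.sum_congr rfl
    intro l _
    rw [sf_sub_right, sf_sub_right, horth' x hx _ (hA.mem_b l), horth' x hx _ (hA.mem_a l)]
    module
  rw [key]
  apply Submodule.sum_mem
  intro l _
  exact A.sub_mem (A.smul_mem _ (hA.mem_a l)) (A.smul_mem _ (hA.mem_b l))

end Cfsg.Agent.Lib.Helper94
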