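import Cfsg.Agent.Lib.Helper94.Refl

set_option autoImplicit false
set_option linter.unusedSectionVars false

namespace Cfsg.Agent.Lib.Helper94

open Cfsg Cfsg.Geo
open scoped MatrixGroups Matrix

variable {F : Type*} [Field F] (m : ℕ)

theorem sf_eq (u v : Fin m ⊕ Fin m → F) :
    sympForm m F u v
      = ∑ i : Fin m, (u (Sum.inr i) * v (Sum.inl i) - u (Sum.inl i) * v (Sum.inr i)) := by
  unfold Cfsg.sympForm Matrix.J
  rw [Matrix.fromBlocks_mulVec]
  simp only [dotProduct, Fintype.sum_sum_type, Sum.elim_inl, Sum.elim_inr, Matrix.zero_mulVec,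
    Matrix.neg_mulVec, Matrix.one_mulVec, zero_add, add_zero, Pi.neg_apply, Function.comp_apply]
  rw [← Finset.sum_add_distrib]
  apply Finset.sum_congr rfl
  intro i _
  ring

theorem sf_self (u : Fin m ⊕ Fin m → F) : sympForm m F u u = 0 := by
  rw [sf_eq]
  apply Finset.sum_eq_zero
  intro i _
  ring

theorem sf_swap (u v : Fin m ⊕ Fin m → F) : sympForm m F u v = - sympForm m F v u := by
  rw [sf_eq, sf_eq, ← Finset.sum_neg_distrib]
  apply Finset.sum_congr rfl
  intro i _
  ring

theorem sf_add_left (u u' v : Fin m ⊕ Fin m → F) :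
    sympForm m F (u + u') v = sympForm m F u v + sympForm m F u' v := by
  unfold Cfsg.sympForm
  rw [add_dotProduct]

theorem sf_add_right (u v v' : Fin m ⊕ Fin m → F) :
    sympForm m F u (v + v') = sympForm m F u v + sympForm m F u v' := by
  unfold Cfsg.sympForm
  rw [Matrix.mulVec_add, dotProduct_add]

theorem sf_smul_left (a : F) (u v : Fin m ⊕ Fin m → F) :
    sympForm m F (a • u) v = a * sympForm m F u v := by
  unfold Cfsg.sympForm
  rw [smul_dotProduct, smul_eq_mul]

theorem sf_smul_right (a : F) (u v : Fin m ⊕ Fin m → F) :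
    sympForm m F u (a • v) = a * sympForm m F u v := by
  unfold Cfsg.sympForm
  rw [Matrix.mulVec_smul, dotProduct_smul, smul_eq_mul]

theorem sf_zero_left (v : Fin m ⊕ Fin m → F) : sympForm m F 0 v = 0 := by
  unfold Cfsg.sympForm
  rw [zero_dotProduct]

theorem sf_zero_right (u : Fin m ⊕ Fin m → F) : sympForm m F u 0 = 0 := by
  unfold Cfsg.sympForm
  rw [Matrix.mulVec_zero, dotProduct_zero]

/-- The functional `v ↦ f(v, a)`. -/
def sfL (a : Fin m ⊕ Fin m → F) : (Fin m ⊕ Fin m → F) →ₗ[F] F where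
  toFun v := sympForm m F v a
  map_add' u v := sf_add_left m u v a
  map_smul' c u := by simpa using sf_smul_left m c u a

/-- The functional `v ↦ f(a, v)`. -/
def sfR (a : Fin m ⊕ Fin m → F) : (Fin m ⊕ Fin m → F) →ₗ[F] F where
  toFun v := sympForm m F a v
  map_add' u v := sf_add_right m a u v
  map_smul' c u := by simpa using sf_smul_right m c a u

theorem sf_sum_right {κ : Type*} (s : Finset κ) (u : Fin m ⊕ Fin m → F)
    (w : κ → (Fin m ⊕ Fin m → F)) :
    sympForm m F u (∑ j ∈ s, w j) = ∑ j ∈ s, sympForm m F u (w j) :=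
  map_sum (sfR m u) w s

theorem sf_sum_left {κ : Type*} (s : Finset κ) (u : Fin m ⊕ Fin m → F)
    (w : κ → (Fin m ⊕ Fin m → F)) :
    sympForm m F (∑ j ∈ s, w j) u = ∑ j ∈ s, sympForm m F (w j) u :=
  map_sum (sfL m u) w s

/-- The symplectic transvection `x ↦ x + c f(x, a) a` as a linear map. -/
def sympTransLin (a : Fin m ⊕ Fin m → F) (c : F) :
    (Fin m ⊕ Fin m → F) →ₗ[F] (Fin m ⊕ Fin m → F) :=
  LinearMap.id + c • (sfL m a).smulRight a

theorem sympTransLin_apply (a : Fin m ⊕ Fin m → F) (c : F) (x : Fin m ⊕ Fin m → F) :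
    sympTransLin m a c x = x + (c * sympForm m F x a) • a := by
  simp [sympTransLin, sfL, smul_smul]

theorem sympTransLin_neg (a : Fin m ⊕ Fin m → F) (c : F) (x : Fin m ⊕ Fin m → F) :
    sympTransLin m a c (sympTransLin m a (-c) x) = x := by
  rw [sympTransLin_apply, sympTransLin_apply, sf_add_left, sf_smul_left, sf_self]
  module

/-- The symplectic transvection as an invertible matrix. -/
noncomputable def sympTransGL (a : Fin m ⊕ Fin m → F) (c : F) : GL (Fin m ⊕ Fin m) F :=
  glOfLin (sympTransLin m a c) (sympTransLin m a (-c))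
    (LinearMap.ext fun v => by simpa using sympTransLin_neg m a c v)
    (LinearMap.ext fun v => by simpa using sympTransLin_neg m a (-c) v)

theorem sympTransGL_mulVec (a : Fin m ⊕ Fin m → F) (c : F) (x : Fin m ⊕ Fin m → F) :
    ((sympTransGL m a c : GL (Fin m ⊕ Fin m) F) : Matrix (Fin m ⊕ Fin m) (Fin m ⊕ Fin m) F) *ᵥ x
      = x + (c * sympForm m F x a) • a := by
  rw [sympTransGL, glOfLin_mulVec, sympTransLin_apply]

theorem mem_spGL_iff (g : GL (Fin m ⊕ Fin m) F) :
    g ∈ spGL m F ↔ ∀ u v, sympForm m F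
      ((g : Matrix (Fin m ⊕ Fin m) (Fin m ⊕ Fin m) F) *ᵥ u)
      ((g : Matrix (Fin m ⊕ Fin m) (Fin m ⊕ Fin m) F) *ᵥ v) = sympForm m F u v := Iff.rfl

theorem sympTransGL_mem (a : Fin m ⊕ Fin m → F) (c : F) : sympTransGL m a c ∈ spGL m F := by
  rw [mem_spGL_iff]
  intro x y
  rw [sympTransGL_mulVec, sympTransGL_mulVec]
  simp only [sf_add_left, sf_add_right, sf_smul_left, sf_smul_right, sf_self]
  rw [sf_swap m a y]
  ring

end Cfsg.Agent.Lib.Helper94
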